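import Cfsg.Agent.H68.TitsRed

/-! A sharper form of `TitsRed.red`: for the two elements of length 7 the unipotent factor may be taken in the
radical of the minimal parabolic. -/

set_option autoImplicit false

namespace Cfsg.Agent.H68.TitsRed

open Cfsg.Agent.ChevGrp Cfsg.Agent.ChevGrp.RGrp Cfsg.Agent.Tw4

section gen

variable {l n : ℕ} {S : WSys l n} {G : Type*} [Group G] {R : RGrp S G}

theorem step3 (i : Fin l) {m : G} (hm : m ∈ R.N) {u : Equiv.Perm (Fin n)} (hu : R.Act m u)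
    (h1 : u (S.p i) = S.p i) {y x h : G} (hy : y ∈ R.Ui i) (hx : x ∈ R.X (S.p i)) (hx1 : x ≠ 1) (hh : h ∈ R.H) :
    ∃ c ∈ R.Grp, ∃ b' ∈ R.B, ∃ m' ∈ R.N, R.Act m' (S.w i * u) ∧ c * (y * x * h * m) * c⁻¹ = b' * m' := by
  have hnn : R.nn i ∈ R.Grp := N_le_Grp (R.nn_mem_N i)
  have ht := (act_nn (R := R) i).conj hx
  rw [S.w_p] at ht
  have ht1 : R.nn i * x * (R.nn i)⁻¹ ≠ 1 := by
    intro h; apply hx1
    have : x = (R.nn i)⁻¹ * (R.nn i * x * (R.nn i)⁻¹) * R.nn i := by group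
    rw [this, h]; group
  obtain ⟨a, ha, h', hh', c, hc, hac⟩ := R.rank1 i _ ht ht1
  have hcw : u * S.w i * u⁻¹ = S.w i := S.conj_w u hu.1 i i h1
  have hcomm : S.w i * u = u * S.w i := by
    rw [mul_inv_eq_iff_eq_mul] at hcw; exact hcw.symm
  -- m'' = nn i * m * nn i⁻¹
  have hm2 : R.nn i * m * (R.nn i)⁻¹ ∈ R.N := mul_mem (mul_mem (R.nn_mem_N i) hm) (inv_mem (R.nn_mem_N i))
  have hact2 : R.Act (R.nn i * m * (R.nn i)⁻¹) u := by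
    have h2 := ((act_nn (R := R) i).mul hu).mul (act_nn (R := R) i).inv
    have e0 : S.w i * u * (S.w i)⁻¹ = u := by
      rw [S.w_inv, hcomm, mul_assoc, S.w_mul_w, mul_one]
    rwa [e0] at h2
  generalize hm'' : R.nn i * m * (R.nn i)⁻¹ = m2 at hm2 hact2
  have hinv : u⁻¹ (S.p i) = S.p i := by
    rw [Equiv.Perm.inv_eq_iff_eq]; exact h1.symm
  have hc2 : m2⁻¹ * c * m2 ∈ R.B := by
    have := hact2.conj' hc
    rw [hinv] at this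
    exact R.U_le_B (R.X_le_U (S.pos_p i) this)
  have hhh : R.nn i * h * (R.nn i)⁻¹ ∈ R.H := R.nn_H i h hh
  have hβ : (m2⁻¹ * h' * m2) * (m2⁻¹ * c * m2) * (m2⁻¹ * (R.nn i * h * (R.nn i)⁻¹) * m2) ∈ R.B :=
    mul_mem (mul_mem (R.H_le_B (N_conj_H' hm2 hh')) hc2) (R.H_le_B (N_conj_H' hm2 hhh))
  generalize hβ' : (m2⁻¹ * h' * m2) * (m2⁻¹ * c * m2) * (m2⁻¹ * (R.nn i * h * (R.nn i)⁻¹) * m2) = β at hβ
  refine ⟨β * R.nn i, mul_mem (B_le_Grp hβ) hnn, β * (R.nn i * y * (R.nn i)⁻¹) * a,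
    mul_mem (mul_mem hβ (R.U_le_B (R.Ui_le_U i (nn_Ui i y hy)))) (R.U_le_B (R.X_le_U (S.pos_p i) ha)),
    R.nn i * m2, mul_mem (R.nn_mem_N i) hm2, (act_nn i).mul hact2, ?_⟩
  have e1 : β * R.nn i * (y * x * h * m) * (β * R.nn i)⁻¹ =
      β * (R.nn i * y * (R.nn i)⁻¹) * (R.nn i * x * (R.nn i)⁻¹) * (R.nn i * h * (R.nn i)⁻¹) *
        (R.nn i * m * (R.nn i)⁻¹) * β⁻¹ := by group
  rw [e1, hac, hm'']
  have e2 : h' * c * (R.nn i * h * (R.nn i)⁻¹) * m2 = m2 * β := by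
    rw [← hβ']; group
  calc β * (R.nn i * y * (R.nn i)⁻¹) * (a * R.nn i * h' * c) * (R.nn i * h * (R.nn i)⁻¹) * m2 * β⁻¹ =
      β * (R.nn i * y * (R.nn i)⁻¹) * a * R.nn i * (h' * c * (R.nn i * h * (R.nn i)⁻¹) * m2) * β⁻¹ := by group
    _ = _ := by rw [e2]; group

end gen

section s16

theorem fix16 : el16 13 (p16 1) = p16 1 ∧ el16 14 (p16 0) = p16 0 ∧ w16 1 * el16 13 = el16 15 ∧
    w16 0 * el16 14 = el16 15 := by
  decide +kernel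

variable {G : Type*} [Group G] (R : RGrp S16 G)

theorem red2' (hH : R.H = ⊥) {g : G} (hg : g ∈ R.Grp) (hg1 : g ≠ 1) :
    ∃ c ∈ R.Grp, ∃ b ∈ R.U, ∃ m ∈ R.N, ∃ k : Fin 16,
      (k = 13 ∧ b ∈ R.Ui 1 ∨ k = 14 ∧ b ∈ R.Ui 0 ∨ k = 15) ∧ R.Act m (el16 k) ∧
      c * g * c⁻¹ = b * m := by
  have hBU : ∀ b ∈ R.B, b ∈ R.U := by
    intro b hb
    obtain ⟨v, hv, h, hh, rfl⟩ := mem_B.1 hb
    rw [hH, Subgroup.mem_bot] at hh
    subst hh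
    rwa [mul_one]
  obtain ⟨c, hc, b, hb, m, hm, k, hk, hu, e⟩ := red16' R hH hg hg1
  rcases hk with rfl | rfl | rfl
  · obtain ⟨y, hy, x, hx, rfl⟩ := mem_U' 1 (hBU b hb)
    by_cases hx1 : x = 1
    · subst hx1
      rw [mul_one] at e
      exact ⟨c, hc, y, R.Ui_le_U 1 hy, m, hm, 13, Or.inl ⟨rfl, hy⟩, hu, e⟩
    · obtain ⟨c', hc', b', hb', m', hm', hu', e'⟩ := step3 1 hm hu fix16.1 hy hx hx1 (one_mem R.H)
      have h15 : R.Act m' (el16 15) := by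
        rw [← fix16.2.2.1]; exact hu'
      refine ⟨c' * c, mul_mem hc' hc, b', hBU _ hb', m', hm', 15, Or.inr (Or.inr rfl), h15, ?_⟩
      rw [← e', mul_one, ← e]; group
  · obtain ⟨y, hy, x, hx, rfl⟩ := mem_U' 0 (hBU b hb)
    by_cases hx1 : x = 1
    · subst hx1
      rw [mul_one] at e
      exact ⟨c, hc, y, R.Ui_le_U 0 hy, m, hm, 14, Or.inr (Or.inl ⟨rfl, hy⟩), hu, e⟩
    · obtain ⟨c', hc', b', hb', m', hm', hu', e'⟩ := step3 0 hm hu fix16.2.1 hy hx hx1 (one_mem R.H)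
      have h15 : R.Act m' (el16 15) := by
        rw [← fix16.2.2.2]; exact hu'
      refine ⟨c' * c, mul_mem hc' hc, b', hBU _ hb', m', hm', 15, Or.inr (Or.inr rfl), h15, ?_⟩
      rw [← e', mul_one, ← e]; group
  · exact ⟨c, hc, b, hBU b hb, m, hm, 15, Or.inr (Or.inr rfl), hu, e⟩

/-- Sharper reduction: `u n_{w0}`, or `u n_{w0 s_i}` with `u` in the radical `U_i`. -/
theorem red2 (hH : R.H = ⊥) {g : G} (hg : g ∈ R.Grp) (hg1 : g ≠ 1) :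
    ∃ c ∈ R.Grp, (∃ u ∈ R.U, c * g * c⁻¹ = u * R.nd (word16 15)) ∨
      (∃ u ∈ R.Ui 1, c * g * c⁻¹ = u * R.nd (word16 13)) ∨
      (∃ u ∈ R.Ui 0, c * g * c⁻¹ = u * R.nd (word16 14)) := by
  obtain ⟨c, hc, b, hb, m, hm, k, hk, hu, e⟩ := red2' R hH hg hg1
  have h1 : R.Act (R.nd (word16 k)) (el16 k) := act_nd (word16 k)
  have h2 : (R.nd (word16 k))⁻¹ * m ∈ R.H := inv_mul_mem_H (nd_mem_N _) hm h1 hu
  rw [hH, Subgroup.mem_bot, inv_mul_eq_one] at h2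
  refine ⟨c, hc, ?_⟩
  rcases hk with ⟨rfl, h⟩ | ⟨rfl, h⟩ | rfl
  · right; left; exact ⟨b, h, by rw [e, h2]⟩
  · right; right; exact ⟨b, h, by rw [e, h2]⟩
  · left; exact ⟨b, hb, by rw [e, h2]⟩

end s16

end Cfsg.Agent.H68.TitsRed
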