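import Mathlib

set_option autoImplicit false

namespace Cfsg.Agent.H68.PR

open Subgroup

/-- An automorphism of the normal subgroup `P` intertwining `x` and `y` extends to the whole group. -/
theorem exists_aut {G : Type*} [Group G] [Finite G] {P : Subgroup G} [hP : P.Normal] {x y : G}
    (hx : P.IsComplement' (zpowers x)) (hy : P.IsComplement' (zpowers y)) (ho : orderOf x = orderOf y)
    (τ : P ≃* P)
    (hτ : ∀ v : P, ((τ ⟨x * v * x⁻¹, hP.conj_mem v v.2 x⟩ : P) : G) = y * τ v * y⁻¹) :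
    ∃ α : MulAut G, (∀ v : P, α v = τ v) ∧ α x = y := by
  have hgx : ∀ g : zpowers x, g ∈ zpowers (⟨x, mem_zpowers x⟩ : zpowers x) := by
    rintro ⟨g, k, rfl⟩
    exact ⟨k, by ext; simp⟩
  have hgy : ∀ g : zpowers y, g ∈ zpowers (⟨y, mem_zpowers y⟩ : zpowers y) := by
    rintro ⟨g, k, rfl⟩
    exact ⟨k, by ext; simp⟩
  let e : zpowers x ≃* zpowers y := mulEquivOfOrderOfEq hgx hgy (by
    rw [Subgroup.orderOf_mk, Subgroup.orderOf_mk, ho])
  have hex : e ⟨x, mem_zpowers x⟩ = ⟨y, mem_zpowers y⟩ := mulEquivOfOrderOfEq_apply_gen _ _ _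
  have hpow : ∀ (n : ℕ) (v : P), ((τ ⟨x ^ n * v * (x ^ n)⁻¹, hP.conj_mem v v.2 (x ^ n)⟩ : P) : G) =
      y ^ n * τ v * (y ^ n)⁻¹ := by
    intro n
    induction n with
    | zero => intro v; simp
    | succ n ih =>
      intro v
      have h1 := hτ ⟨x ^ n * v * (x ^ n)⁻¹, hP.conj_mem v v.2 (x ^ n)⟩
      rw [ih v] at h1
      have h2 : (⟨x ^ (n + 1) * v * (x ^ (n + 1))⁻¹, hP.conj_mem v v.2 (x ^ (n + 1))⟩ : P) =
          ⟨x * (⟨x ^ n * v * (x ^ n)⁻¹, hP.conj_mem v v.2 (x ^ n)⟩ : P) * x⁻¹, hP.conj_mem _ (Subtype.mem _) x⟩ := by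
        ext
        simp only
        rw [pow_succ']; group
      rw [h2, h1, pow_succ']; group
  have hcompat : ∀ g : zpowers x, (((P.normalizerMonoidHom).comp
      (inclusion (P.normalizer_eq_top ▸ le_top : zpowers x ≤ normalizer (P : Set G)))) g).trans τ =
      τ.trans (((P.normalizerMonoidHom).comp
      (inclusion (P.normalizer_eq_top ▸ le_top : zpowers y ≤ normalizer (P : Set G)))) (e g)) := by
    intro g
    obtain ⟨g, hg⟩ := g
    have hg' : g ∈ Submonoid.powers x := by rw [mem_powers_iff_mem_zpowers]; exact hg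
    obtain ⟨n, rfl⟩ := hg'
    have h1 : (⟨(fun n => x ^ n) n, hg⟩ : zpowers x) = ⟨x, mem_zpowers x⟩ ^ n := by ext; simp
    have he : ((e ⟨(fun n => x ^ n) n, hg⟩ : zpowers y) : G) = y ^ n := by
      rw [h1, map_pow, hex]; simp
    ext v
    show ((τ ⟨x ^ n * v * (x ^ n)⁻¹, hP.conj_mem v v.2 (x ^ n)⟩ : P) : G) =
      ((e ⟨(fun n => x ^ n) n, hg⟩ : zpowers y) : G) * τ v * ((e ⟨(fun n => x ^ n) n, hg⟩ : zpowers y) : G)⁻¹
    rw [he, hpow]
  let F := (SemidirectProduct.mulEquivSubgroup hx).symm.trans ((SemidirectProduct.congr τ e hcompat).trans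
    (SemidirectProduct.mulEquivSubgroup hy))
  refine ⟨F, ?_, ?_⟩
  · intro v
    have h1 : (SemidirectProduct.mulEquivSubgroup hx).symm (v : G) = SemidirectProduct.inl v := by
      rw [MulEquiv.symm_apply_eq]
      simp [SemidirectProduct.mulEquivSubgroup, SemidirectProduct.monoidHomSubgroup]
    show (SemidirectProduct.mulEquivSubgroup hy) ((SemidirectProduct.congr τ e hcompat)
      ((SemidirectProduct.mulEquivSubgroup hx).symm (v : G))) = _
    rw [h1]
    simp [SemidirectProduct.mulEquivSubgroup, SemidirectProduct.monoidHomSubgroup, SemidirectProduct.congr]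
  · have h1 : (SemidirectProduct.mulEquivSubgroup hx).symm x = SemidirectProduct.inr ⟨x, mem_zpowers x⟩ := by
      rw [MulEquiv.symm_apply_eq]
      simp [SemidirectProduct.mulEquivSubgroup, SemidirectProduct.monoidHomSubgroup]
    show (SemidirectProduct.mulEquivSubgroup hy) ((SemidirectProduct.congr τ e hcompat)
      ((SemidirectProduct.mulEquivSubgroup hx).symm x)) = _
    rw [h1]
    simp [SemidirectProduct.mulEquivSubgroup, SemidirectProduct.monoidHomSubgroup, SemidirectProduct.congr, hex]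

end Cfsg.Agent.H68.PR
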