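import Mathlib
import Cfsg.Agent.H68.BS4F
import Cfsg.Agent.H23.BendRed3

/-!
# Strongly embedded subgroups: dichotomy, unconditionally
-/

set_option autoImplicit false
set_option linter.unusedVariables false

namespace Cfsg.Agent.H68.BS4

open MulAction
open Cfsg.Agent.H64.Bend
open Cfsg.Agent.H9.CS (OddSolv FourIn S4 IH)
open Cfsg.Agent.H37.BE (TwoTr CommMod)
open Cfsg.Agent.H33 (IsSyl cj mem_cj)

universe u v

section

variable {G : Type u} [Group G] [Finite G] {H : Subgroup G}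

omit [Finite G] in
theorem exists_two_points (hH : Cfsg.IsStronglyEmbedded H) : ∃ a b : G ⧸ H, a ≠ b := by
  obtain ⟨g, -, hg⟩ := SetLike.exists_of_lt (lt_top_iff_ne_top.2 hH.1)
  refine ⟨QuotientGroup.mk (1 : G), QuotientGroup.mk g, ?_⟩
  intro h
  rw [QuotientGroup.eq, inv_one, one_mul] at h
  exact hg h

/-- 2-rank at least two: the point involutions commute modulo a normal subgroup `X` of odd order contained in `H`, and
`G` is 2-transitive on the cosets of `H` -/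
theorem rank_two (hH : Cfsg.IsStronglyEmbedded H)
    (hf : ∃ a b : G, Iv a ∧ Iv b ∧ a * b = b * a ∧ a ≠ b) :
    (∃ X : Subgroup G, X.Normal ∧ Odd (Nat.card X) ∧ X ≤ H ∧ ∀ s ∈ H, ∀ t ∈ H, Iv s → Iv t → (s * t) * (s * t) ∈ X) ∧
    TwoTr G (G ⧸ H) := by
  have h := bset_of_stronglyEmbedded hH
  have hab := exists_two_points hH
  obtain ⟨s, t, hs, ht, hst, hne⟩ := hf
  have hfour : FourIn (⊤ : Subgroup G) := ⟨s, trivial, t, trivial, hs, ht, hne, hst⟩
  obtain ⟨X, hXn, hXodd, hX⟩ : CommMod G (G ⧸ H) :=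
    Cfsg.Agent.H37.BE.commMod oddSolv s4Hyp G (G ⧸ H) h hfour hab
  have hmov : ∀ a : G ⧸ H, ¬ (⊤ : Subgroup G) ≤ stabilizer G a := by
    intro a hle
    obtain ⟨x, y, hxy⟩ := hab
    obtain ⟨g, hg⟩ := h.trans a x
    obtain ⟨g', hg'⟩ := h.trans a y
    have h1 : g • a = a := hle trivial
    have h2 : g' • a = a := hle trivial
    exact hxy (by rw [← hg, ← hg', h1, h2])
  have hbig : Big (G ⧸ H) (⊤ : Subgroup G) := ⟨hmov, ⟨s, trivial, t, trivial, hs, ht, hne, hst⟩⟩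
  have om : OM (G ⧸ H) (⊤ : Subgroup G) X := ⟨hbig, le_top, fun x _ o ho => hXn.conj_mem o ho x, hXodd⟩
  have hlam : ∀ a : G ⧸ H, Lam (⊤ : Subgroup G) a := by
    intro a
    obtain ⟨t, ht, hta⟩ := h.ev a
    exact ⟨t, trivial, ht, hta⟩
  refine ⟨⟨X, hXn, hXodd, ?_, ?_⟩, ?_⟩
  · intro x hx
    have h1 := om.fix h (hlam (QuotientGroup.mk (1 : G))) hx
    rw [MulAction.mem_stabilizer_iff, Cfsg.Agent.StrEmb.smul_mk_eq_iff] at h1
    simpa using h1
  · intro s hs t ht hsi hti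
    exact hX _ s (mem_Ia_one.2 ⟨hsi, hs⟩) t (mem_Ia_one.2 ⟨hti, ht⟩)
  · intro e e' f f' he hf
    obtain ⟨g, -, h1, h2⟩ := trans2_of h om (fun c x _ y _ hx hy => hX c x hx y hy) e e' f f' he hf (hlam e) (hlam e')
      (hlam f) (hlam f')
    exact ⟨g, h1, h2⟩

/-- 2-rank one: the odd core moves a point -/
theorem rank_one (hH : Cfsg.IsStronglyEmbedded H)
    (hc : ∀ a b : G, orderOf a = 2 → orderOf b = 2 → a * b = b * a → a = b) : ¬ Cfsg.pPrimeCore 2 G ≤ H := by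
  intro hle
  obtain ⟨t, htH, ht⟩ := Cfsg.Agent.StrEmb.exists_involution_mem hH
  obtain ⟨N, hN, hodd, hs⟩ := zstar_type (X := G) (iv_iff.2 ht) (fun x y hx hy hxy => hc x y (iv_iff.1 hx) (iv_iff.1 hy) hxy)
  have hNle : N ≤ H := by
    refine le_trans ?_ hle
    exact Cfsg.Agent.Solv.le_pPrimeCore hN (Nat.coprime_two_right.2 hodd)
  obtain ⟨g, -, hg⟩ := SetLike.exists_of_lt (lt_top_iff_ne_top.2 hH.1)
  -- all conjugates of `t` are in `H`
  have hall : ∀ x : G, Iv x → x ∈ H := by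
    intro x hx
    obtain ⟨o, ho, rfl⟩ := hs x hx
    exact mul_mem (hNle ho) htH
  have h1 : t ∈ H ⊓ H.map (MulAut.conj g).toMonoidHom := by
    refine ⟨htH, ?_⟩
    have h2 : t ∈ cj g H := by
      rw [mem_cj]
      have := (iv_iff.2 ht).conj g⁻¹
      rw [inv_inv] at this
      exact hall _ this
    exact h2
  exact not_iv_of_odd (hH.2.2 g hg) (iv_iff.2 ht) h1

/-- **S1220** -/
theorem dichotomy (hH : Cfsg.IsStronglyEmbedded H) :
    (∀ g₁ g₂ : G, g₁ ∉ H → g₂ ∉ H → ∃ h ∈ H, g₂⁻¹ * (h * g₁) ∈ H) ∨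
    ((∀ S : Sylow 2 G, IsCyclic S ∨ ∃ m : ℕ, 1 ≤ m ∧ Nonempty ((S : Subgroup G) ≃* QuaternionGroup (2 ^ m))) ∧
      Cfsg.pPrimeCore 2 G ⊔ H = ⊤) := by
  by_cases hf : ∃ a b : G, Iv a ∧ Iv b ∧ a * b = b * a ∧ a ≠ b
  · left
    intro g₁ g₂ h₁ h₂
    obtain ⟨-, h2⟩ := rank_two hH hf
    obtain ⟨g, hg1, hg2⟩ := h2 (QuotientGroup.mk (1 : G)) (QuotientGroup.mk g₁) (QuotientGroup.mk (1 : G))
      (QuotientGroup.mk g₂) (fun h => h₁ (by rw [QuotientGroup.eq, inv_one, one_mul] at h; exact h))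
      (fun h => h₂ (by rw [QuotientGroup.eq, inv_one, one_mul] at h; exact h))
    refine ⟨g, ?_, ?_⟩
    · rw [Cfsg.Agent.StrEmb.smul_mk_eq_iff] at hg1
      simpa using hg1
    · have h3 : (QuotientGroup.mk (g * g₁) : G ⧸ H) = QuotientGroup.mk g₂ := hg2
      rw [QuotientGroup.eq] at h3
      have h4 := inv_mem h3
      have e : ((g * g₁)⁻¹ * g₂)⁻¹ = g₂⁻¹ * (g * g₁) := by group
      rwa [e] at h4
  · right
    have hc : ∀ a b : G, orderOf a = 2 → orderOf b = 2 → a * b = b * a → a = b := by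
      intro a b ha hb hab
      by_contra hne
      exact hf ⟨a, b, iv_iff.2 ha, iv_iff.2 hb, hab, hne⟩
    exact ⟨Cfsg.Agent.H23.Bend.sylow_type hc, Cfsg.Agent.H23.Bend.rank_one_sup hH (rank_one hH hc)⟩

/-- **S1223** : `C(j)` is odd -/
theorem odd_cent (hH : Cfsg.IsStronglyEmbedded H) (hcore : H.normalCore = ⊥) {u : G} (hu : Iv u) (huH : u ∉ H)
    {j : G} (hj : j ∈ H) (hj2 : u⁻¹ * j * u ∈ H) (hj1 : j ≠ 1) (hinv : u * j * u⁻¹ = j⁻¹) :
    Odd (Nat.card (Subgroup.centralizer ({j} : Set G))) := by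
  have h := bset_of_stronglyEmbedded hH
  apply odd_of_no_iv
  intro s hs hsi
  have hsj : s * j = j * s := Subgroup.mem_centralizer_singleton_iff.1 hs
  -- `j` has odd order
  have hjD : j ∈ Da G (QuotientGroup.mk (1 : G) : G ⧸ H) (QuotientGroup.mk u) := by
    constructor
    · change j • (QuotientGroup.mk (1 : G) : G ⧸ H) = QuotientGroup.mk 1
      rw [Cfsg.Agent.StrEmb.smul_mk_eq_iff]; simpa using hj
    · change j • (QuotientGroup.mk u : G ⧸ H) = QuotientGroup.mk u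
      rw [Cfsg.Agent.StrEmb.smul_mk_eq_iff]; exact hj2
  have hne : (QuotientGroup.mk (1 : G) : G ⧸ H) ≠ QuotientGroup.mk u := by
    intro h1
    rw [QuotientGroup.eq, inv_one, one_mul] at h1
    exact huH h1
  have hjodd : Odd (orderOf j) := odd_orderOf (h.odd_Da hne) hjD
  obtain ⟨c, hc⟩ := h.fix u hu
  have hF := F3 h hu hc hsi hjodd hj1 hinv hsj
  have hsc : s • c = c := hF hs
  have hjc : j • c = c := hF (by rw [Subgroup.mem_centralizer_singleton_iff])
  -- no four-group or commuting modulo X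
  by_cases hf : ∃ a b : G, Iv a ∧ Iv b ∧ a * b = b * a ∧ a ≠ b
  · obtain ⟨⟨X, hXn, hXodd, hXH, hX⟩, -⟩ := rank_two hH hf
    have hX1 : X = ⊥ := by
      rw [eq_bot_iff, ← hcore]
      exact Subgroup.normal_le_normalCore.2 hXH
    -- conjugate to the point 1
    obtain ⟨g, hg⟩ := QuotientGroup.mk_surjective c
    have hmem : ∀ y : G, y • c = c → g⁻¹ * y * g ∈ H := by
      intro y hy
      rw [← hg, Cfsg.Agent.StrEmb.smul_mk_eq_iff] at hy
      exact hy
    have hui : Iv (g⁻¹ * u * g) := by have := hu.conj g⁻¹; rwa [inv_inv] at this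
    have hu'c : (j * u * j⁻¹) • c = c := by
      have := conj_smul_eq (g := j) hc
      rwa [hjc] at this
    have hu'i : Iv (g⁻¹ * (j * u * j⁻¹) * g) := by have := (hu.conj j).conj g⁻¹; rwa [inv_inv] at this
    have h3 := hX _ (hmem u hc) _ (hmem _ hu'c) hui hu'i
    rw [hX1, Subgroup.mem_bot] at h3
    have e : g⁻¹ * u * g * (g⁻¹ * (j * u * j⁻¹) * g) = g⁻¹ * (u * j * u * j⁻¹) * g := by group
    have e2 : u * j * u * j⁻¹ = j⁻¹ * j⁻¹ := by
      have h4 := hinv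
      rw [hu.inv] at h4
      rw [h4]
    rw [e, e2] at h3
    have h5 : j ^ 4 = 1 := by
      have e3 : g⁻¹ * (j⁻¹ * j⁻¹) * g * (g⁻¹ * (j⁻¹ * j⁻¹) * g) = g⁻¹ * (j ^ 4)⁻¹ * g := by group
      rw [e3] at h3
      have h6 : (j ^ 4)⁻¹ = g * (g⁻¹ * (j ^ 4)⁻¹ * g) * g⁻¹ := by group
      rw [h3] at h6
      rw [← inv_eq_one, h6]; group
    have h6 : j * j ∈ (⊥ : Subgroup G) := by
      apply odd_sq_mem (k := j * j)
      · exact odd_orderOf (K := Subgroup.zpowers j) (by rw [Nat.card_zpowers]; exact hjodd)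
          (mul_mem (Subgroup.mem_zpowers j) (Subgroup.mem_zpowers j))
      · rw [Subgroup.mem_bot]
        calc j * j * (j * j) = j ^ 4 := by
              rw [show (4 : ℕ) = 2 + 2 by norm_num, pow_add, sq]
          _ = 1 := h5
    exact hj1 (Subgroup.mem_bot.1 (odd_sq_mem hjodd h6))
  · -- 2-rank one: `u` and `s` are conjugate in `N(⟨j⟩)`
    push Not at hf
    have huN := inv_zpowers hinv
    have hsN : s ∈ Subgroup.normalizer ((Subgroup.zpowers j : Subgroup G) : Set G) := by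
      apply mem_norm_of_conj
      rintro _ ⟨n, rfl⟩
      refine ⟨n, ?_⟩
      change j ^ n = s * j ^ n * s⁻¹
      rw [← conj_zpow]
      have : s * j * s⁻¹ = j := by rw [hsj]; group
      rw [this]
    obtain ⟨x, hx, h1⟩ : ∃ x ∈ Subgroup.normalizer ((Subgroup.zpowers j : Subgroup G) : Set G), x * s * x⁻¹ = u := by
      rcases dihedral hsi hu with ⟨k, h1, h2, _⟩ | ⟨k, h1, h2, h3⟩
      · exact ⟨_, mul_mem (pow_mem (mul_mem hsN huN) k) hsN, h2⟩
      · have e1 := hf _ _ h1 hsi h2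
        have e2 := hf _ _ h1 hu h3
        refine ⟨1, one_mem _, ?_⟩
        rw [one_mul, inv_one, mul_one]
        exact e1.symm.trans e2
    have h2 : x⁻¹ * j * x ∈ Subgroup.zpowers j := by
      have := conj_mem' (inv_mem hx) (Subgroup.mem_zpowers j)
      rwa [inv_inv] at this
    obtain ⟨n, hn⟩ := h2
    have hn' : j ^ n = x⁻¹ * j * x := hn
    have h3 : u * j = j * u := by
      have h4 : s * j ^ n = j ^ n * s := (((show Commute s j from hsj).zpow_right n)).eq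
      rw [hn'] at h4
      rw [← h1]
      calc x * s * x⁻¹ * j = x * (s * (x⁻¹ * j * x)) * x⁻¹ := by group
        _ = x * ((x⁻¹ * j * x) * s) * x⁻¹ := by rw [h4]
        _ = j * (x * s * x⁻¹) := by group
    have h5 : j = j⁻¹ := by
      rw [← hinv, h3]; group
    have h6 : j * j ∈ (⊥ : Subgroup G) := by
      rw [Subgroup.mem_bot]; nth_rewrite 1 [h5]; exact inv_mul_cancel j
    exact hj1 (Subgroup.mem_bot.1 (odd_sq_mem hjodd h6))

end

end Cfsg.Agent.H68.BS4
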