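import Mathlib.Tactic
import Mathlib.Order.WellFounded
import Mathlib.Data.Fintype.Order

set_option autoImplicit false

namespace Cfsg.Agent.H68

open Classical in
/-- For a subset `S` of a finite poset, `euler S x = 1 - ∑_{y ∈ S, y > x} euler S y`. -/
noncomputable def euler {α : Type*} [Fintype α] [PartialOrder α] (S : Set α) : α → ℤ :=
  (wellFounded_gt (α := α)).fix (C := fun _ => ℤ)
    fun x rec => 1 - ∑ y : {y : α // x < y ∧ y ∈ S}, rec y.1 y.2.1

open Classical in
theorem euler_eq {α : Type*} [Fintype α] [PartialOrder α] (S : Set α) (x : α) :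
    euler S x = 1 - ∑ y ∈ Finset.univ.filter (fun y => x < y ∧ y ∈ S), euler S y := by
  rw [euler, WellFounded.fix_eq]
  congr 1
  symm
  apply Finset.sum_subtype
  intro y
  simp

open Classical in
theorem sum_euler_ge {α : Type*} [Fintype α] [PartialOrder α] (S : Set α) {x : α} (hx : x ∈ S) :
    ∑ y ∈ Finset.univ.filter (fun y => x ≤ y ∧ y ∈ S), euler S y = 1 := by
  have h1 : Finset.univ.filter (fun y => x ≤ y ∧ y ∈ S) =
      insert x (Finset.univ.filter (fun y => x < y ∧ y ∈ S)) := by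
    ext y
    simp only [Finset.mem_filter, Finset.mem_univ, true_and, Finset.mem_insert]
    constructor
    · rintro ⟨h, hy⟩
      rcases h.eq_or_lt with rfl | h
      · exact Or.inl rfl
      · exact Or.inr ⟨h, hy⟩
    · rintro (rfl | ⟨h, hy⟩)
      · exact ⟨le_rfl, hx⟩
      · exact ⟨h.le, hy⟩
  rw [h1, Finset.sum_insert (by simp), euler_eq]
  ring

open Classical in
/-- Uniqueness of `euler` above `x`. -/
theorem euler_unique {α : Type*} [Fintype α] [PartialOrder α] (T : Set α) (x : α) (A : α → ℤ)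
    (hA : ∀ z ∈ T, x < z → ∑ y ∈ Finset.univ.filter (fun y => z ≤ y ∧ y ∈ T), A y = 1) :
    ∀ z ∈ T, x < z → A z = euler T z := by
  intro z
  induction z using (wellFounded_gt (α := α)).induction with
  | _ z ih =>
    intro hz hxz
    have h1 : Finset.univ.filter (fun y => z ≤ y ∧ y ∈ T) =
        insert z (Finset.univ.filter (fun y => z < y ∧ y ∈ T)) := by
      ext y
      simp only [Finset.mem_filter, Finset.mem_univ, true_and, Finset.mem_insert]
      constructor
      · rintro ⟨h, hy⟩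
        rcases h.eq_or_lt with rfl | h
        · exact Or.inl rfl
        · exact Or.inr ⟨h, hy⟩
      · rintro (rfl | ⟨h, hy⟩)
        · exact ⟨le_rfl, hz⟩
        · exact ⟨h.le, hy⟩
    have h2 := hA z hz hxz
    rw [h1, Finset.sum_insert (by simp)] at h2
    rw [euler_eq]
    have h3 : ∑ y ∈ Finset.univ.filter (fun y => z < y ∧ y ∈ T), A y =
        ∑ y ∈ Finset.univ.filter (fun y => z < y ∧ y ∈ T), euler T y := by
      apply Finset.sum_congr rfl
      intro y hy
      rw [Finset.mem_filter] at hy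
      exact ih y hy.2.1 hy.2.2 (hxz.trans hy.2.1)
    rw [← h3]
    linarith

open Classical in
/-- A decreasing monotone retraction above `x` does not change the value of `euler` at `x`. -/
theorem euler_retract {α : Type*} [Fintype α] [PartialOrder α] (S T : Set α) (x : α) (hTS : T ⊆ S)
    (f : α → α) (hfT : ∀ y ∈ S, x < y → f y ∈ T) (hfx : ∀ y ∈ S, x < y → x < f y)
    (hfle : ∀ y ∈ S, x < y → f y ≤ y) (hmono : ∀ y ∈ S, x < y → ∀ z ∈ S, x < z → y ≤ z → f y ≤ f z)
    (hfix : ∀ t ∈ T, x < t → f t = t) : euler S x = euler T x := by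
  let A : α → ℤ := fun z => ∑ y ∈ Finset.univ.filter (fun y => x < y ∧ y ∈ S ∧ f y = z), euler S y
  have hA : ∀ z ∈ T, x < z → ∑ y ∈ Finset.univ.filter (fun y => z ≤ y ∧ y ∈ T), A y = 1 := by
    intro z hz hxz
    rw [← sum_euler_ge S (hTS hz)]
    show ∑ y ∈ Finset.univ.filter (fun y => z ≤ y ∧ y ∈ T),
      ∑ w ∈ Finset.univ.filter (fun w => x < w ∧ w ∈ S ∧ f w = y), euler S w = _
    rw [← Finset.sum_biUnion]
    · apply Finset.sum_congr _ (fun _ _ => rfl)
      ext w
      simp only [Finset.mem_biUnion, Finset.mem_filter, Finset.mem_univ, true_and]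
      constructor
      · rintro ⟨y, ⟨hzy, hyT⟩, hxw, hwS, rfl⟩
        exact ⟨hzy.trans (hfle w hwS hxw), hwS⟩
      · rintro ⟨hzw, hwS⟩
        have hxw := lt_of_lt_of_le hxz hzw
        refine ⟨f w, ⟨?_, hfT w hwS hxw⟩, hxw, hwS, rfl⟩
        have := hmono z (hTS hz) hxz w hwS hxw hzw
        rwa [hfix z hz hxz] at this
    · intro y _ y' _ hyy'
      rw [Function.onFun, Finset.disjoint_left]
      intro w hw hw'
      rw [Finset.mem_filter] at hw hw'
      exact hyy' (hw.2.2.2.symm.trans hw'.2.2.2)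
  have hAeq := euler_unique T x A hA
  rw [euler_eq S x, euler_eq T x]
  congr 1
  have h1 : ∑ y ∈ Finset.univ.filter (fun y => x < y ∧ y ∈ T), euler T y =
      ∑ y ∈ Finset.univ.filter (fun y => x < y ∧ y ∈ T), A y := by
    apply Finset.sum_congr rfl
    intro y hy
    rw [Finset.mem_filter] at hy
    exact (hAeq y hy.2.2 hy.2.1).symm
  rw [h1]
  show _ = ∑ y ∈ Finset.univ.filter (fun y => x < y ∧ y ∈ T),
      ∑ w ∈ Finset.univ.filter (fun w => x < w ∧ w ∈ S ∧ f w = y), euler S w
  rw [← Finset.sum_biUnion]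
  · apply Finset.sum_congr _ (fun _ _ => rfl)
    ext w
    simp only [Finset.mem_biUnion, Finset.mem_filter, Finset.mem_univ, true_and]
    constructor
    · rintro ⟨hxw, hwS⟩
      exact ⟨f w, ⟨hfx w hwS hxw, hfT w hwS hxw⟩, hxw, hwS, rfl⟩
    · rintro ⟨y, -, hxw, hwS, -⟩
      exact ⟨hxw, hwS⟩
  · intro y _ y' _ hyy'
    rw [Function.onFun, Finset.disjoint_left]
    intro w hw hw'
    rw [Finset.mem_filter] at hw hw'
    exact hyy' (hw.2.2.2.symm.trans hw'.2.2.2)

end Cfsg.Agent.H68
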