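import Mathlib

set_option autoImplicit false

namespace Cfsg.Agent.H68.PR

open Polynomial

theorem exists_linearEquiv_apply {K V W : Type*} [Field K] [AddCommGroup V] [Module K V] [AddCommGroup W]
    [Module K W] [Finite K] [Finite V] [Finite W] (hc : Nat.card V = Nat.card W) {v : V} {w : W} (hv : v ≠ 0)
    (hw : w ≠ 0) : ∃ τ : V ≃ₗ[K] W, τ v = w := by
  have : Module.Finite K V := Module.Finite.of_finite
  have : Module.Finite K W := Module.Finite.of_finite
  have hfr : Module.finrank K V = Module.finrank K W := by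
    have h1 : Nat.card V = Nat.card K ^ Module.finrank K V := Module.natCard_eq_pow_finrank
    have h2 : Nat.card W = Nat.card K ^ Module.finrank K W := Module.natCard_eq_pow_finrank
    rw [h1, h2] at hc
    exact Nat.pow_right_injective (Finite.one_lt_card) hc
  let e : V ≃ₗ[K] W := LinearEquiv.ofFinrankEq V W hfr
  have hev : e v ≠ 0 := by
    intro h0
    exact hv ((LinearEquiv.map_eq_zero_iff e).1 h0)
  let f : Submodule.span K {e v} ≃ₗ[K] Submodule.span K {w} :=
    (LinearEquiv.toSpanNonzeroSingleton K W (e v) hev).symm.trans (LinearEquiv.toSpanNonzeroSingleton K W w hw)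
  obtain ⟨g, hg⟩ := Submodule.exists_linearEquiv_restrict_eq f
  refine ⟨e.trans g, ?_⟩
  have h1 := hg ⟨e v, Submodule.mem_span_singleton_self _⟩
  rw [LinearEquiv.trans_apply, ← h1]
  have h2 : (LinearEquiv.toSpanNonzeroSingleton K W (e v) hev).symm ⟨e v, Submodule.mem_span_singleton_self _⟩ = 1 := by
    rw [LinearEquiv.symm_apply_eq]
    ext
    simp
  show (((LinearEquiv.toSpanNonzeroSingleton K W w hw) ((LinearEquiv.toSpanNonzeroSingleton K W (e v) hev).symm
    ⟨e v, Submodule.mem_span_singleton_self _⟩) : Submodule.span K {w}) : W) = w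
  rw [h2]
  simp

/-- copy of `V` with the module structure given by `φ` -/
def Cp {K V : Type*} [Semiring K] [AddCommGroup V] (_ : K →+* AddMonoid.End V) : Type _ := V

noncomputable instance cpAddCommGroup_H68 {K V : Type*} [Semiring K] [AddCommGroup V] (φ : K →+* AddMonoid.End V) :
    AddCommGroup (Cp φ) := inferInstanceAs (AddCommGroup V)

noncomputable instance cpModule_H68 {K V : Type*} [Semiring K] [AddCommGroup V] (φ : K →+* AddMonoid.End V) :
    Module K (Cp φ) where
  smul k v := (φ k : V → V) v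
  one_smul v := by
    show (φ 1 : V → V) v = v
    rw [map_one]; rfl
  mul_smul a b v := by
    show (φ (a * b) : V → V) v = (φ a : V → V) ((φ b : V → V) v)
    rw [map_mul]; rfl
  smul_zero a := by
    show (φ a : V → V) 0 = 0
    exact map_zero (φ a)
  smul_add a v w := by
    show (φ a : V → V) (v + w) = (φ a : V → V) v + (φ a : V → V) w
    exact map_add (φ a) v w
  add_smul a b v := by
    show (φ (a + b) : V → V) v = (φ a : V → V) v + (φ b : V → V) v
    rw [map_add]; rfl
  zero_smul v := by
    show (φ 0 : V → V) v = 0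
    rw [map_zero]; rfl

theorem exists_addEquiv {K V : Type*} [Field K] [Finite K] [AddCommGroup V] [Finite V]
    (φ ψ : K →+* AddMonoid.End V) {v w : V} (hv : v ≠ 0) (hw : w ≠ 0) :
    ∃ τ : V ≃+ V, τ v = w ∧ ∀ (k : K) (u : V), τ ((φ k : V → V) u) = (ψ k : V → V) (τ u) := by
  have i1 : Finite (Cp φ) := inferInstanceAs (Finite V)
  have i2 : Finite (Cp ψ) := inferInstanceAs (Finite V)
  have key := @exists_linearEquiv_apply K (Cp φ) (Cp ψ) _ _ (cpModule_H68 φ) _ (cpModule_H68 ψ) _ i1 i2 rfl v w hv hw
  obtain ⟨τ, hτ⟩ := key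
  refine ⟨τ.toAddEquiv, hτ, ?_⟩
  intro k u
  exact τ.map_smul k u

end Cfsg.Agent.H68.PR
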