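import Mathlib
import Cfsg.Agent.H68.FourOrbits

set_option autoImplicit false

namespace Cfsg.Agent.H68.FO

open Subgroup
open scoped Pointwise

/-- An involution normalizing an `ℓ`-group (`ℓ` odd) inverts it. -/
theorem inverts {G : Type*} [Group G] [Finite G] (h : PO G) {ℓ : ℕ} [hℓ : Fact ℓ.Prime] (hℓ2 : ℓ ≠ 2)
    {S : Subgroup G} (hS : IsPGroup ℓ S) {s : G} (hs : orderOf s = 2)
    (hsN : s ∈ normalizer (S : Set G)) : ∀ y ∈ S, s * y * s⁻¹ = y⁻¹ := by
  have hs2 : s * s = 1 := by rw [← pow_two, ← hs, pow_orderOf_eq_one]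
  have hs1 : s ≠ 1 := by
    rintro rfl
    rw [orderOf_one] at hs
    omega
  have hfix : ∀ y ∈ S, s * y = y * s → y = 1 := by
    intro y hy hc
    by_contra hy1
    have h1 := orderOf_eq_of_commute h hs1 hy1 hc
    rw [hs, orderOf_of_mem h hS hy hy1] at h1
    exact hℓ2 h1.symm
  have hN := Subgroup.mem_set_normalizer_iff.1 hsN
  let f : S → S := fun y => ⟨s * y * s⁻¹ * (y : G)⁻¹, mul_mem ((hN y).1 y.2) (inv_mem y.2)⟩
  have hf : Function.Injective f := by
    intro y z hyz
    have h1 : s * y * s⁻¹ * (y : G)⁻¹ = s * z * s⁻¹ * (z : G)⁻¹ := congrArg Subtype.val hyz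
    have h2 : (z : G)⁻¹ * y = 1 := by
      apply hfix _ (mul_mem (inv_mem z.2) y.2)
      have h3 : s * y * s⁻¹ = s * z * s⁻¹ * (z : G)⁻¹ * y := by rw [← h1]; group
      have h4 : s * ((z : G)⁻¹ * y) * s⁻¹ = (z : G)⁻¹ * y := by
        calc s * ((z : G)⁻¹ * y) * s⁻¹ = (s * z * s⁻¹)⁻¹ * (s * y * s⁻¹) := by group
          _ = (z : G)⁻¹ * y := by rw [h3]; group
      calc s * ((z : G)⁻¹ * y) = s * ((z : G)⁻¹ * y) * s⁻¹ * s := by group
        _ = (z : G)⁻¹ * y * s := by rw [h4]
    ext
    exact (inv_mul_eq_one.1 h2).symm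
  intro u hu
  obtain ⟨y, hy⟩ := (Finite.surjective_of_injective hf) ⟨u, hu⟩
  have hy' : s * y * s⁻¹ * (y : G)⁻¹ = u := congrArg Subtype.val hy
  rw [← hy']
  have hsi : s⁻¹ = s := inv_eq_of_mul_eq_one_left hs2
  rw [hsi]
  calc s * (s * y * s * (y : G)⁻¹) * s = (s * s) * y * s * (y : G)⁻¹ * s := by group
    _ = y * s * (y : G)⁻¹ * s := by rw [hs2]; group
    _ = (s * y * s * (y : G)⁻¹)⁻¹ := by rw [mul_inv_rev, mul_inv_rev, mul_inv_rev, hsi]; group

theorem mem_of_orderOf {G : Type*} [Group G] [Finite G] {ℓ : ℕ} [hℓ : Fact ℓ.Prime] (S : Sylow ℓ G)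
    {g : G} (hg : g ∈ normalizer ((S : Subgroup G) : Set G)) (ho : orderOf g = ℓ) : g ∈ (S : Subgroup G) := by
  have h1 : IsPGroup ℓ (zpowers g) := by
    apply IsPGroup.of_card (n := 1)
    rw [Nat.card_zpowers, ho, pow_one]
  have h2 : zpowers g ⊓ normalizer ((S : Subgroup G) : Set G) = zpowers g ⊓ (S : Subgroup G) :=
    h1.inf_normalizer_sylow S
  have h3 : g ∈ zpowers g ⊓ normalizer ((S : Subgroup G) : Set G) := ⟨mem_zpowers g, hg⟩
  rw [h2] at h3
  exact h3.2

/-- Structure of the normalizer of a Sylow `ℓ`-subgroup `S = C(x)` for real `x`. -/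
theorem real_structure {G : Type*} [Group G] [Finite G] (h : PO G) {ℓ : ℕ} [hℓ : Fact ℓ.Prime] (hℓ2 : ℓ ≠ 2)
    (S : Sylow ℓ G) {x : G} (hx1 : x ≠ 1) (hx : centralizer ({x} : Set G) = (S : Subgroup G)) {s : G}
    (hs : orderOf s = 2) (hsx : s * x * s⁻¹ = x⁻¹) :
    (∀ y ∈ S, s * y * s⁻¹ = y⁻¹) ∧ (∀ y ∈ S, ∀ z ∈ S, y * z = z * y) ∧
    s ∈ normalizer ((S : Subgroup G) : Set G) ∧ s ∉ (S : Subgroup G) ∧
    (∀ g ∈ normalizer ((S : Subgroup G) : Set G), g ∉ (S : Subgroup G) → s * g ∈ (S : Subgroup G)) := by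
  have hs2 : s * s = 1 := by rw [← pow_two, ← hs, pow_orderOf_eq_one]
  have hsi : s⁻¹ = s := inv_eq_of_mul_eq_one_left hs2
  have hs1 : s ≠ 1 := by
    rintro rfl
    rw [orderOf_one] at hs
    omega
  have hsN : s ∈ normalizer ((S : Subgroup G) : Set G) := by
    rw [← hx, Subgroup.mem_set_normalizer_iff]
    intro y
    rw [SetLike.mem_coe, SetLike.mem_coe, mem_centralizer_singleton_iff, mem_centralizer_singleton_iff]
    have h1 : x = s * x⁻¹ * s⁻¹ := by rw [← hsx]; rw [hsi]; simp only [← mul_assoc]; rw [hs2]; simp [mul_assoc, hs2]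
    constructor
    · intro hy
      have h2 : Commute y x⁻¹ := (Commute.inv_right hy)
      calc s * y * s⁻¹ * x = s * y * s⁻¹ * (s * x⁻¹ * s⁻¹) := by rw [← h1]
        _ = s * (y * x⁻¹) * s⁻¹ := by group
        _ = s * (x⁻¹ * y) * s⁻¹ := by rw [h2.eq]
        _ = (s * x⁻¹ * s⁻¹) * (s * y * s⁻¹) := by group
        _ = x * (s * y * s⁻¹) := by rw [← h1]
    · intro hy
      have h2 : y * x⁻¹ = x⁻¹ * y := by
        have h3 : s * (y * x⁻¹) * s⁻¹ = s * (x⁻¹ * y) * s⁻¹ := by
          calc s * (y * x⁻¹) * s⁻¹ = s * y * s⁻¹ * (s * x⁻¹ * s⁻¹) := by group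
            _ = s * y * s⁻¹ * x := by rw [← h1]
            _ = x * (s * y * s⁻¹) := hy
            _ = (s * x⁻¹ * s⁻¹) * (s * y * s⁻¹) := by rw [← h1]
            _ = s * (x⁻¹ * y) * s⁻¹ := by group
        exact mul_left_cancel (mul_right_cancel h3)
      exact (Commute.inv_right_iff.1 h2).eq
  have hinv := inverts h hℓ2 S.isPGroup' hs hsN
  have hsS : s ∉ (S : Subgroup G) := by
    intro hsS
    have := orderOf_of_mem h S.isPGroup' hsS hs1
    rw [hs] at this
    exact hℓ2 this.symm
  refine ⟨hinv, ?_, hsN, hsS, ?_⟩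
  · intro y hy z hz
    have h1 := hinv (y * z) (mul_mem hy hz)
    have h2 : s * (y * z) * s⁻¹ = (s * y * s⁻¹) * (s * z * s⁻¹) := by group
    rw [h2, hinv y hy, hinv z hz, ← mul_inv_rev, inv_inj] at h1
    exact h1.symm
  · intro g hg hgS
    have hcent : ∀ u : G, (∀ y ∈ S, u * y * u⁻¹ = y) → u ∈ (S : Subgroup G) := by
      intro u hu
      rw [← hx, mem_centralizer_singleton_iff]
      have hxS : x ∈ S := by
        show x ∈ (S : Subgroup G)
        rw [← hx, mem_centralizer_singleton_iff]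
      have := hu x hxS
      calc u * x = u * x * u⁻¹ * u := by group
        _ = x * u := by rw [this]
    have hg1 : g ≠ 1 := by
      rintro rfl
      exact hgS (one_mem _)
    have hgN := Subgroup.mem_set_normalizer_iff.1 hg
    by_cases hg2 : orderOf g = 2
    · have hinvg := inverts h hℓ2 S.isPGroup' hg2 hg
      apply hcent
      intro y hy
      have : s * g * y * (s * g)⁻¹ = s * (g * y * g⁻¹) * s⁻¹ := by group
      rw [this, hinvg y hy, hinv _ (inv_mem hy), inv_inv]
    · exfalso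
      have hm := h g hg1
      have hgl : orderOf g ≠ ℓ := fun h0 => hgS (mem_of_orderOf S hg h0)
      have hgl' : orderOf s ≠ orderOf g := by rw [hs]; exact Ne.symm hg2
      -- quotient
      set N := normalizer ((S : Subgroup G) : Set G) with hNdef
      have hnor : ((S : Subgroup G).subgroupOf N).Normal := normal_subgroupOf_of_le_normalizer le_rfl
      let π := QuotientGroup.mk' ((S : Subgroup G).subgroupOf N)
      let s' : N := ⟨s, hsN⟩
      let g' : N := ⟨g, hg⟩
      have hπ : ∀ u : N, π u = 1 ↔ (u : G) ∈ (S : Subgroup G) := by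
        intro u
        rw [QuotientGroup.mk'_apply, QuotientGroup.eq_one_iff, Subgroup.mem_subgroupOf]
      have hsnP := (Nat.Prime.ne_one (p := 2) (by norm_num))
      have ho1 : orderOf (π s') = 2 := by
        have h1 : orderOf (π s') ∣ 2 := by
          have := orderOf_map_dvd π s'
          rwa [Subgroup.orderOf_mk, hs] at this
        rcases (Nat.dvd_prime (by norm_num)).1 h1 with h2 | h2
        · exfalso
          rw [orderOf_eq_one_iff, hπ] at h2
          exact hsS h2
        · exact h2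
      have ho2 : orderOf (π g') = orderOf g := by
        have h1 : orderOf (π g') ∣ orderOf g := by
          have := orderOf_map_dvd π g'
          rwa [Subgroup.orderOf_mk] at this
        rcases (Nat.dvd_prime hm).1 h1 with h2 | h2
        · exfalso
          rw [orderOf_eq_one_iff, hπ] at h2
          exact hgS h2
        · exact h2
      have hcomm : Commute (π s') (π g') := by
        have h1 : π (s' * g' * s'⁻¹ * g'⁻¹) = 1 := by
          rw [hπ]
          show s * g * s⁻¹ * g⁻¹ ∈ (S : Subgroup G)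
          apply hcent
          intro y hy
          have h2 : g⁻¹ * y * g ∈ S := by
            have := (hgN (g⁻¹ * y * g)).2 (by
              have : g * (g⁻¹ * y * g) * g⁻¹ = y := by group
              rw [this]; exact hy)
            exact this
          have h3 : s⁻¹ * (g⁻¹ * y * g) * s = (g⁻¹ * y * g)⁻¹ := by
            have := hinv _ h2
            rw [hsi] at this
            rw [hsi]; exact this
          have h4 : s * g * s⁻¹ * g⁻¹ * y * (s * g * s⁻¹ * g⁻¹)⁻¹ =
              s * (g * (s⁻¹ * (g⁻¹ * y * g) * s) * g⁻¹) * s⁻¹ := by group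
          have h5 : g * (g⁻¹ * y * g)⁻¹ * g⁻¹ = y⁻¹ := by group
          rw [h4, h3, h5, hinv _ (inv_mem hy), inv_inv]
        have h2 : π s' * π g' * (π s')⁻¹ * (π g')⁻¹ = 1 := by
          rw [← map_inv, ← map_inv, ← map_mul, ← map_mul, ← map_mul]; exact h1
        show π s' * π g' = π g' * π s'
        have h3 : π s' * π g' = (π s' * π g' * (π s')⁻¹ * (π g')⁻¹) * (π g' * π s') := by group
        rw [h3, h2, one_mul]
      have hcop : (orderOf (π s')).Coprime (orderOf (π g')) := by
        rw [ho1, ho2]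
        exact (Nat.coprime_primes (by norm_num) hm).2 (Ne.symm hg2)
      have ho3 := hcomm.orderOf_mul_eq_mul_orderOf_of_coprime hcop
      rw [ho1, ho2, ← map_mul] at ho3
      have h6 := orderOf_map_dvd π (s' * g')
      rw [ho3] at h6
      have h7 : orderOf (s' * g') = orderOf (s * g) := by
        rw [← Subgroup.orderOf_coe]; rfl
      rw [h7] at h6
      have h8 : s * g ≠ 1 := by
        intro h0
        rw [h0, orderOf_one] at h6
        have := Nat.dvd_one.1 h6
        omega
      have h9 := h _ h8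
      have h10 : 2 ∣ orderOf (s * g) := (dvd_mul_right _ _).trans h6
      have h11 : orderOf g ∣ orderOf (s * g) := (dvd_mul_left _ _).trans h6
      rw [Nat.prime_dvd_prime_iff_eq (by norm_num) h9] at h10
      rw [Nat.prime_dvd_prime_iff_eq hm h9] at h11
      exact hg2 (h11.trans h10.symm)

theorem card_normalizer_real {G : Type*} [Group G] [Finite G] (h : PO G) {ℓ : ℕ} [hℓ : Fact ℓ.Prime] (hℓ2 : ℓ ≠ 2)
    (S : Sylow ℓ G) {x : G} (hx1 : x ≠ 1) (hx : centralizer ({x} : Set G) = (S : Subgroup G)) {s : G}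
    (hs : orderOf s = 2) (hsx : s * x * s⁻¹ = x⁻¹) :
    Nat.card (normalizer ((S : Subgroup G) : Set G)) = Nat.card (S : Subgroup G) * 2 := by
  obtain ⟨h1, h2, h3, h4, h5⟩ := real_structure h hℓ2 S hx1 hx hs hsx
  have h6 : (S : Subgroup G).relIndex (normalizer ((S : Subgroup G) : Set G)) = 2 := by
    rw [Subgroup.relIndex_eq_two_iff]
    refine ⟨s, h3, ?_⟩
    intro b hb
    by_cases hbS : b ∈ (S : Subgroup G)
    · right
      refine ⟨hbS, ?_⟩
      intro h0
      apply h4
      have := mul_mem (inv_mem hbS) h0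
      simpa using this
    · left
      refine ⟨?_, hbS⟩
      have h7 := h5 b hb hbS
      have h8 := (Subgroup.mem_set_normalizer_iff.1 (inv_mem h3) (s * b)).1 h7
      have h9 : s⁻¹ * (s * b) * s⁻¹⁻¹ = b * s := by group
      rw [h9] at h8
      exact h8
  have h7 := Subgroup.card_mul_index ((S : Subgroup G).subgroupOf (normalizer ((S : Subgroup G) : Set G)))
  rw [Nat.card_congr (Subgroup.subgroupOfEquivOfLe (le_normalizer (H := (S : Subgroup G)))).toEquiv] at h7
  rw [← h7]
  congr 1

/-- number of involutions `s` such that `s * x` is an involution -/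
noncomputable def bet {G : Type*} [Group G] (x : G) : ℕ :=
  Nat.card {s : G // orderOf s = 2 ∧ orderOf (s * x) = 2}

theorem sum_bet {G : Type*} [Group G] [Fintype G] : ∑ x : G, bet x = cnt G 2 ^ 2 := by
  rw [pow_two, cnt, ← Nat.card_prod]
  have h1 : ∑ x : G, bet x = Nat.card (Σ x : G, {s : G // orderOf s = 2 ∧ orderOf (s * x) = 2}) := by
    rw [Nat.card_sigma]; rfl
  rw [h1]
  refine Nat.card_congr
    { toFun := fun a => (⟨a.2.1, a.2.2.1⟩, ⟨a.2.1 * a.1, a.2.2.2⟩)
      invFun := fun b => ⟨b.1.1⁻¹ * b.2.1, b.1.1, b.1.2, ?_⟩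
      left_inv := ?_
      right_inv := ?_ }
  · rw [mul_inv_cancel_left]; exact b.2.2
  · rintro ⟨x, s, hs, hsx⟩
    exact Sigma.subtype_ext (inv_mul_cancel_left s x) rfl
  · rintro ⟨⟨a, ha⟩, ⟨b, hb⟩⟩
    simp only [mul_inv_cancel_left]

theorem bet_one {G : Type*} [Group G] : bet (1 : G) = cnt G 2 := by
  rw [bet, cnt]
  exact Nat.card_congr (Equiv.subtypeEquivRight (fun s => by rw [mul_one, and_self]))

theorem bet_map {G : Type*} [Group G] (α : MulAut G) (x : G) : bet (α x) = bet x := by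
  symm
  refine Nat.card_congr (α.toEquiv.subtypeEquiv ?_)
  intro s
  have h1 : orderOf (α.toEquiv s) = orderOf s := MulEquiv.orderOf_eq α s
  have h2 : orderOf (α.toEquiv s * α x) = orderOf (s * x) := by
    have : α.toEquiv s * α x = α (s * x) := (map_mul α s x).symm
    rw [this]; exact MulEquiv.orderOf_eq α (s * x)
  rw [h1, h2]

theorem bet_two {G : Type*} [Group G] [Finite G] (h : PO G) (P : Sylow 2 G)
    {t : G} (ht : orderOf t = 2) (hc : centralizer ({t} : Set G) = (P : Subgroup G)) :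
    bet t + 2 = Nat.card (P : Subgroup G) := by
  classical
  have hp : Fact (Nat.Prime 2) := ⟨by norm_num⟩
  have ht1 : t ≠ 1 := by
    rintro rfl
    rw [orderOf_one] at ht
    omega
  have htP : t ∈ (P : Subgroup G) := by rw [← hc, mem_centralizer_singleton_iff]
  have ht2 : t * t = 1 := by rw [← pow_two, ← ht, pow_orderOf_eq_one]
  have hti : t⁻¹ = t := inv_eq_of_mul_eq_one_left ht2
  have h1 : ∀ s : G, (orderOf s = 2 ∧ orderOf (s * t) = 2) ↔ (s ∈ (P : Subgroup G) ∧ s ≠ 1 ∧ s ≠ t) := by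
    intro s
    constructor
    · rintro ⟨hs, hst⟩
      have hs1 : s ≠ 1 := by
        rintro rfl
        rw [orderOf_one] at hs
        omega
      refine ⟨?_, hs1, ?_⟩
      · rw [← hc, mem_centralizer_singleton_iff]
        have hs2 : s * s = 1 := by rw [← pow_two, ← hs, pow_orderOf_eq_one]
        have hst2 : (s * t) * (s * t) = 1 := by rw [← pow_two, ← hst, pow_orderOf_eq_one]
        have hsi : s⁻¹ = s := inv_eq_of_mul_eq_one_left hs2
        have h3 := inv_eq_of_mul_eq_one_left hst2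
        rw [mul_inv_rev, hti, hsi] at h3
        exact h3.symm
      · rintro rfl
        rw [ht2, orderOf_one] at hst
        omega
    · rintro ⟨hsP, hs1, hst⟩
      refine ⟨orderOf_of_mem h P.isPGroup' hsP hs1, orderOf_of_mem h P.isPGroup' (mul_mem hsP htP) ?_⟩
      intro h0
      apply hst
      rw [← hti]
      exact eq_inv_of_mul_eq_one_left h0
  have := Fintype.ofFinite G
  rw [bet, Nat.card_congr (Equiv.subtypeEquivRight h1), Nat.card_eq_fintype_card, Nat.card_eq_fintype_card,
    Fintype.card_subtype]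
  have h2 : Fintype.card (P : Subgroup G) = (Finset.univ.filter (fun s : G => s ∈ (P : Subgroup G))).card := by
    rw [Fintype.card_subtype]
  have h3 : (Finset.univ.filter (fun s : G => s ∈ (P : Subgroup G) ∧ s ≠ 1 ∧ s ≠ t)) =
      ((Finset.univ.filter (fun s : G => s ∈ (P : Subgroup G))).erase 1).erase t := by
    ext s
    simp only [Finset.mem_filter, Finset.mem_univ, true_and, Finset.mem_erase]
    tauto
  have h4 : (1 : G) ∈ Finset.univ.filter (fun s : G => s ∈ (P : Subgroup G)) := by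
    simp
  have h5 : t ∈ (Finset.univ.filter (fun s : G => s ∈ (P : Subgroup G))).erase 1 := by
    simp only [Finset.mem_filter, Finset.mem_univ, true_and, Finset.mem_erase]
    exact ⟨ht1, htP⟩
  rw [h3, h2]
  have h6 := Finset.card_erase_add_one h5
  have h7 := Finset.card_erase_add_one h4
  omega

theorem sq_iff {G : Type*} [Group G] {s x : G} (hs : s * s = 1) : (s * x) * (s * x) = 1 ↔ s * x * s⁻¹ = x⁻¹ := by
  have hsi : s⁻¹ = s := inv_eq_of_mul_eq_one_left hs
  rw [hsi]
  constructor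
  · intro h
    have : s * x * s * x = 1 := by rw [← h]; group
    exact eq_inv_of_mul_eq_one_left this
  · intro h
    calc s * x * (s * x) = s * x * s * x := by group
      _ = 1 := by rw [h, inv_mul_cancel]

theorem bet_real {G : Type*} [Group G] [Finite G] (h : PO G) {ℓ : ℕ} [hℓ : Fact ℓ.Prime] (hℓ2 : ℓ ≠ 2)
    (S : Sylow ℓ G) {x : G} (hx1 : x ≠ 1) (hx : centralizer ({x} : Set G) = (S : Subgroup G)) {s : G}
    (hs : orderOf s = 2) (hsx : s * x * s⁻¹ = x⁻¹) : bet x = Nat.card (S : Subgroup G) := by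
  obtain ⟨h1, h2, h3, h4, h5⟩ := real_structure h hℓ2 S hx1 hx hs hsx
  have hs2 : s * s = 1 := by rw [← pow_two, ← hs, pow_orderOf_eq_one]
  have hsi : s⁻¹ = s := inv_eq_of_mul_eq_one_left hs2
  have hxS : x ∈ (S : Subgroup G) := by rw [← hx, mem_centralizer_singleton_iff]
  have hord : ∀ u : G, u * u = 1 → u ≠ 1 → orderOf u = 2 := by
    intro u hu hu1
    exact orderOf_eq_prime (by rw [pow_two]; exact hu) hu1
  have hsc : ∀ c ∈ (S : Subgroup G), orderOf (s * c) = 2 := by
    intro c hc
    apply hord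
    · rw [sq_iff hs2]; exact h1 c hc
    · intro h0
      apply h4
      rw [eq_inv_of_mul_eq_one_left h0]
      exact inv_mem hc
  symm
  refine Nat.card_congr
    { toFun := fun c => ⟨s * c, hsc c c.2, by rw [mul_assoc]; exact hsc _ (mul_mem c.2 hxS)⟩
      invFun := fun u => ⟨s * u.1, ?_⟩
      left_inv := ?_
      right_inv := ?_ }
  · obtain ⟨u, hu, hux⟩ := u
    have hu2 : u * u = 1 := by rw [← pow_two, ← hu, pow_orderOf_eq_one]
    have hux2 : (u * x) * (u * x) = 1 := by rw [← pow_two, ← hux, pow_orderOf_eq_one]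
    rw [sq_iff hu2] at hux2
    show s * u ∈ (S : Subgroup G)
    rw [← hx, mem_centralizer_singleton_iff]
    have h6 : s * u * x * (s * u)⁻¹ = x := by
      have h7 : s * u * x * (s * u)⁻¹ = s * (u * x * u⁻¹) * s⁻¹ := by group
      rw [h7, hux2, h1 _ (inv_mem hxS), inv_inv]
    calc s * u * x = s * u * x * (s * u)⁻¹ * (s * u) := by group
      _ = x * (s * u) := by rw [h6]
  · intro c
    ext
    show s * (s * (c : G)) = c
    rw [← mul_assoc, hs2, one_mul]
  · intro u
    ext
    show s * (s * (u : G)) = u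
    rw [← mul_assoc, hs2, one_mul]

end Cfsg.Agent.H68.FO
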