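import Mathlib
import Cfsg.Agent.H68.FourOrbits2
import Cfsg.Agent.H68.PElem

set_option autoImplicit false

namespace Cfsg.Agent.H68.FO

open Subgroup
open scoped Pointwise

/-- every element of order `ℓ` is inverted by an involution -/
def Rl (G : Type*) [Group G] (ℓ : ℕ) : Prop :=
  ∀ x : G, orderOf x = ℓ → ∃ s : G, orderOf s = 2 ∧ s * x * s⁻¹ = x⁻¹

theorem index_dvd_cnt {G : Type*} [Group G] [Finite G] (ℓ : ℕ) [hℓ : Fact ℓ.Prime] (hcs : CS ℓ G)
    (L : Sylow ℓ G) : (L : Subgroup G).index ∣ cnt G ℓ := by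
  classical
  have := Fintype.ofFinite G
  have h0 : cnt G ℓ = (Finset.univ.filter (fun x : G => orderOf x = ℓ)).card := by
    rw [cnt, Nat.card_eq_fintype_card, Fintype.card_subtype]
  rw [h0, Finset.card_eq_sum_card_image (fun x => ConjClasses.mk x)]
  apply Finset.dvd_sum
  intro c hc
  obtain ⟨x, hx, rfl⟩ := Finset.mem_image.1 hc
  rw [Finset.mem_filter] at hx
  obtain ⟨S, hS⟩ := hcs x hx.2
  have h1 := ncard_conj_by_subgroup (⊤ : Subgroup G) x
  have h2 : {y : G | ∃ u ∈ (⊤ : Subgroup G), u * x * u⁻¹ = y} =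
      ((Finset.univ.filter (fun x : G => orderOf x = ℓ)).filter (fun y => ConjClasses.mk y = ConjClasses.mk x) : Finset G) := by
    ext y
    simp only [Set.mem_ofPred_eq, Finset.coe_filter, Finset.mem_filter, Finset.mem_univ, true_and,
      Subgroup.mem_top]
    constructor
    · rintro ⟨u, rfl⟩
      have h3 : IsConj x (u * x * u⁻¹) := isConj_iff.2 ⟨u, rfl⟩
      refine ⟨?_, (ConjClasses.mk_eq_mk_iff_isConj.2 h3).symm⟩
      rw [← hx.2]
      exact (MulEquiv.orderOf_eq (MulAut.conj u) x)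
    · rintro ⟨_, h3⟩
      obtain ⟨u, hu⟩ := isConj_iff.1 (ConjClasses.mk_eq_mk_iff_isConj.1 h3.symm)
      exact ⟨u, hu⟩
  rw [h2, Set.ncard_coe_finset] at h1
  rw [h1, top_inf_eq, hS, Subgroup.card_top]
  have h4 : Nat.card G = Nat.card (L : Subgroup G) * (L : Subgroup G).index := (Subgroup.card_mul_index _).symm
  have h5 : Nat.card (S : Subgroup G) = Nat.card (L : Subgroup G) := by
    rw [S.card_eq_multiplicity, L.card_eq_multiplicity]
  rw [h5, h4, Nat.mul_div_cancel_left _ Nat.card_pos]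

theorem center_eq_top {G : Type*} [Group G] {S : Subgroup G} (hab : ∀ y ∈ S, ∀ z ∈ S, y * z = z * y) :
    center S = ⊤ := by
  rw [eq_top_iff]
  rintro ⟨z, hz⟩ _
  rw [Subgroup.mem_center_iff]
  rintro ⟨y, hy⟩
  ext
  exact hab y hy z hz

theorem real_cnt {G : Type*} [Group G] [Finite G] (h : PO G) {ℓ : ℕ} [hℓ : Fact ℓ.Prime] (hℓ2 : ℓ ≠ 2)
    (hcs : CS ℓ G) (hR : Rl G ℓ) (hd : ℓ ∣ Nat.card G) (L : Sylow ℓ G) :
    2 * Nat.card (L : Subgroup G) * cnt G ℓ = Nat.card G * (Nat.card (L : Subgroup G) - 1) ∧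
      ∀ x : G, orderOf x = ℓ → bet x = Nat.card (L : Subgroup G) := by
  have hord1 : ∀ x : G, orderOf x = ℓ → x ≠ 1 := by
    rintro x hx rfl
    rw [orderOf_one] at hx
    exact hℓ.out.one_lt.ne hx
  have hcard : ∀ S : Sylow ℓ G, Nat.card (S : Subgroup G) = Nat.card (L : Subgroup G) := by
    intro S
    rw [S.card_eq_multiplicity, L.card_eq_multiplicity]
  constructor
  · obtain ⟨x, hx⟩ := exists_prime_orderOf_dvd_card' ℓ hd
    obtain ⟨S, hS⟩ := hcs x hx
    obtain ⟨s, hs, hsx⟩ := hR x hx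
    have h1 := card_normalizer_real h hℓ2 S (hord1 x hx) hS hs hsx
    obtain ⟨_, hab, _⟩ := real_structure h hℓ2 S (hord1 x hx) hS hs hsx
    have h2 := count_order h ℓ hcs S
    have h3 : Nat.card (center S) = Nat.card (S : Subgroup G) := by
      rw [center_eq_top hab, Subgroup.card_top]
    have h4 : Nat.card (Sylow ℓ G) = (normalizer ((S : Subgroup G) : Set G)).index := S.card_eq_index_normalizer
    have h5 := Subgroup.card_mul_index (normalizer ((S : Subgroup G) : Set G))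
    rw [← h4, h1] at h5
    rw [cnt, h2, h3, ← h5, ← hcard S]
    ring
  · intro x hx
    obtain ⟨S, hS⟩ := hcs x hx
    obtain ⟨s, hs, hsx⟩ := hR x hx
    rw [bet_real h hℓ2 S (hord1 x hx) hS hs hsx, hcard]

theorem not_real_bet {G : Type*} [Group G] {ℓ : ℕ}
    (hA : ∀ x y : G, orderOf x = orderOf y → ∃ α : MulAut G, α x = y) (hR : ¬ Rl G ℓ) :
    ∀ x : G, orderOf x = ℓ → bet x = 0 := by
  intro x hx
  rw [Rl] at hR
  push Not at hR
  obtain ⟨y, hy, hy'⟩ := hR
  obtain ⟨α, hα⟩ := hA y x (hy.trans hx.symm)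
  rw [← hα, bet_map, bet]
  have : IsEmpty {s : G // orderOf s = 2 ∧ orderOf (s * y) = 2} := by
    refine ⟨fun s => ?_⟩
    obtain ⟨s, hs, hsy⟩ := s
    have hs2 : s * s = 1 := by rw [← pow_two, ← hs, pow_orderOf_eq_one]
    have hsy2 : (s * y) * (s * y) = 1 := by rw [← pow_two, ← hsy, pow_orderOf_eq_one]
    exact hy' s hs ((sq_iff hs2).1 hsy2)
  exact Nat.card_of_isEmpty

theorem sum_bet_order {G : Type*} [Group G] [Finite G] (h : PO G)
    (b : ℕ → ℕ) (hb : ∀ x : G, bet x = b (orderOf x)) :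
    cnt G 2 ^ 2 = cnt G 2 + ∑ ℓ ∈ (Nat.card G).primeFactors, cnt G ℓ * b ℓ := by
  classical
  have := Fintype.ofFinite G
  have h1 : ∀ x ∈ (Finset.univ : Finset G), orderOf x ∈ insert 1 (Nat.card G).primeFactors := by
    intro x _
    rw [Finset.mem_insert]
    by_cases hx : x = 1
    · left; rw [hx, orderOf_one]
    · right
      exact Nat.mem_primeFactors.2 ⟨h x hx, orderOf_dvd_natCard x, Nat.card_pos.ne'⟩
  have h2 := Finset.sum_fiberwise_of_maps_to h1 (fun x => bet x)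
  have h3 : ∀ d, ∑ x ∈ Finset.univ.filter (fun x : G => orderOf x = d), bet x = cnt G d * b d := by
    intro d
    have h4 : ∀ x ∈ Finset.univ.filter (fun x : G => orderOf x = d), bet x = b d := by
      intro x hx
      rw [Finset.mem_filter] at hx
      rw [hb, hx.2]
    rw [Finset.sum_congr rfl h4, Finset.sum_const, smul_eq_mul, cnt, Nat.card_eq_fintype_card,
      Fintype.card_subtype]
  rw [← sum_bet, ← h2, Finset.sum_insert (by
    intro h0
    exact Nat.not_prime_one (Nat.prime_of_mem_primeFactors h0)), h3, cnt_one]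
  congr 1
  · have := hb 1
    rw [orderOf_one, bet_one] at this
    rw [one_mul, ← this]
  · exact Finset.sum_congr rfl (fun ℓ _ => h3 ℓ)

theorem arith1 {N k n ρ Y : ℕ} (hk : 3 ≤ k) (hkN : k ∣ N - 1) (hN : 2 ≤ N)
    (h : (n - 1) * (N - 1) ^ 2 = N * k * ρ) (hY : Y = 2 * ρ + 1) (hYd : Y ∣ n * k) (hn : 1 < n) : False := by
  obtain ⟨m, hm⟩ := hkN
  obtain ⟨a, rfl⟩ : ∃ a, n = a + 1 := ⟨n - 1, by omega⟩
  have hN' : N = k * m + 1 := by omega
  rw [Nat.add_sub_cancel, hm, hN'] at h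
  have hm1 : 1 ≤ m := by
    rcases Nat.eq_zero_or_pos m with h0 | h0
    · rw [h0] at hm; omega
    · exact h0
  have hcop : Nat.Coprime (k * m + 1) ((k * m) ^ 2) := by
    apply Nat.Coprime.pow_right
    simp
  have h1 : (k * m + 1) ∣ a * (k * m) ^ 2 := ⟨k * ρ, by rw [h]; ring⟩
  obtain ⟨w, rfl⟩ := hcop.dvd_of_dvd_mul_right h1
  have h2 : ρ = w * k * m ^ 2 := by
    have h3 : (k * m + 1) * k * ρ = (k * m + 1) * k * (w * k * m ^ 2) := by rw [← h]; ring
    exact Nat.eq_of_mul_eq_mul_left (by positivity) h3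
  have hw : 1 ≤ w := by
    rcases Nat.eq_zero_or_pos w with h0 | h0
    · rw [h0] at hn; omega
    · exact h0
  have hYk : Nat.Coprime Y k := by
    have h4 : Y = 1 + k * (2 * w * m ^ 2) := by rw [hY, h2]; ring
    rw [h4]
    simp
  have h5 := hYk.dvd_of_dvd_mul_right hYd
  have h6 := Nat.le_of_dvd (by positivity) h5
  rw [hY, h2] at h6
  have h7 : 2 * (w * k * m ^ 2) ≤ (k * m + 1) * w := by omega
  have h8 : 2 * (k * m ^ 2) ≤ k * m + 1 := by
    have : w * (2 * (k * m ^ 2)) ≤ w * (k * m + 1) := by nlinarith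
    exact Nat.le_of_mul_le_mul_left this hw
  have h9 : m * k ≤ m ^ 2 * k := by nlinarith
  nlinarith

theorem arith2 {N k n X Y x y cq cr : ℕ} (hk : 3 ≤ k) (hkN : k ∣ N - 1) (hN : 2 ≤ N) (hn : 1 < n)
    (hX : X = 2 * x + 1) (hY : Y = 2 * y + 1) (hXY : n * k = X * Y)
    (hcq : 2 * X * cq = (N * X * Y) * (X - 1)) (hcr : 2 * Y * cr = (N * X * Y) * (Y - 1))
    (htot : N * X * Y = 1 + (n * (N - 1) + (cq + cr)))
    (h : (n - 1) * (N - 1) ^ 2 = N * k * (x + y)) :
    N = k + 1 ∧ ∃ w, 1 ≤ w ∧ n = 1 + w * (k + 1) ∧ X + Y = 2 + 2 * w * k ∧ X * Y = k * (1 + w * (k + 1)) := by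
  obtain ⟨M, rfl⟩ : ∃ M, N = M + 1 := ⟨N - 1, by omega⟩
  obtain ⟨a, rfl⟩ : ∃ a, n = a + 1 := ⟨n - 1, by omega⟩
  simp only [Nat.add_sub_cancel] at h htot hkN
  have hM : 1 ≤ M := by omega
  have ha : 1 ≤ a := by omega
  have h1 : cq = (M + 1) * Y * x := by
    have h2 : 2 * X * cq = 2 * X * ((M + 1) * Y * x) := by
      rw [hcq]
      have : X - 1 = 2 * x := by omega
      rw [this]; ring
    exact Nat.eq_of_mul_eq_mul_left (by omega) h2
  have h2 : cr = (M + 1) * X * y := by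
    have h2 : 2 * Y * cr = 2 * Y * ((M + 1) * X * y) := by
      rw [hcr]
      have : Y - 1 = 2 * y := by omega
      rw [this]; ring
    exact Nat.eq_of_mul_eq_mul_left (by omega) h2
  have h3 : (M + 1) * (x + y) = a * M := by
    rw [h1, h2, hX, hY] at htot
    nlinarith
  have h4 : k = M := by
    have h5 : a * M * M = a * M * k := by
      calc a * M * M = a * M ^ 2 := by ring
        _ = (M + 1) * k * (x + y) := h
        _ = ((M + 1) * (x + y)) * k := by ring
        _ = a * M * k := by rw [h3]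
    exact (Nat.eq_of_mul_eq_mul_left (by positivity) h5).symm
  subst h4
  refine ⟨rfl, ?_⟩
  have hcop : Nat.Coprime (k + 1) k := by simp
  have h5 : (k + 1) ∣ a * k := ⟨x + y, h3.symm⟩
  obtain ⟨w, rfl⟩ := hcop.dvd_of_dvd_mul_right h5
  have h6 : x + y = w * k := by
    have : (k + 1) * (x + y) = (k + 1) * (w * k) := by rw [h3]; ring
    exact Nat.eq_of_mul_eq_mul_left (by positivity) this
  refine ⟨w, ?_, ?_, ?_, ?_⟩
  · rcases Nat.eq_zero_or_pos w with h0 | h0
    · rw [h0] at ha; omega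
    · exact h0
  · ring
  · rw [hX, hY]
    calc 2 * x + 1 + (2 * y + 1) = 2 + 2 * (x + y) := by ring
      _ = 2 + 2 * w * k := by rw [h6]; ring
  · rw [← hXY]; ring

theorem arith3 {k w X Y : ℕ} (hk : 3 ≤ k) (hw : 1 ≤ w) (hs : X + Y = 2 + 2 * w * k)
    (hp : X * Y = k * (1 + w * (k + 1))) (hkX : k ∣ X) (hY : Odd Y) (hX0 : 0 < X) :
    w = 1 ∧ X = k ∧ Y = k + 2 := by
  obtain ⟨z, rfl⟩ := hkX
  have h1 : z * Y = 1 + w * (k + 1) := by
    have : k * (z * Y) = k * (1 + w * (k + 1)) := by rw [← hp]; ring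
    exact Nat.eq_of_mul_eq_mul_left (by omega) this
  have hz : 1 ≤ z := by
    rcases Nat.eq_zero_or_pos z with h0 | h0
    · rw [h0] at hX0; omega
    · exact h0
  have h2 : z < 2 * w := by
    by_contra hge
    push Not at hge
    rcases Nat.eq_or_lt_of_le hge with h0 | h0
    · rw [← h0] at hs
      have : Y = 2 := by nlinarith
      rw [this] at hY
      exact absurd hY (by decide)
    · have : k * (2 * w + 1) ≤ k * z := Nat.mul_le_mul_left _ h0
      nlinarith
  obtain ⟨t, ht⟩ : ∃ t, 2 * w = z + t := ⟨2 * w - z, by omega⟩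
  have ht1 : 1 ≤ t := by omega
  have h3 : Y = 2 + k * t := by
    have : 2 * w * k = (z + t) * k := by rw [ht]
    nlinarith
  rw [h3] at h1
  -- 2 z (2 + k t) = 2 + (z + t)(k+1)
  have h4 : 2 * (z * (2 + k * t)) = 2 + (z + t) * (k + 1) := by
    rw [h1, ← ht]; ring
  have h5 : t = 1 := by
    by_contra hne
    have ht2 : 2 ≤ t := by omega
    nlinarith [Nat.mul_le_mul hz ht2, Nat.mul_le_mul (Nat.mul_le_mul hz hk) ht2]
  subst h5
  have h6 : z = 1 := by
    by_contra hne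
    have hz2 : 2 ≤ z := by omega
    nlinarith
  subst h6
  refine ⟨by omega, by ring, by rw [h3]; ring⟩

end Cfsg.Agent.H68.FO
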