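import Mathlib
import Cfsg.Agent.H68.FourOrbits3

set_option autoImplicit false

namespace Cfsg.Agent.H68.FO

open Subgroup
open scoped Pointwise

theorem orderOf_coe {G : Type*} [Group G] {K : Subgroup G} (x : K) : orderOf (x : G) = orderOf x :=
  Subgroup.orderOf_coe x

theorem po_subgroup {G : Type*} [Group G] (h : PO G) (K : Subgroup G) : PO K := by
  intro g hg
  rw [← Subgroup.orderOf_coe]
  apply h
  intro h0
  apply hg
  ext; exact h0

/-- Many elements of order `ℓ` in the normalizer of a Sylow 2-subgroup. -/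
theorem many_in_normalizer {G : Type*} [Group G] [Finite G] (h : PO G) (hcs2 : CS 2 G) (P : Sylow 2 G)
    {ℓ : ℕ} [hℓ : Fact ℓ.Prime] (hℓ2 : ℓ ≠ 2) (hcs : CS ℓ G) (hR : Rl G ℓ)
    (hd : ℓ ∣ Nat.card (normalizer ((P : Subgroup G) : Set G))) :
    2 * Nat.card (normalizer ((P : Subgroup G) : Set G)) ≤
      3 * cnt (normalizer ((P : Subgroup G) : Set G)) ℓ := by
  classical
  have hp2 : Fact (Nat.Prime 2) := ⟨by norm_num⟩
  set K := normalizer ((P : Subgroup G) : Set G) with hK
  have hord1 : ∀ x : G, orderOf x = ℓ → x ≠ 1 := by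
    rintro x hx rfl
    rw [orderOf_one] at hx
    exact hℓ.out.one_lt.ne hx
  have hPO : PO K := po_subgroup h K
  -- centralizers in K
  have hcsK : CS ℓ K ∧ ∀ T : Sylow ℓ K, ∀ x ∈ T, x ≠ 1 → ∀ S : Sylow ℓ G,
      centralizer ({(x : G)} : Set G) = (S : Subgroup G) → (T : Subgroup K) = (S : Subgroup G).subgroupOf K := by
    have key : ∀ T : Sylow ℓ K, ∀ x ∈ T, x ≠ 1 → ∀ S : Sylow ℓ G,
      centralizer ({(x : G)} : Set G) = (S : Subgroup G) → (T : Subgroup K) = (S : Subgroup G).subgroupOf K := by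
      intro T x hxT hx1 S hS
      have hxo : orderOf (x : G) = ℓ := by
        rw [Subgroup.orderOf_coe]; exact orderOf_of_mem hPO T.isPGroup' hxT hx1
      symm
      apply T.is_maximal' (S.isPGroup'.comap_subtype (K := K))
      -- T ≤ K ⊓ S
      intro y hy
      show (y : G) ∈ (S : Subgroup G)
      rw [← hS, mem_centralizer_singleton_iff]
      -- T.map is contained in an (abelian) Sylow subgroup
      obtain ⟨S', hS'⟩ := (T.isPGroup'.map K.subtype).exists_le_sylow
      have hxS' : (x : G) ∈ (S' : Subgroup G) := hS' ⟨x, hxT, rfl⟩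
      have hyS' : (y : G) ∈ (S' : Subgroup G) := hS' ⟨y, hy, rfl⟩
      -- S' abelian: conjugate to S
      obtain ⟨s, hs, hsx⟩ := hR x hxo
      have hab := (real_structure h hℓ2 S (hord1 _ hxo) hS hs hsx).2.1
      obtain ⟨g, hg⟩ := MulAction.exists_smul_eq G S S'
      have h1 : ∀ u ∈ (S' : Subgroup G), g⁻¹ * u * g ∈ (S : Subgroup G) := by
        intro u hu
        rw [← hg, Sylow.coe_subgroup_smul, mem_conj_smul_iff] at hu
        exact hu
      have h2 := hab _ (h1 _ hyS') _ (h1 _ hxS')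
      have h3 : g⁻¹ * (y * x) * g = g⁻¹ * (x * y) * g := by
        calc g⁻¹ * (y * x) * g = (g⁻¹ * y * g) * (g⁻¹ * x * g) := by group
          _ = (g⁻¹ * x * g) * (g⁻¹ * y * g) := h2
          _ = g⁻¹ * (x * y) * g := by group
      exact mul_left_cancel (mul_right_cancel h3)
    refine ⟨?_, key⟩
    intro x hx
    have hxo : orderOf (x : G) = ℓ := by rw [Subgroup.orderOf_coe]; exact hx
    obtain ⟨S, hS⟩ := hcs x hxo
    have h1 : IsPGroup ℓ (zpowers x) := by
      apply IsPGroup.of_card (n := 1)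
      rw [Nat.card_zpowers, hx, pow_one]
    obtain ⟨T, hT⟩ := h1.exists_le_sylow
    have hxT : x ∈ T := hT (mem_zpowers x)
    have hx1 : x ≠ 1 := by
      rintro rfl
      exact hord1 1 hxo rfl
    refine ⟨T, ?_⟩
    rw [key T x hxT hx1 S hS]
    ext y
    rw [Subgroup.mem_subgroupOf, ← hS, mem_centralizer_singleton_iff, mem_centralizer_singleton_iff]
    constructor
    · intro h0
      exact congrArg Subtype.val h0
    · intro h0
      ext; exact h0
  obtain ⟨hcsK, key⟩ := hcsK
  obtain ⟨x, hx⟩ := exists_prime_orderOf_dvd_card' ℓ hd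
  have hxo : orderOf (x : G) = ℓ := by rw [Subgroup.orderOf_coe]; exact hx
  have hx1 : x ≠ 1 := by
    rintro rfl
    exact hord1 1 hxo rfl
  obtain ⟨T, hT⟩ := hcsK x hx
  have hxT : x ∈ T := by
    show x ∈ (T : Subgroup K)
    rw [← hT, mem_centralizer_singleton_iff]
  obtain ⟨S, hS⟩ := hcs x hxo
  obtain ⟨s, hs, hsx⟩ := hR x hxo
  obtain ⟨hinv, hab, hsN, hsS, hNS⟩ := real_structure h hℓ2 S (hord1 _ hxo) hS hs hsx
  have hTS := key T x hxT hx1 S hS
  -- T is abelian
  have habT : ∀ y ∈ (T : Subgroup K), ∀ z ∈ (T : Subgroup K), y * z = z * y := by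
    intro y hy z hz
    rw [hTS] at hy hz
    ext
    exact hab _ hy _ hz
  -- T is self-normalizing
  have hNT : normalizer ((T : Subgroup K) : Set K) = T := by
    apply le_antisymm _ le_normalizer
    intro g hg
    have hgN := Subgroup.mem_set_normalizer_iff.1 hg
    -- g normalizes S
    have hgx : g * x * g⁻¹ ∈ (T : Subgroup K) := (hgN x).1 hxT
    have hgx1 : g * x * g⁻¹ ≠ 1 := by
      intro h0
      apply hx1
      rw [conj_eq_one_iff] at h0
      exact h0
    have hgxo : orderOf ((g * x * g⁻¹ : K) : G) = ℓ := by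
      rw [Subgroup.orderOf_coe]; exact orderOf_of_mem hPO T.isPGroup' hgx hgx1
    obtain ⟨S1, hS1⟩ := hcs _ hgxo
    have hgxS : (g * x * g⁻¹) ∈ (S : Subgroup G).subgroupOf K := by rw [← hTS]; exact hgx
    have hS1S : (S1 : Subgroup G) = (S : Subgroup G) := by
      apply S.is_maximal' S1.isPGroup'
      rw [← hS1]
      intro y hy
      rw [mem_centralizer_singleton_iff]
      exact hab _ hy _ hgxS
    have hgS : (g : G) ∈ normalizer ((S : Subgroup G) : Set G) := by
      rw [Subgroup.mem_set_normalizer_iff]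
      intro y
      have e1 : (y ∈ ((S : Subgroup G) : Set G)) ↔ y * x = x * y := by
        rw [SetLike.mem_coe, ← hS, mem_centralizer_singleton_iff]
      have e2 : ((g : G) * y * (g : G)⁻¹ ∈ ((S : Subgroup G) : Set G)) ↔
          ((g : G) * y * (g : G)⁻¹) * ((g * x * g⁻¹ : K) : G) = ((g * x * g⁻¹ : K) : G) * ((g : G) * y * (g : G)⁻¹) := by
        rw [SetLike.mem_coe, ← hS1S, ← hS1, mem_centralizer_singleton_iff]
      rw [e1, e2]
      push_cast
      constructor
      · intro h0
        calc (g : G) * y * (g : G)⁻¹ * (g * x * (g : G)⁻¹) = g * (y * x) * (g : G)⁻¹ := by group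
          _ = g * (x * y) * (g : G)⁻¹ := by rw [h0]
          _ = _ := by group
      · intro h0
        have h1 : (g : G) * (y * x) * (g : G)⁻¹ = g * (x * y) * (g : G)⁻¹ := by
          calc (g : G) * (y * x) * (g : G)⁻¹ = (g : G) * y * (g : G)⁻¹ * (g * x * (g : G)⁻¹) := by group
            _ = (g * x * (g : G)⁻¹) * ((g : G) * y * (g : G)⁻¹) := h0
            _ = _ := by group
        exact mul_left_cancel (mul_right_cancel h1)
    by_cases hgSm : (g : G) ∈ (S : Subgroup G)
    · rw [hTS]; exact hgSm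
    · exfalso
      have h1 := hNS _ hgS hgSm
      -- g is an involution
      have hs2 : s * s = 1 := by rw [← pow_two, ← hs, pow_orderOf_eq_one]
      have hg2 : orderOf (g : G) = 2 := by
        apply orderOf_eq_prime
        · rw [pow_two]
          have h2 : (g : G) = s * (s * g) := by rw [← mul_assoc, hs2, one_mul]
          rw [h2, sq_iff hs2]
          exact hinv _ h1
        · intro h0
          apply hgSm
          rw [h0]; exact one_mem _
      have hgP : (g : G) ∈ (P : Subgroup G) := mem_of_orderOf P g.2 hg2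
      -- [g, x] ∈ P ∩ S = 1
      have hcomm : (g : G) * x * (g : G)⁻¹ * (x : G)⁻¹ = 1 := by
        by_contra hne
        have hm1 : (g : G) * x * (g : G)⁻¹ * (x : G)⁻¹ ∈ (P : Subgroup G) := by
          have h3 : (g : G) * x * (g : G)⁻¹ * (x : G)⁻¹ = g * (x * (g : G)⁻¹ * (x : G)⁻¹) := by group
          rw [h3]
          refine mul_mem hgP ?_
          exact (Subgroup.mem_set_normalizer_iff.1 x.2 _).1 (inv_mem hgP)
        have hm2 : (g : G) * x * (g : G)⁻¹ * (x : G)⁻¹ ∈ (S : Subgroup G) := by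
          have hxS : (x : G) ∈ (S : Subgroup G) := by rw [← hS, mem_centralizer_singleton_iff]
          exact mul_mem hgxS (inv_mem hxS)
        have h4 := orderOf_of_mem h P.isPGroup' hm1 hne
        have h5 := orderOf_of_mem h S.isPGroup' hm2 hne
        exact hℓ2 (h5.symm.trans h4)
      apply hgSm
      rw [← hS, mem_centralizer_singleton_iff]
      calc (g : G) * x = ((g : G) * x * (g : G)⁻¹ * (x : G)⁻¹) * (x * g) := by group
        _ = x * g := by rw [hcomm, one_mul]
  have h1 := count_order hPO ℓ hcsK T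
  have h2 : Nat.card (center (T : Subgroup K)) = Nat.card (T : Subgroup K) := by
    rw [center_eq_top habT, Subgroup.card_top]
  have h3 : Nat.card (Sylow ℓ K) = (normalizer ((T : Subgroup K) : Set K)).index := T.card_eq_index_normalizer
  rw [hNT] at h3
  have h4 := Subgroup.card_mul_index (T : Subgroup K)
  have h5 : cnt K ℓ = (T : Subgroup K).index * (Nat.card (T : Subgroup K) - 1) := by
    rw [cnt, h1, h2, h3]
  have h6 : 3 ≤ Nat.card (T : Subgroup K) := by
    have h7 : ℓ ∣ Nat.card (T : Subgroup K) := T.dvd_card_of_dvd_card hd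
    have h8 := Nat.le_of_dvd Nat.card_pos h7
    have := hℓ.out.two_le
    omega
  rw [h5, ← h4]
  obtain ⟨t, ht⟩ : ∃ t, Nat.card (T : Subgroup K) = t + 3 := ⟨Nat.card (T : Subgroup K) - 3, by omega⟩
  rw [ht]
  have : t + 3 - 1 = t + 2 := by omega
  rw [this]
  nlinarith [Nat.zero_le (t * (T : Subgroup K).index)]

theorem not_both {G : Type*} [Group G] [Finite G] (h : PO G) (hcs2 : CS 2 G) (P : Sylow 2 G)
    {q r : ℕ} [hq : Fact q.Prime] [hr : Fact r.Prime] (hqr : q ≠ r) (hq2 : q ≠ 2) (hr2 : r ≠ 2)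
    (hcsq : CS q G) (hcsr : CS r G) (hRq : Rl G q) (hRr : Rl G r)
    (hdq : q ∣ Nat.card (normalizer ((P : Subgroup G) : Set G)))
    (hdr : r ∣ Nat.card (normalizer ((P : Subgroup G) : Set G))) : False := by
  have h1 := many_in_normalizer h hcs2 P hq2 hcsq hRq hdq
  have h2 := many_in_normalizer h hcs2 P hr2 hcsr hRr hdr
  set K := normalizer ((P : Subgroup G) : Set G)
  have h3 := sum_cnt (po_subgroup h K)
  have h4 : ∑ ℓ ∈ ({q, r} : Finset ℕ), cnt K ℓ ≤ ∑ ℓ ∈ (Nat.card K).primeFactors, cnt K ℓ := by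
    apply Finset.sum_le_sum_of_subset
    intro ℓ hℓ
    rw [Finset.mem_insert, Finset.mem_singleton] at hℓ
    rcases hℓ with rfl | rfl
    · exact Nat.mem_primeFactors.2 ⟨hq.out, hdq, Nat.card_pos.ne'⟩
    · exact Nat.mem_primeFactors.2 ⟨hr.out, hdr, Nat.card_pos.ne'⟩
  rw [Finset.sum_pair hqr] at h4
  omega

end Cfsg.Agent.H68.FO
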