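import Mathlib
import Cfsg.Agent.H68.FourOrbits4

set_option autoImplicit false

namespace Cfsg.Agent.H68.FO

open Subgroup
open scoped Pointwise

theorem two_abelian {G : Type*} [Group G] (h : PO G) (P : Sylow 2 G) :
    ∀ y ∈ (P : Subgroup G), ∀ z ∈ (P : Subgroup G), y * z = z * y := by
  have hp2 : Fact (Nat.Prime 2) := ⟨by norm_num⟩
  have h1 : ∀ y ∈ (P : Subgroup G), y * y = 1 := by
    intro y hy
    by_cases hy1 : y = 1
    · rw [hy1, one_mul]
    · rw [← pow_two, ← orderOf_of_mem h P.isPGroup' hy hy1, pow_orderOf_eq_one]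
  intro y hy z hz
  have h2 := h1 _ (mul_mem hy hz)
  have h3 : y⁻¹ = y := inv_eq_of_mul_eq_one_left (h1 y hy)
  have h4 : z⁻¹ = z := inv_eq_of_mul_eq_one_left (h1 z hz)
  have h5 := inv_eq_of_mul_eq_one_left h2
  rw [mul_inv_rev, h3, h4] at h5
  exact h5.symm

theorem sylow_two_eq {G : Type*} [Group G] (h : PO G) (S1 S2 : Sylow 2 G) {u : G} (hu1 : u ≠ 1)
    (h1 : u ∈ (S1 : Subgroup G)) (h2 : u ∈ (S2 : Subgroup G)) : S1 = S2 := by
  have hp2 : Fact (Nat.Prime 2) := ⟨by norm_num⟩
  apply Sylow.ext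
  rw [← centralizer_eq_of_central h S1 h1 hu1 (fun y hy => two_abelian h S1 y hy u h1),
    ← centralizer_eq_of_central h S2 h2 hu1 (fun y hy => two_abelian h S2 y hy u h2)]

theorem smul_ne {G : Type*} [Group G] [Finite G] (h : PO G) (S1 S2 : Sylow 2 G) {u : G} (hu1 : u ≠ 1)
    (hu : u ∈ (S1 : Subgroup G)) (hne : S2 ≠ S1) : u • S2 ≠ S2 := by
  have hp2 : Fact (Nat.Prime 2) := ⟨by norm_num⟩
  intro h0
  rw [Sylow.smul_eq_iff_mem_normalizer] at h0
  have h1 : u ∈ (S2 : Subgroup G) := mem_of_orderOf S2 h0 (orderOf_of_mem h S1.isPGroup' hu hu1)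
  exact hne (sylow_two_eq h S2 S1 hu1 h1 hu)

theorem fix_three {G : Type*} [Group G] [Finite G] (h : PO G) (P : Sylow 2 G)
    (hn : Nat.card (Sylow 2 G) = Nat.card (P : Subgroup G) + 1) (S1 S2 S3 : Sylow 2 G)
    (h12 : S2 ≠ S1) (h13 : S3 ≠ S1) (h23 : S3 ≠ S2) {g : G} (h1 : g • S1 = S1) (h2 : g • S2 = S2)
    (h3 : g • S3 = S3) : g = 1 := by
  classical
  have hp2 : Fact (Nat.Prime 2) := ⟨by norm_num⟩
  have := Fintype.ofFinite (Sylow 2 G)
  have := Fintype.ofFinite G
  have hmem : ∀ u : (S1 : Subgroup G), (u : G) • S2 ≠ S1 := by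
    intro u h0
    apply h12
    have h4 : (u : G) • S1 = S1 := by
      rw [Sylow.smul_eq_iff_mem_normalizer]
      exact le_normalizer u.2
    exact smul_left_cancel _ (h0.trans h4.symm)
  let f : ↥(S1 : Subgroup G) → {S : Sylow 2 G // S ≠ S1} := fun u => ⟨(u : G) • S2, hmem u⟩
  have hf : Function.Injective f := by
    intro u v huv
    have h4 : (u : G) • S2 = (v : G) • S2 := congrArg Subtype.val huv
    have h5 : ((v : G)⁻¹ * u) • S2 = S2 := by
      rw [mul_smul, h4, inv_smul_smul]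
    by_contra hne
    have h6 : (v : G)⁻¹ * u ≠ 1 := by
      intro h0
      apply hne
      ext
      exact (inv_mul_eq_one.1 h0).symm
    exact smul_ne h S1 S2 h6 (mul_mem (inv_mem v.2) u.2) h12 h5
  have hcard : Nat.card {S : Sylow 2 G // S ≠ S1} = Nat.card (S1 : Subgroup G) := by
    have h4 : Nat.card (S1 : Subgroup G) = Nat.card (P : Subgroup G) := by
      rw [S1.card_eq_multiplicity, P.card_eq_multiplicity]
    have h5 := Nat.card_congr (Equiv.optionSubtypeNe S1)
    rw [Finite.card_option, hn] at h5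
    omega
  have hbij : Function.Bijective f := by
    rw [Nat.bijective_iff_injective_and_card]
    exact ⟨hf, hcard.symm⟩
  obtain ⟨u, hu⟩ := hbij.2 ⟨S3, h13⟩
  have hu' : (u : G) • S2 = S3 := congrArg Subtype.val hu
  have hu1 : (u : G) ≠ 1 := by
    intro h0
    rw [h0, one_smul] at hu'
    exact h23 hu'.symm
  rw [Sylow.smul_eq_iff_mem_normalizer] at h1
  -- u⁻¹ g u g⁻¹ fixes S2
  have hgu : g * u * g⁻¹ ∈ (S1 : Subgroup G) := (Subgroup.mem_set_normalizer_iff.1 h1 _).1 u.2
  have h4 : ((u : G)⁻¹ * (g * u * g⁻¹)) • S2 = S2 := by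
    have h5 : (g * u * g⁻¹) • S2 = S3 := by
      rw [mul_smul, mul_smul]
      have : g⁻¹ • S2 = S2 := by rw [inv_smul_eq_iff, h2]
      rw [this, hu', h3]
    rw [mul_smul, h5, ← hu', inv_smul_smul]
  have h5 : (u : G)⁻¹ * (g * u * g⁻¹) = 1 := by
    by_contra hne
    exact smul_ne h S1 S2 hne (mul_mem (inv_mem u.2) hgu) h12 h4
  have h6 : g ∈ (S1 : Subgroup G) := by
    rw [← centralizer_eq_of_central h S1 u.2 hu1 (fun y hy => two_abelian h S1 y hy u u.2),
      mem_centralizer_singleton_iff]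
    have : (u : G) = g * u * g⁻¹ := inv_mul_eq_one.1 h5
    calc g * u = (g * u * g⁻¹) * g := by group
      _ = u * g := by rw [← this]
  by_contra hg1
  exact smul_ne h S1 S2 hg1 h6 h12 h2

theorem triple {G : Type*} [Group G] [Finite G] (h : PO G) (P : Sylow 2 G)
    (hn : Nat.card (Sylow 2 G) = Nat.card (P : Subgroup G) + 1)
    (h3 : ¬ 3 ∣ Nat.card (normalizer ((P : Subgroup G) : Set G))) :
    cnt G 3 ≤ Nat.card (Sylow 2 G) ^ 2 := by
  have hp2 : Fact (Nat.Prime 2) := ⟨by norm_num⟩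
  have hnofix : ∀ (y : G) (S : Sylow 2 G), orderOf y = 3 → y • S ≠ S := by
    intro y S hy h0
    rw [Sylow.smul_eq_iff_mem_normalizer] at h0
    apply h3
    have h4 : Nat.card (normalizer ((P : Subgroup G) : Set G)) = Nat.card (normalizer ((S : Subgroup G) : Set G)) := by
      have e1 := Subgroup.card_mul_index (normalizer ((P : Subgroup G) : Set G))
      have e2 := Subgroup.card_mul_index (normalizer ((S : Subgroup G) : Set G))
      have f1 : Nat.card (Sylow 2 G) = (normalizer ((P : Subgroup G) : Set G)).index := P.card_eq_index_normalizer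
      have f2 : Nat.card (Sylow 2 G) = (normalizer ((S : Subgroup G) : Set G)).index := S.card_eq_index_normalizer
      rw [← f1] at e1
      rw [← f2, ← e1] at e2
      exact (Nat.eq_of_mul_eq_mul_right Nat.card_pos e2).symm
    rw [h4, ← hy, ← Subgroup.orderOf_mk _ h0]
    exact orderOf_dvd_natCard _
  let f : {y : G // orderOf y = 3} × Sylow 2 G → Sylow 2 G × Sylow 2 G × Sylow 2 G :=
    fun a => (a.2, (a.1 : G) • a.2, (a.1 : G) • (a.1 : G) • a.2)
  have hf : Function.Injective f := by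
    rintro ⟨⟨y, hy⟩, S⟩ ⟨⟨z, hz⟩, S'⟩ hyz
    simp only [f, Prod.mk.injEq] at hyz
    obtain ⟨rfl, h1, h2⟩ := hyz
    have hy3 : y * y * y = 1 := by
      have := pow_orderOf_eq_one y
      rw [hy] at this
      rw [← this]; simp [pow_succ]
    have hz3 : z * z * z = 1 := by
      have := pow_orderOf_eq_one z
      rw [hz] at this
      rw [← this]; simp [pow_succ]
    have hd1 : y • S ≠ S := hnofix y S hy
    have hd2 : y • y • S ≠ y • S := fun h0 => hd1 (smul_left_cancel _ h0)
    have hd3 : y • y • S ≠ S := by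
      intro h0
      apply hd1
      have : y • y • y • S = S := by
        rw [← mul_smul, ← mul_smul, hy3, one_smul]
      rw [h0] at this
      exact this
    have h5 : z⁻¹ * y = 1 := by
      apply fix_three h P hn S (y • S) (y • y • S) hd1 hd3 hd2
      · rw [mul_smul, h1, inv_smul_smul]
      · rw [mul_smul, h2, inv_smul_smul, h1]
      · rw [mul_smul]
        have e1 : y • y • y • S = S := by
          rw [← mul_smul, ← mul_smul, hy3, one_smul]
        have e2 : z • z • z • S = S := by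
          rw [← mul_smul, ← mul_smul, hz3, one_smul]
        rw [e1, h2, inv_smul_eq_iff, e2]
    have h6 : y = z := (inv_mul_eq_one.1 h5).symm
    subst h6
    rfl
  have h4 := Nat.card_le_card_of_injective f hf
  rw [Nat.card_prod, Nat.card_prod, Nat.card_prod] at h4
  have hpos : 0 < Nat.card (Sylow 2 G) := Nat.card_pos
  have h5 : cnt G 3 * Nat.card (Sylow 2 G) ≤ Nat.card (Sylow 2 G) ^ 2 * Nat.card (Sylow 2 G) := by
    calc cnt G 3 * Nat.card (Sylow 2 G) ≤ Nat.card (Sylow 2 G) * (Nat.card (Sylow 2 G) * Nat.card (Sylow 2 G)) := h4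
      _ = _ := by ring
  exact Nat.le_of_mul_le_mul_right h5 hpos

/-- The last step. -/
theorem last_step {G : Type*} [Group G] [Finite G] (h : PO G) (P : Sylow 2 G)
    {q r : ℕ} [hq : Fact q.Prime] [hr : Fact r.Prime] (hr2 : r ≠ 2) (hcsr : CS r G) (hRr : Rl G r)
    (hdr : r ∣ Nat.card G) (Q : Sylow q G) (R : Sylow r G) {k : ℕ} (hk3 : 3 ≤ k)
    (hN : Nat.card (P : Subgroup G) = k + 1) (hX : Nat.card (Q : Subgroup G) = k)
    (hY : Nat.card (R : Subgroup G) = k + 2) (hn : Nat.card (Sylow 2 G) = k + 2)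
    (hNP : Nat.card (normalizer ((P : Subgroup G) : Set G)) = (k + 1) * k)
    (hG : Nat.card G = (k + 1) * k * (k + 2)) : Nat.card G = 60 := by
  have hp2 : Fact (Nat.Prime 2) := ⟨by norm_num⟩
  obtain ⟨a, ha⟩ := IsPGroup.iff_card.1 P.isPGroup'
  obtain ⟨i, hi⟩ := IsPGroup.iff_card.1 Q.isPGroup'
  obtain ⟨c, hc⟩ := IsPGroup.iff_card.1 R.isPGroup'
  have hNa : k + 1 = 2 ^ a := hN.symm.trans ha
  have hXi : k = q ^ i := hX.symm.trans hi
  have hYc : k + 2 = r ^ c := hY.symm.trans hc
  have h3N : ¬ 3 ∣ k + 1 := by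
    rw [hNa]
    intro h0
    have := (Nat.prime_dvd_prime_iff_eq (by norm_num) (by norm_num)).1 (Nat.Prime.dvd_of_dvd_pow (by norm_num : Nat.Prime 3) h0)
    omega
  have h3 : 3 ∣ k ∨ 3 ∣ k + 2 := by omega
  rcases h3 with h3 | h3
  · -- q = 3
    have hq3 : 3 = q := by
      rw [hXi] at h3
      exact (Nat.prime_dvd_prime_iff_eq (by norm_num) hq.out).1 (Nat.Prime.dvd_of_dvd_pow (by norm_num : Nat.Prime 3) h3)
    subst hq3
    have h8 : 3 ^ i % 8 = 1 ∨ 3 ^ i % 8 = 3 := by
      clear hXi hi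
      induction i with
      | zero => left; norm_num
      | succ i ih => rw [pow_succ]; omega
    have ha2 : a ≤ 2 := by
      by_contra hge
      push Not at hge
      obtain ⟨b, hb⟩ : ∃ b, a = b + 3 := ⟨a - 3, by omega⟩
      rw [hXi, hb, pow_add] at hNa
      omega
    have : k + 1 ≤ 2 ^ 2 := by
      rw [hNa]
      exact Nat.pow_le_pow_right (by norm_num) ha2
    have hk : k = 3 := by omega
    rw [hG, hk]
  · -- r = 3
    exfalso
    have hr3 : 3 = r := by
      rw [hYc] at h3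
      exact (Nat.prime_dvd_prime_iff_eq (by norm_num) hr.out).1 (Nat.Prime.dvd_of_dvd_pow (by norm_num : Nat.Prime 3) h3)
    subst hr3
    have h4 : ¬ 3 ∣ Nat.card (normalizer ((P : Subgroup G) : Set G)) := by
      rw [hNP]
      intro h0
      rcases (Nat.Prime.dvd_mul (by norm_num)).1 h0 with h1 | h1
      · exact h3N h1
      · omega
    have h5 := triple h P (by rw [hn, hN]) h4
    rw [hn] at h5
    have h6 := (real_cnt h hr2 hcsr hRr hdr R).1
    rw [hY, hG] at h6
    have h7 : 2 * cnt G 3 = (k + 1) * k * (k + 1) := by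
      have h8 : (k + 2) * (2 * cnt G 3) = (k + 2) * ((k + 1) * k * (k + 1)) := by
        have : k + 2 - 1 = k + 1 := by omega
        rw [this] at h6
        linarith
      exact Nat.eq_of_mul_eq_mul_left (by omega) h8
    -- k ≥ 7
    have hk7 : 7 ≤ k := by
      by_contra hlt
      push Not at hlt
      have h8 : k + 1 ≤ 7 := by omega
      have ha3 : a < 3 := by
        by_contra hge
        push Not at hge
        have := Nat.pow_le_pow_right (show 0 < 2 by norm_num) hge
        rw [← hNa] at this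
        omega
      have : a = 0 ∨ a = 1 ∨ a = 2 := by omega
      rcases this with rfl | rfl | rfl <;> omega
    obtain ⟨j, rfl⟩ : ∃ j, k = j + 7 := ⟨k - 7, by omega⟩
    nlinarith [Nat.zero_le (j ^ 3), Nat.zero_le (j ^ 2)]

end Cfsg.Agent.H68.FO
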