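import Mathlib
import Cfsg.Agent.H68.FourOrbits5

set_option autoImplicit false

namespace Cfsg.Agent.H68.FO

open Subgroup
open scoped Pointwise

theorem prime_dvd_of_pf {G : Type*} [Group G] {q r : ℕ} [Finite G]
    (hpf : (Nat.card G).primeFactors = {2, q, r}) {m : ℕ} (hm : m ∣ Nat.card G) (hodd : Odd m)
    (hm1 : m ≠ 1) : q ∣ m ∨ r ∣ m := by
  obtain ⟨p, hp, hpm⟩ := Nat.exists_prime_and_dvd hm1
  have h1 : p ∈ (Nat.card G).primeFactors := Nat.mem_primeFactors.2 ⟨hp, hpm.trans hm, Nat.card_pos.ne'⟩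
  rw [hpf] at h1
  simp only [Finset.mem_insert, Finset.mem_singleton] at h1
  rcases h1 with rfl | rfl | rfl
  · exfalso
    obtain ⟨j, hj⟩ := hpm
    rw [hj] at hodd
    exact absurd hodd (by rw [Nat.not_odd_iff_even]; exact even_two_mul j)
  · left; exact hpm
  · right; exact hpm

theorem arith0 {n N k ρ b : ℕ} (hN : b + 2 = N) (hn : 1 ≤ n)
    (h : (n * (N - 1)) ^ 2 = n * (N - 1) + (n * (N - 1) * b + N * k * n * ρ)) :
    (n - 1) * (N - 1) ^ 2 = N * k * ρ := by
  subst hN
  obtain ⟨a, rfl⟩ : ∃ a, n = a + 1 := ⟨n - 1, by omega⟩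
  have e1 : b + 2 - 1 = b + 1 := by omega
  rw [e1] at h ⊢
  rw [Nat.add_sub_cancel]
  have h5 : (a + 1) * (a * (b + 1) ^ 2) = (a + 1) * ((b + 2) * k * ρ) := by
    have h6 : ((a + 1) * (b + 1)) ^ 2 = (a + 1) * (a * (b + 1) ^ 2) + (a + 1) * (b + 1) ^ 2 := by ring
    have h7 : (a + 1) * (b + 1) + ((a + 1) * (b + 1) * b + (b + 2) * k * (a + 1) * ρ) =
        (a + 1) * ((b + 2) * k * ρ) + (a + 1) * (b + 1) ^ 2 := by ring
    rw [h6, h7] at h
    exact Nat.add_right_cancel h
  exact Nat.eq_of_mul_eq_mul_left (by omega) h5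

theorem core {G : Type*} [Group G] [Finite G] (h : PO G)
    (hA : ∀ x y : G, orderOf x = orderOf y → ∃ α : MulAut G, α x = y) (hns : ¬ Group.IsSolvable G)
    (h3 : (Nat.card G).primeFactors.card = 3) (hcs : ∀ ℓ : ℕ, ℓ.Prime → CS ℓ G)
    {q r : ℕ} (hq : q.Prime) (hr : r.Prime) (hqr : q ≠ r) (hq2 : q ≠ 2) (hr2 : r ≠ 2)
    (hpf : (Nat.card G).primeFactors = {2, q, r}) : Nat.card G = 60 := by
  classical
  have hp2 : Fact (Nat.Prime 2) := ⟨by norm_num⟩
  have hqF : Fact q.Prime := ⟨hq⟩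
  have hrF : Fact r.Prime := ⟨hr⟩
  let P : Sylow 2 G := default
  let Q : Sylow q G := default
  let R : Sylow r G := default
  have hd2 : 2 ∣ Nat.card G := Nat.dvd_of_mem_primeFactors (by rw [hpf]; simp)
  have hdq : q ∣ Nat.card G := Nat.dvd_of_mem_primeFactors (by rw [hpf]; simp)
  have hdr : r ∣ Nat.card G := Nat.dvd_of_mem_primeFactors (by rw [hpf]; simp)
  set N := Nat.card (P : Subgroup G) with hNdef
  set X := Nat.card (Q : Subgroup G) with hXdef
  set Y := Nat.card (R : Subgroup G) with hYdef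
  have hGc : Nat.card G = N * X * Y := by
    have h0 := Nat.prod_factorization_pow_eq_self (Nat.card_pos (α := G)).ne'
    rw [Finsupp.prod, Nat.support_factorization, hpf, Finset.prod_insert (by
      simp only [Finset.mem_insert, Finset.mem_singleton]; push Not; exact ⟨hq2.symm, hr2.symm⟩),
      Finset.prod_pair hqr] at h0
    rw [hNdef, hXdef, hYdef, P.card_eq_multiplicity, Q.card_eq_multiplicity, R.card_eq_multiplicity, mul_assoc]
    exact h0.symm
  have hNpos : 0 < N := Nat.card_pos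
  have hXpos : 0 < X := Nat.card_pos
  have hYpos : 0 < Y := Nat.card_pos
  -- normalizer of P
  set n := Nat.card (Sylow 2 G) with hndef
  have hnpos : 0 < n := Nat.card_pos
  have hPN : (P : Subgroup G) ≤ normalizer ((P : Subgroup G) : Set G) := le_normalizer
  obtain ⟨k, hk⟩ := Subgroup.card_dvd_of_le hPN
  change Nat.card (normalizer ((P : Subgroup G) : Set G)) = N * k at hk
  have hidx := Subgroup.card_mul_index (normalizer ((P : Subgroup G) : Set G))
  have hn1 : n = (normalizer ((P : Subgroup G) : Set G)).index := P.card_eq_index_normalizer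
  rw [← hn1, hk] at hidx
  have hab := two_abelian h P
  have hcnt2 : cnt G 2 = n * (N - 1) := by
    rw [cnt, count_order h 2 (hcs 2 (by norm_num)) P, center_eq_top hab, Subgroup.card_top]
  have hk1 : k ≠ 1 := by
    rintro rfl
    rw [mul_one] at hk
    exact normalizer_ne hns h3 hd2 P hab (Subgroup.eq_of_le_of_card_ge hPN hk.le).symm
  have hkN : k ∣ N - 1 := by
    have h1 := index_dvd_cnt 2 (hcs 2 (by norm_num)) P
    have h2 := Subgroup.card_mul_index (P : Subgroup G)
    have h4 : (P : Subgroup G).index = n * k := by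
      have h5 : N * (P : Subgroup G).index = N * (n * k) := by
        rw [hNdef, h2, ← hidx]; ring
      exact Nat.eq_of_mul_eq_mul_left hNpos h5
    rw [h4, hcnt2] at h1
    exact Nat.dvd_of_mul_dvd_mul_left hnpos h1
  have hN2 : 2 ∣ N := P.dvd_card_of_dvd_card hd2
  have hNge : 2 ≤ N := Nat.le_of_dvd hNpos hN2
  have hkodd : Odd k := by
    have h1 : Odd (N - 1) := by
      rw [Nat.odd_sub' (by omega)]
      simp only [odd_one, true_iff]
      exact even_iff_two_dvd.2 hN2
    exact h1.of_dvd_nat hkN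
  have hk3 : 3 ≤ k := by
    obtain ⟨j, hj⟩ := hkodd
    omega
  have hn2 : 1 < n := by
    rcases Nat.lt_or_ge 1 n with h0 | h0
    · exact h0
    · exfalso
      have h1 : n = 1 := by omega
      rw [h1] at hn1
      have h2 := Subgroup.index_eq_one.1 hn1.symm
      exact not_normal_sylow hns h3 hd2 P (Subgroup.normalizer_eq_top_iff.1 h2)
  have hnk : n * k = X * Y := by
    have h1 : N * (n * k) = N * (X * Y) := by
      calc N * (n * k) = N * k * n := by ring
        _ = N * X * Y := by rw [hidx, hGc]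
        _ = N * (X * Y) := by ring
    exact Nat.eq_of_mul_eq_mul_left hNpos h1
  -- odd orders
  have hXodd : Odd X := by
    obtain ⟨i, hi⟩ := IsPGroup.iff_card.1 Q.isPGroup'
    rw [hXdef, hi]
    exact (hq.odd_of_ne_two hq2).pow
  have hYodd : Odd Y := by
    obtain ⟨i, hi⟩ := IsPGroup.iff_card.1 R.isPGroup'
    rw [hYdef, hi]
    exact (hr.odd_of_ne_two hr2).pow
  obtain ⟨x, hx⟩ := hXodd
  obtain ⟨y, hy⟩ := hYodd
  -- the beta function
  obtain ⟨b, hb⟩ : ∃ b : ℕ → ℕ, ∀ g : G, bet g = b (orderOf g) := by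
    refine ⟨fun d => if hd : ∃ g : G, orderOf g = d then bet hd.choose else 0, ?_⟩
    intro g
    have hd : ∃ g' : G, orderOf g' = orderOf g := ⟨g, rfl⟩
    simp only [dif_pos hd]
    obtain ⟨α, hα⟩ := hA g hd.choose hd.choose_spec.symm
    rw [← hα, bet_map]
  have hsum := sum_bet_order h b hb
  rw [hpf, Finset.sum_insert (by
      simp only [Finset.mem_insert, Finset.mem_singleton]; push Not; exact ⟨hq2.symm, hr2.symm⟩),
      Finset.sum_pair hqr] at hsum
  have htot := sum_cnt h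
  rw [hpf, Finset.sum_insert (by
      simp only [Finset.mem_insert, Finset.mem_singleton]; push Not; exact ⟨hq2.symm, hr2.symm⟩),
      Finset.sum_pair hqr] at htot
  -- b 2
  have hb2 : b 2 + 2 = N := by
    obtain ⟨t, ht⟩ := exists_prime_orderOf_dvd_card' 2 hd2
    obtain ⟨S, hS⟩ := hcs 2 (by norm_num) t ht
    have h1 := bet_two h S ht hS
    rw [hb t, ht] at h1
    rw [h1, hNdef, S.card_eq_multiplicity, P.card_eq_multiplicity]
  -- the contribution of an odd prime
  have hcontrib : ∀ (ℓ : ℕ) (_ : ℓ.Prime) (_ : ℓ ≠ 2) (_ : ℓ ∣ Nat.card G) (L : Sylow ℓ G) (z : ℕ)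
      (_ : Nat.card (L : Subgroup G) = 2 * z + 1),
      (Rl G ℓ → cnt G ℓ * b ℓ = Nat.card G * z) ∧ (¬ Rl G ℓ → cnt G ℓ * b ℓ = 0) := by
    intro ℓ hℓ hℓ2 hℓd L z hz
    have hℓF : Fact ℓ.Prime := ⟨hℓ⟩
    obtain ⟨g, hg⟩ := exists_prime_orderOf_dvd_card' ℓ hℓd
    constructor
    · intro hR
      obtain ⟨h1, h2⟩ := real_cnt h hℓ2 (hcs ℓ hℓ) hR hℓd L
      have h4 : b ℓ = Nat.card (L : Subgroup G) := by
        rw [← h2 g hg, hb g, hg]
      rw [h4]
      have h5 : Nat.card (L : Subgroup G) - 1 = 2 * z := by omega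
      rw [h5] at h1
      have h6 : 2 * (cnt G ℓ * Nat.card (L : Subgroup G)) = 2 * (Nat.card G * z) := by linarith
      exact Nat.eq_of_mul_eq_mul_left (by norm_num) h6
    · intro hR
      have h1 := not_real_bet hA hR g hg
      rw [hb g, hg] at h1
      rw [h1, mul_zero]
  have hcq := hcontrib q hq hq2 hdq Q x hx
  have hcr := hcontrib r hr hr2 hdr R y hy
  -- main equation
  have hmain : ∀ ρ : ℕ, cnt G q * b q + cnt G r * b r = Nat.card G * ρ →
      (n - 1) * (N - 1) ^ 2 = N * k * ρ := by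
    intro ρ hρ
    rw [hρ, hcnt2, ← hidx] at hsum
    exact arith0 hb2 (by omega) hsum
  have hk1' : N - 1 ≠ 0 := by omega
  by_cases hRq : Rl G q
  · by_cases hRr : Rl G r
    · -- both real
      have e1 := hcq.1 hRq
      have e2 := hcr.1 hRr
      have e3 := hmain (x + y) (by rw [e1, e2]; ring)
      have c1 := (real_cnt h hq2 (hcs q hq) hRq hdq Q).1
      have c2 := (real_cnt h hr2 (hcs r hr) hRr hdr R).1
      change 2 * X * cnt G q = Nat.card G * (X - 1) at c1
      change 2 * Y * cnt G r = Nat.card G * (Y - 1) at c2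
      rw [hGc] at c1 c2
      rw [hGc, hcnt2] at htot
      obtain ⟨hNk, w, hw, hnw, hXY, hXYp⟩ := arith2 hk3 hkN hNge hn2 hx hy hnk c1 c2 htot e3
      have hkG : k ∣ Nat.card G := ⟨N * n, by rw [← hidx]; ring⟩
      have hk1'' : k ≠ 1 := hk1
      have hdNP : k ∣ Nat.card (normalizer ((P : Subgroup G) : Set G)) := ⟨N, by rw [hk]; ring⟩
      have hnotboth : ¬ (q ∣ k ∧ r ∣ k) := by
        rintro ⟨h1, h2⟩
        exact not_both h (hcs 2 (by norm_num)) P hqr hq2 hr2 (hcs q hq) (hcs r hr) hRq hRr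
          (h1.trans hdNP) (h2.trans hdNP)
      have hkXY : k ∣ X * Y := ⟨n, by rw [← hnk]; ring⟩
      obtain ⟨i, hi⟩ := IsPGroup.iff_card.1 Q.isPGroup'
      obtain ⟨c, hc⟩ := IsPGroup.iff_card.1 R.isPGroup'
      change X = q ^ i at hi
      change Y = r ^ c at hc
      rcases prime_dvd_of_pf hpf hkG hkodd hk1 with h1 | h1
      · -- q ∣ k
        have h2 : ¬ r ∣ k := fun h0 => hnotboth ⟨h1, h0⟩
        have hcop : Nat.Coprime k Y := by
          rw [hc]
          exact Nat.Coprime.pow_right _ ((Nat.Prime.coprime_iff_not_dvd hr).2 h2).symm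
        have hkX : k ∣ X := hcop.dvd_of_dvd_mul_right hkXY
        obtain ⟨hw1, hXk, hYk⟩ := arith3 hk3 hw hXY hXYp hkX ⟨y, hy⟩ hXpos
        exact last_step h P hr2 (hcs r hr) hRr hdr Q R hk3 hNk hXk hYk
          (by show n = k + 2; rw [hnw, hw1]; ring) (by rw [hk, hNk]) (by rw [hGc, hNk, hXk, hYk])
      · -- r ∣ k
        have h2 : ¬ q ∣ k := fun h0 => hnotboth ⟨h0, h1⟩
        have hcop : Nat.Coprime k X := by
          rw [hi]
          exact Nat.Coprime.pow_right _ ((Nat.Prime.coprime_iff_not_dvd hq).2 h2).symm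
        have hkY : k ∣ Y := hcop.dvd_of_dvd_mul_left hkXY
        obtain ⟨hw1, hYk, hXk⟩ := arith3 hk3 hw (by rw [add_comm]; exact hXY) (by rw [mul_comm]; exact hXYp) hkY ⟨x, hx⟩ hYpos
        exact last_step h P hq2 (hcs q hq) hRq hdq R Q hk3 hNk hYk hXk
          (by show n = k + 2; rw [hnw, hw1]; ring) (by rw [hk, hNk]) (by rw [hGc, hNk, hXk, hYk]; ring)
    · exfalso
      have e1 := hcq.1 hRq
      have e2 := hcr.2 hRr
      have e3 := hmain x (by rw [e1, e2]; ring)
      exact arith1 hk3 hkN hNge e3 hx (by rw [hnk]; exact dvd_mul_right _ _) hn2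
  · by_cases hRr : Rl G r
    · exfalso
      have e1 := hcq.2 hRq
      have e2 := hcr.1 hRr
      have e3 := hmain y (by rw [e1, e2]; ring)
      exact arith1 hk3 hkN hNge e3 hy (by rw [hnk]; exact dvd_mul_left _ _) hn2
    · exfalso
      have e1 := hcq.2 hRq
      have e2 := hcr.2 hRr
      have e3 := hmain 0 (by rw [e1, e2, mul_zero, add_zero])
      rw [mul_zero] at e3
      rcases Nat.mul_eq_zero.1 e3 with h0 | h0
      · omega
      · exact hk1' (pow_eq_zero_iff (by norm_num) |>.1 h0)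

theorem card_sixty {G : Type*} [Group G] [Finite G] (h : PO G)
    (hA : ∀ x y : G, orderOf x = orderOf y → ∃ α : MulAut G, α x = y) (hns : ¬ Group.IsSolvable G)
    (h3 : (Nat.card G).primeFactors.card = 3) : Nat.card G = 60 := by
  have hcs : ∀ ℓ : ℕ, ℓ.Prime → CS ℓ G := by
    intro ℓ hℓ
    have : Fact ℓ.Prime := ⟨hℓ⟩
    exact cs_of_aut h hA ℓ
  have h2G := even_card h hns h3 hcs
  have h2mem : 2 ∈ (Nat.card G).primeFactors :=
    Nat.mem_primeFactors.2 ⟨by norm_num, h2G, Nat.card_pos.ne'⟩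
  have h4 : ((Nat.card G).primeFactors.erase 2).card = 2 := by
    rw [Finset.card_erase_of_mem h2mem, h3]
  obtain ⟨q, r, hqr, hpf⟩ := Finset.card_eq_two.1 h4
  have hqm : q ∈ (Nat.card G).primeFactors.erase 2 := by rw [hpf]; simp
  have hrm : r ∈ (Nat.card G).primeFactors.erase 2 := by rw [hpf]; simp
  rw [Finset.mem_erase] at hqm hrm
  refine core h hA hns h3 hcs (Nat.prime_of_mem_primeFactors hqm.2) (Nat.prime_of_mem_primeFactors hrm.2)
    hqr hqm.1 hrm.1 ?_
  rw [← Finset.insert_erase h2mem, hpf]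

end Cfsg.Agent.H68.FO
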