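import Cfsg.Agent.S0200
import Cfsg.Agent.Solv.Core
import Mathlib

/-!
# Camina-type action of `G` on a normal elementary abelian `p`-group with `p`-group stabilizers
(owner: helper68)
-/

set_option autoImplicit false

namespace Cfsg.Agent.H68.Gag

open Subgroup

variable {G : Type*} [Group G] [Finite G]

set_option linter.unusedSectionVars false

theorem mem_of_centralizes {p : ℕ} {N : Subgroup G} [hNn : N.Normal] (hN1 : N ≠ ⊥)
    (hcent : ∀ x ∈ N, x ≠ 1 → IsPGroup p (centralizer ({x} : Set G)))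
    (hcore : ∀ K : Subgroup G, K.Normal → IsPGroup p K → K ≤ N) {g : G}
    (hg : ∀ z ∈ N, g * z = z * g) : g ∈ N := by
  obtain ⟨⟨x, hx⟩, hx1⟩ := Subgroup.ne_bot_iff_exists_ne_one.mp hN1
  have h1 : (centralizer (N : Set G)).Normal := inferInstance
  refine hcore _ h1 ?_ ?_
  · exact (hcent x hx (fun h => hx1 (Subtype.ext h))).to_le
      (Subgroup.centralizer_le (by simpa using hx))
  · rw [Subgroup.mem_centralizer_iff]
    intro z hz
    exact (hg z hz).symm

/-- the map `z ↦ (g⁻¹ z g) z` -/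
def sqMap (N : Subgroup G) [hNn : N.Normal] (hab : ∀ x ∈ N, ∀ y ∈ N, x * y = y * x) (g : G) :
    N →* N where
  toFun z := ⟨(g⁻¹ * z * g) * z, N.mul_mem (by simpa using hNn.conj_mem z z.2 g⁻¹) z.2⟩
  map_one' := Subtype.ext (by simp)
  map_mul' a b := by
    apply Subtype.ext
    have h1 : g⁻¹ * (b : G) * g * a = a * (g⁻¹ * (b : G) * g) :=
      hab _ (by simpa using hNn.conj_mem b b.2 g⁻¹) _ a.2
    change g⁻¹ * ((a : G) * b) * g * (a * b) = (g⁻¹ * a * g * a) * (g⁻¹ * b * g * b)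
    calc g⁻¹ * ((a : G) * b) * g * (a * b)
        = (g⁻¹ * a * g) * ((g⁻¹ * (b : G) * g * a) * b) := by group
      _ = (g⁻¹ * a * g) * ((a * (g⁻¹ * (b : G) * g)) * b) := by rw [h1]
      _ = _ := by group

theorem sqMap_apply (N : Subgroup G) [hNn : N.Normal]
    (hab : ∀ x ∈ N, ∀ y ∈ N, x * y = y * x) (g : G) (z : N) :
    ((sqMap N hab g z : N) : G) = (g⁻¹ * z * g) * z := rfl

/-- an element `g ∉ N` with `g² ∈ N` centralizes more than `√|N|` elements. -/
theorem card_lt_of_two {N : Subgroup G} [hNn : N.Normal] (hN1 : N ≠ ⊥)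
    (hab : ∀ x ∈ N, ∀ y ∈ N, x * y = y * x) (hel : ∀ x ∈ N, x * x = 1)
    (hcent : ∀ x ∈ N, x ≠ 1 → IsPGroup 2 (centralizer ({x} : Set G)))
    (hcore : ∀ K : Subgroup G, K.Normal → IsPGroup 2 K → K ≤ N)
    (hconj : ∀ g ∉ N, ∀ z ∈ N, IsConj g (g * z)) {g : G} (hg : g ∉ N) (hg2 : g * g ∈ N) :
    Nat.card N < Nat.card (sqMap N hab g).ker * Nat.card (sqMap N hab g).ker := by
  set φ := sqMap N hab g with hφ
  have hinv : ∀ x ∈ N, x⁻¹ = x := fun x hx => by rw [inv_eq_iff_mul_eq_one]; exact hel x hx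
  -- no element of the coset is an involution
  have h1 : ∀ z ∈ N, (g * z) * (g * z) ≠ 1 := by
    intro z hz h0
    apply hg
    have hall : ∀ y ∈ N, (g * y) * (g * y) = 1 := by
      intro y hy
      have hc : IsConj (g * z) (g * y) := (hconj g hg z hz).symm.trans (hconj g hg y hy)
      obtain ⟨c, hc⟩ := isConj_iff.mp hc
      rw [← hc]
      calc c * (g * z) * c⁻¹ * (c * (g * z) * c⁻¹) = c * ((g * z) * (g * z)) * c⁻¹ := by group
        _ = 1 := by rw [h0]; group
    have hgg : g * g = 1 := by simpa using hall 1 N.one_mem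
    refine mem_of_centralizes hN1 hcent hcore ?_
    intro y hy
    have h2 := hall y hy
    have h3 : g⁻¹ = g := by rw [inv_eq_iff_mul_eq_one]; exact hgg
    have h4 : g * y = (g * y)⁻¹ := by
      rw [eq_comm, inv_eq_iff_mul_eq_one]; exact h2
    rw [mul_inv_rev, h3, hinv y hy] at h4
    exact h4
  -- range ≤ ker
  have h2 : φ.range ≤ φ.ker := by
    rintro _ ⟨z, rfl⟩
    rw [MonoidHom.mem_ker]
    apply Subtype.ext
    rw [hφ, sqMap_apply, sqMap_apply]
    have h3 : g * g * (z : G) = z * (g * g) := hab _ hg2 _ z.2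
    have h5 : g⁻¹ * (g⁻¹ * (z : G) * g) * g = z := by
      calc g⁻¹ * (g⁻¹ * (z : G) * g) * g = (g * g)⁻¹ * (z * (g * g)) := by group
        _ = z := by rw [← h3]; group
    have h4 : g⁻¹ * (g⁻¹ * (z : G) * g * z) * g = z * (g⁻¹ * z * g) := by
      calc g⁻¹ * (g⁻¹ * (z : G) * g * z) * g
          = (g⁻¹ * (g⁻¹ * (z : G) * g) * g) * (g⁻¹ * z * g) := by group
        _ = _ := by rw [h5]
    rw [h4]
    have hz' : g⁻¹ * (z : G) * g ∈ N := by simpa using hNn.conj_mem z z.2 g⁻¹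
    calc (z : G) * (g⁻¹ * z * g) * (g⁻¹ * z * g * z)
        = (z : G) * ((g⁻¹ * z * g) * (g⁻¹ * z * g)) * z := by group
      _ = 1 := by rw [hel _ hz', mul_one, hel _ z.2]
  have h3 : (⟨(g * g)⁻¹, N.inv_mem hg2⟩ : N) ∈ φ.ker := by
    rw [MonoidHom.mem_ker]
    apply Subtype.ext
    rw [hφ, sqMap_apply]
    have : g⁻¹ * (g * g)⁻¹ * g = (g * g)⁻¹ := by group
    change g⁻¹ * (g * g)⁻¹ * g * (g * g)⁻¹ = 1
    rw [this]
    exact hel _ (N.inv_mem hg2)
  have h4 : (⟨(g * g)⁻¹, N.inv_mem hg2⟩ : N) ∉ φ.range := by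
    rintro ⟨z, hz⟩
    have h5 := congrArg Subtype.val hz
    rw [hφ, sqMap_apply] at h5
    apply h1 z z.2
    change g⁻¹ * (z : G) * g * z = (g * g)⁻¹ at h5
    calc g * (z : G) * (g * z) = (g * g) * (g⁻¹ * z * g * z) := by group
      _ = 1 := by rw [h5]; group
  have h5 : Nat.card φ.range < Nat.card φ.ker := by
    have h6 : (φ.range : Set N) ⊂ (φ.ker : Set N) :=
      ⟨h2, fun h => h4 (h h3)⟩
    have := Set.ncard_lt_ncard h6 (Set.toFinite _)
    rwa [← Nat.card_coe_set_eq, ← Nat.card_coe_set_eq] at this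
  have h6 := φ.ker.card_mul_index
  rw [Subgroup.index_ker] at h6
  rw [← h6]
  exact Nat.mul_lt_mul_of_pos_left h5 Nat.card_pos

theorem not_dvd_index_two {N : Subgroup G} [hNn : N.Normal] (hN1 : N ≠ ⊥)
    (hab : ∀ x ∈ N, ∀ y ∈ N, x * y = y * x) (hel : ∀ x ∈ N, x * x = 1)
    (hcent : ∀ x ∈ N, x ≠ 1 → IsPGroup 2 (centralizer ({x} : Set G)))
    (hcore : ∀ K : Subgroup G, K.Normal → IsPGroup 2 K → K ≤ N)
    (hconj : ∀ g ∉ N, ∀ z ∈ N, IsConj g (g * z)) : ¬ 2 ∣ N.index := by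
  intro h2
  have hf : Fact (Nat.Prime 2) := ⟨Nat.prime_two⟩
  have hN2 : IsPGroup 2 N := fun x => ⟨1, Subtype.ext (by
    rw [pow_one]; change (x : G) ^ 2 = 1; rw [sq]; exact hel x x.2)⟩
  rw [Subgroup.index_eq_card] at h2
  obtain ⟨t, ht⟩ := exists_prime_orderOf_dvd_card' 2 h2
  have hO : ∀ M : Subgroup (G ⧸ N), M.Normal → IsPGroup 2 M → t ∉ M := by
    intro M hM hM2 htM
    have h3 : (M.comap (QuotientGroup.mk' N)).Normal := inferInstance
    have h4 : IsPGroup 2 (M.comap (QuotientGroup.mk' N)) := by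
      apply hM2.comap_of_ker_isPGroup
      rw [QuotientGroup.ker_mk']
      exact hN2
    have h5 := hcore _ h3 h4
    obtain ⟨g, rfl⟩ := QuotientGroup.mk'_surjective N t
    have h6 : g ∈ N := h5 htM
    have h7 : QuotientGroup.mk' N g = 1 := (QuotientGroup.eq_one_iff g).mpr h6
    rw [h7, orderOf_one] at ht
    omega
  obtain ⟨y, hy1, hyo, hty⟩ := Cfsg.Agent.S0200.result t ht hO
  obtain ⟨g, rfl⟩ := QuotientGroup.mk'_surjective N t
  obtain ⟨h, rfl⟩ := QuotientGroup.mk'_surjective N y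
  have htt : (QuotientGroup.mk' N g) * (QuotientGroup.mk' N g) = 1 := by
    rw [← sq, ← ht, pow_orderOf_eq_one]
  have hg : g ∉ N := by
    intro hg
    have h7 : QuotientGroup.mk' N g = 1 := (QuotientGroup.eq_one_iff g).mpr hg
    rw [h7, orderOf_one] at ht
    omega
  have hgg : g * g ∈ N := (QuotientGroup.eq_one_iff (g * g)).mp htt
  have hgh : g * h ∉ N := by
    intro h0
    have h7 : QuotientGroup.mk' N g * QuotientGroup.mk' N h = 1 :=
      (QuotientGroup.eq_one_iff (g * h)).mpr h0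
    have h8 : QuotientGroup.mk' N h = QuotientGroup.mk' N g := by
      rw [← mul_right_inj (QuotientGroup.mk' N g), h7, htt]
    rw [h8, ht] at hyo
    exact absurd hyo (by decide)
  have hgh2 : (g * h) * (g * h) ∈ N := by
    apply (QuotientGroup.eq_one_iff ((g * h) * (g * h))).mp
    change (QuotientGroup.mk' N g * QuotientGroup.mk' N h) *
      (QuotientGroup.mk' N g * QuotientGroup.mk' N h) = 1
    have hginv : (QuotientGroup.mk' N g)⁻¹ = QuotientGroup.mk' N g := by
      rw [inv_eq_iff_mul_eq_one]; exact htt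
    rw [hginv] at hty
    calc (QuotientGroup.mk' N g * QuotientGroup.mk' N h) *
        (QuotientGroup.mk' N g * QuotientGroup.mk' N h)
        = (QuotientGroup.mk' N g * QuotientGroup.mk' N h * QuotientGroup.mk' N g) *
          QuotientGroup.mk' N h := by group
      _ = 1 := by rw [hty]; group
  have k1 := card_lt_of_two hN1 hab hel hcent hcore hconj hg hgg
  have k2 := card_lt_of_two hN1 hab hel hcent hcore hconj hgh hgh2
  set K1 := (sqMap N hab g).ker
  set K2 := (sqMap N hab (g * h)).ker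
  have hker : ∀ (a : G) (z : N), z ∈ (sqMap N hab a).ker → a * (z : G) = z * a := by
    intro a z hz
    rw [MonoidHom.mem_ker] at hz
    have h3 := congrArg Subtype.val hz
    rw [sqMap_apply] at h3
    change a⁻¹ * (z : G) * a * z = 1 at h3
    have h4 : a⁻¹ * (z : G) * a = z := by
      have h5 : (z : G)⁻¹ = z := by rw [inv_eq_iff_mul_eq_one]; exact hel z z.2
      rw [mul_eq_one_iff_eq_inv] at h3
      rw [h3, h5]
    calc a * (z : G) = a * (a⁻¹ * (z : G) * a) := by rw [h4]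
      _ = z * a := by group
  have hdisj : Disjoint K1 K2 := by
    rw [disjoint_iff, eq_bot_iff]
    rintro z ⟨hz1, hz2⟩
    rw [Subgroup.mem_bot]
    by_contra hz
    have h3 := hker g z hz1
    have h4 := hker (g * h) z hz2
    have h5 : h * (z : G) = z * h := by
      have : g * (h * z) = g * (z * h) := by
        calc g * (h * z) = g * h * z := by group
          _ = z * g * h := by rw [h4]; group
          _ = g * (z * h) := by rw [← h3]; group
      exact mul_left_cancel this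
    have h6 : h ∈ centralizer ({(z : G)} : Set G) := by
      rw [Subgroup.mem_centralizer_singleton_iff]
      exact h5
    have h7 := hcent z z.2 (fun h0 => hz (Subtype.ext h0))
    obtain ⟨k, hk⟩ := h7 ⟨h, h6⟩
    have h8 : h ^ 2 ^ k = 1 := congrArg Subtype.val hk
    have h9 : (QuotientGroup.mk' N h) ^ 2 ^ k = 1 := by
      rw [← map_pow, h8, map_one]
    have h10 := orderOf_dvd_of_pow_eq_one h9
    have h11 : Nat.Coprime (orderOf (QuotientGroup.mk' N h)) (2 ^ k) :=
      Nat.Coprime.pow_right _ (Nat.coprime_two_right.mpr hyo)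
    have h12 := Nat.Coprime.eq_one_of_dvd h11 h10
    rw [orderOf_eq_one_iff] at h12
    exact hy1 h12
  have h3 : Nat.card K1 * Nat.card K2 ≤ Nat.card N := by
    rw [← Nat.card_prod]
    exact Nat.card_le_card_of_injective _ (Subgroup.mul_injective_of_disjoint hdisj)
  have h4 : Nat.card N * Nat.card N < (Nat.card K1 * Nat.card K2) * (Nat.card K1 * Nat.card K2) := by
    calc Nat.card N * Nat.card N < (Nat.card K1 * Nat.card K1) * (Nat.card K2 * Nat.card K2) :=
        Nat.mul_lt_mul'' k1 k2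
      _ = _ := by ring
  have h5 := Nat.mul_le_mul h3 h3
  omega

/-- the commutator map `w ↦ g⁻¹ w g w⁻¹` on a normal abelian subgroup -/
def comMap (N : Subgroup G) [hNn : N.Normal] (hab : ∀ x ∈ N, ∀ y ∈ N, x * y = y * x) (g : G) :
    N →* N where
  toFun z := ⟨(g⁻¹ * z * g) * z⁻¹, N.mul_mem (by simpa using hNn.conj_mem z z.2 g⁻¹)
    (N.inv_mem z.2)⟩
  map_one' := Subtype.ext (by simp)
  map_mul' a b := by
    apply Subtype.ext
    have h1 : g⁻¹ * (b : G) * g * (a : G)⁻¹ = (a : G)⁻¹ * (g⁻¹ * (b : G) * g) :=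
      hab _ (by simpa using hNn.conj_mem b b.2 g⁻¹) _ (N.inv_mem a.2)
    have h2 : (a : G) * b = b * a := hab _ a.2 _ b.2
    change g⁻¹ * ((a : G) * b) * g * ((a : G) * b)⁻¹ =
      (g⁻¹ * a * g * (a : G)⁻¹) * (g⁻¹ * b * g * (b : G)⁻¹)
    calc g⁻¹ * ((a : G) * b) * g * ((a : G) * b)⁻¹
        = (g⁻¹ * a * g) * (g⁻¹ * b * g) * ((a : G) * b)⁻¹ := by group
      _ = (g⁻¹ * a * g) * (g⁻¹ * b * g) * ((b : G) * a)⁻¹ := by rw [h2]
      _ = (g⁻¹ * a * g) * ((g⁻¹ * (b : G) * g * (a : G)⁻¹) * (b : G)⁻¹) := by group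
      _ = (g⁻¹ * a * g) * (((a : G)⁻¹ * (g⁻¹ * (b : G) * g)) * (b : G)⁻¹) := by rw [h1]
      _ = _ := by group

theorem not_dvd_index_odd {p : ℕ} [hp : Fact p.Prime] (hp2 : p ≠ 2) {N : Subgroup G}
    [hNn : N.Normal] (hN1 : N ≠ ⊥)
    (hab : ∀ x ∈ N, ∀ y ∈ N, x * y = y * x) (hel : ∀ x ∈ N, x ^ p = 1)
    (hcent : ∀ x ∈ N, x ≠ 1 → IsPGroup p (centralizer ({x} : Set G)))
    (hcore : ∀ K : Subgroup G, K.Normal → IsPGroup p K → K ≤ N)
    (hconj : ∀ g ∉ N, ∀ z ∈ N, IsConj g (g * z)) (hG2 : 2 ∣ Nat.card G) : ¬ p ∣ N.index := by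
  intro hdvd
  have hpp : p.Prime := hp.out
  have hf : Fact (Nat.Prime 2) := ⟨Nat.prime_two⟩
  have hodd : Odd p := hpp.odd_of_ne_two hp2
  have hNp : IsPGroup p N := fun x => ⟨1, Subtype.ext (by
    rw [pow_one]; exact hel x x.2)⟩
  -- every element of `N` is a square
  have hsq : ∀ z ∈ N, ∃ w ∈ N, w * w = z := by
    intro z hz
    obtain ⟨k, hk⟩ := hodd
    refine ⟨z ^ (k + 1), N.pow_mem hz _, ?_⟩
    rw [← pow_add, show k + 1 + (k + 1) = (2 * k + 1) + 1 by ring, ← hk, pow_succ, hel z hz,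
      one_mul]
  -- 2-elements centralizing something of `N` are trivial
  have hfix : ∀ t : G, orderOf t = 2 → ∀ x ∈ N, t * x = x * t → x = 1 := by
    intro t ht x hx hc
    by_contra hx1
    have h1 := hcent x hx hx1
    obtain ⟨k, hk⟩ := h1 ⟨t, by rw [Subgroup.mem_centralizer_singleton_iff]; exact hc⟩
    have h2 : t ^ p ^ k = 1 := congrArg Subtype.val hk
    have h3 := orderOf_dvd_of_pow_eq_one h2
    rw [ht] at h3
    have h4 := (Nat.prime_two.dvd_of_dvd_pow h3)
    rw [Nat.prime_dvd_prime_iff_eq Nat.prime_two hpp] at h4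
    exact hp2 h4.symm
  have hinvt : ∀ t : G, orderOf t = 2 → ∀ x ∈ N, t * x * t⁻¹ = x⁻¹ := by
    intro t ht x hx
    have htt : t * t = 1 := by rw [← sq, ← ht, pow_orderOf_eq_one]
    have htx : t * x * t⁻¹ ∈ N := hNn.conj_mem x hx t
    have h1 : t * x * t⁻¹ * x = 1 := by
      apply hfix t ht _ (N.mul_mem htx hx)
      have h2 : t * (t * x * t⁻¹) * t⁻¹ = x := by
        calc t * (t * x * t⁻¹) * t⁻¹ = (t * t) * x * (t * t)⁻¹ := by group
          _ = x := by rw [htt]; group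
      have h3 : t * (t * x * t⁻¹ * x) * t⁻¹ = t * x * t⁻¹ * x := by
        calc t * (t * x * t⁻¹ * x) * t⁻¹ = (t * (t * x * t⁻¹) * t⁻¹) * (t * x * t⁻¹) := by group
          _ = x * (t * x * t⁻¹) := by rw [h2]
          _ = _ := hab _ hx _ htx
      calc t * (t * x * t⁻¹ * x) = (t * (t * x * t⁻¹ * x) * t⁻¹) * t := by group
        _ = _ := by rw [h3]
    exact mul_eq_one_iff_eq_inv.mp h1
  obtain ⟨t, ht⟩ := exists_prime_orderOf_dvd_card' 2 hG2
  -- `t^g ∈ t N`
  have htg : ∀ g : G, t⁻¹ * (g * t * g⁻¹) ∈ N := by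
    intro g
    apply mem_of_centralizes hN1 hcent hcore
    intro z hz
    have h1 := hinvt t ht z hz
    have ho : orderOf (g * t * g⁻¹) = 2 := by
      rw [← ht]
      exact orderOf_injective (MulAut.conj g).toMonoidHom (MulAut.conj g).injective t
    have h2 := hinvt _ ho z hz
    set s := g * t * g⁻¹
    have h3 : s * z = z⁻¹ * s := by
      calc s * z = (s * z * s⁻¹) * s := by group
        _ = _ := by rw [h2]
    have h4 : t⁻¹ * z⁻¹ = z * t⁻¹ := by
      have : t * z = z⁻¹ * t := by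
        calc t * z = (t * z * t⁻¹) * t := by group
          _ = _ := by rw [h1]
      calc t⁻¹ * z⁻¹ = t⁻¹ * (z⁻¹ * t) * t⁻¹ := by group
        _ = t⁻¹ * (t * z) * t⁻¹ := by rw [this]
        _ = _ := by group
    calc t⁻¹ * s * z = t⁻¹ * (s * z) := by group
      _ = (t⁻¹ * z⁻¹) * s := by rw [h3]; group
      _ = z * (t⁻¹ * s) := by rw [h4]; group
  -- a nontrivial element of order `p` modulo `N`
  rw [Subgroup.index_eq_card] at hdvd
  obtain ⟨y, hy⟩ := exists_prime_orderOf_dvd_card' p hdvd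
  obtain ⟨g0, rfl⟩ := QuotientGroup.mk'_surjective N y
  have hg0 : g0 ∉ N := by
    intro h0
    have h7 : QuotientGroup.mk' N g0 = 1 := (QuotientGroup.eq_one_iff g0).mpr h0
    rw [h7, orderOf_one] at hy
    exact hpp.one_lt.ne hy
  -- adjust to commute with t
  obtain ⟨n, hn, hnn⟩ := hsq _ (htg g0)
  set g := n * g0 with hgdef
  have hg : g ∉ N := fun h => hg0 ((N.mul_mem_cancel_left hn).mp h)
  have hswap : ∀ z ∈ N, t * z = z⁻¹ * t := by
    intro z hz
    calc t * z = (t * z * t⁻¹) * t := by group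
      _ = _ := by rw [hinvt t ht z hz]
  have hgt : g * t = t * g := by
    have h1 : g0 * t = t * (n * n) * g0 := by rw [hnn]; group
    calc g * t = n * (g0 * t) := by rw [hgdef]; group
      _ = n * t * (n * n) * g0 := by rw [h1]; group
      _ = (t * n⁻¹) * (n * n) * g0 := by
        rw [hswap n⁻¹ (N.inv_mem hn), inv_inv]
      _ = t * g := by rw [hgdef]; group
  -- every z⁻² is in the range of the commutator map
  have hsurj : Function.Surjective (comMap N hab g) := by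
    intro ⟨v, hv⟩
    obtain ⟨z', hz', hz'v⟩ := hsq v hv
    -- take z = z'⁻¹
    set z := z'⁻¹ with hz
    have hzN : z ∈ N := N.inv_mem hz'
    obtain ⟨u, hu⟩ := isConj_iff.mp (hconj g hg z hzN)
    -- t1 = u t u⁻¹ = t w commutes with g z
    set w := t⁻¹ * (u * t * u⁻¹) with hw
    have hwN : w ∈ N := htg u
    have h1 : (t * w) * (g * z) = (g * z) * (t * w) := by
      have : t * w = u * t * u⁻¹ := by rw [hw]; group
      rw [this, ← hu]
      calc u * t * u⁻¹ * (u * g * u⁻¹) = u * (t * g) * u⁻¹ := by group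
        _ = u * (g * t) * u⁻¹ := by rw [hgt]
        _ = _ := by group
    have h2 : w * g * z = g * z⁻¹ * w := by
      have h3 : z * t = t * z⁻¹ := by
        rw [hswap z⁻¹ (N.inv_mem hzN), inv_inv]
      have h4 : t * (w * g * z) = t * (g * z⁻¹ * w) := by
        calc t * (w * g * z) = (t * w) * (g * z) := by group
          _ = g * (z * t) * w := by rw [h1]; group
          _ = (g * t) * z⁻¹ * w := by rw [h3]; group
          _ = _ := by rw [hgt]; group
      exact mul_left_cancel h4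
    refine ⟨⟨w, hwN⟩, Subtype.ext ?_⟩
    change g⁻¹ * w * g * w⁻¹ = v
    have h5 : z⁻¹ * w = w * z⁻¹ := hab _ (N.inv_mem hzN) _ hwN
    have h6 : g⁻¹ * w * g = w * (z⁻¹ * z⁻¹) := by
      calc g⁻¹ * w * g = g⁻¹ * (w * g * z) * z⁻¹ := by group
        _ = (z⁻¹ * w) * z⁻¹ := by rw [h2]; group
        _ = _ := by rw [h5]; group
    have h7 : w * (z⁻¹ * z⁻¹) = (z⁻¹ * z⁻¹) * w :=
      hab _ hwN _ (N.mul_mem (N.inv_mem hzN) (N.inv_mem hzN))
    rw [h6, h7, mul_inv_cancel_right, hz, inv_inv, hz'v]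
  have hinj : Function.Injective (comMap N hab g) := Finite.injective_iff_surjective.mpr hsurj
  -- but the p-element g has fixed points
  have hgp : ∃ k : ℕ, orderOf g = p ^ k := by
    have h1 : g ^ p ∈ N := by
      apply (QuotientGroup.eq_one_iff (g ^ p)).mp
      change (QuotientGroup.mk' N (n * g0)) ^ p = 1
      have h2 : QuotientGroup.mk' N n = 1 := (QuotientGroup.eq_one_iff n).mpr hn
      rw [map_mul, h2, one_mul, ← hy, pow_orderOf_eq_one]
    have h2 : g ^ p ^ 2 = 1 := by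
      rw [sq, pow_mul]
      exact hel _ h1
    obtain ⟨k, hk, hk2⟩ := (Nat.dvd_prime_pow hpp).mp (orderOf_dvd_of_pow_eq_one h2)
    exact ⟨k, hk2⟩
  obtain ⟨k, hk⟩ := hgp
  have hZ : IsPGroup p (Subgroup.zpowers g) := IsPGroup.of_card (n := k) (by
    rw [Nat.card_zpowers, hk])
  have hdvdN : p ∣ Nat.card N := by
    have : Nontrivial N := (Subgroup.nontrivial_iff_ne_bot N).mpr hN1
    obtain ⟨m, hm0, hm⟩ := hNp.nontrivial_iff_card.mp this
    rw [hm]
    exact dvd_pow_self _ hm0.ne'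
  let act : MulAction (Subgroup.zpowers g) N := MulAction.compHom N
    ((MulAut.conjNormal (H := N)).comp (Subgroup.zpowers g).subtype)
  obtain ⟨b, hb, hb1⟩ := hZ.exists_fixed_point_of_prime_dvd_card_of_fixed_point N hdvdN
    (a := 1) (fun x => by
      change MulAut.conjNormal (x : G) (1 : N) = 1
      rw [map_one])
  have hb2 := hb ⟨g, Subgroup.mem_zpowers g⟩
  change MulAut.conjNormal g b = b at hb2
  have hb3 : g * (b : G) * g⁻¹ = b := by
    rw [← MulAut.conjNormal_apply, hb2]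
  apply hb1
  apply hinj
  rw [map_one]
  apply Subtype.ext
  change 1 = g⁻¹ * (b : G) * g * (b : G)⁻¹
  nth_rewrite 1 [← hb3]
  group

theorem not_dvd_index {p : ℕ} [hp : Fact p.Prime] {N : Subgroup G}
    [hNn : N.Normal] (hN1 : N ≠ ⊥)
    (hab : ∀ x ∈ N, ∀ y ∈ N, x * y = y * x) (hel : ∀ x ∈ N, x ^ p = 1)
    (hcent : ∀ x ∈ N, x ≠ 1 → IsPGroup p (centralizer ({x} : Set G)))
    (hcore : ∀ K : Subgroup G, K.Normal → IsPGroup p K → K ≤ N)
    (hconj : ∀ g ∉ N, ∀ z ∈ N, IsConj g (g * z)) (hG2 : 2 ∣ Nat.card G) : ¬ p ∣ N.index := by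
  rcases eq_or_ne p 2 with rfl | h2
  · exact not_dvd_index_two hN1 hab (fun x hx => by rw [← sq]; exact hel x hx) hcent hcore hconj
  · exact not_dvd_index_odd h2 hN1 hab hel hcent hcore hconj hG2

end Cfsg.Agent.H68.Gag
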