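import Cfsg.Agent.H68.HupH
import Cfsg.Agent.H80.Index2
import Cfsg.Agent.H62.SL23Rec

/-!
# Regular solvable linear groups (owner: helper68)
-/

set_option autoImplicit false
set_option linter.unusedSectionVars false

namespace Cfsg.Agent.H68.Hup

open scoped commutatorElement

universe u v w

/-- regularity -/
def RegV (G : Type v) (V : Type u) [Group G] [AddCommGroup V] [DistribMulAction G V] : Prop :=
  ∀ v : V, v ≠ 0 → ∀ g : G, g • v = v → g = 1

variable {G : Type v} [Group G] [Finite G] {A B : Subgroup G} {r : ℕ}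
variable {V : Type u} [AddCommGroup V] [Finite V]
  [DistribMulAction G V] [Nontrivial V] {F : Type w} [Field F] [Finite F] [Module F V]

theorem RegV.faith (hr : RegV G V) : FaithV G V := by
  intro g hg
  obtain ⟨v, hv⟩ := exists_ne (0 : V)
  exact hr v hv g (hg v)

theorem RegV.card (hr : RegV G V) (htr : TransV G V) : Nat.card G = Nat.card V - 1 := by
  obtain ⟨v, hv⟩ := exists_ne (0 : V)
  have h1 : Function.Bijective (fun g : G => (⟨g • v, fun h => hv ((smul_eq_zero_iff_eq g).mp h)⟩ :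
      {w : V // w ≠ 0})) := by
    constructor
    · intro g k hgk
      have h2 : g • v = k • v := congrArg Subtype.val hgk
      have h3 : (k⁻¹ * g) • v = v := by rw [mul_smul, h2, inv_smul_smul]
      have h4 := hr v hv _ h3
      rw [inv_mul_eq_one] at h4
      exact h4.symm
    · rintro ⟨w, hw⟩
      obtain ⟨g, hg⟩ := htr v w hv hw
      exact ⟨g, Subtype.ext hg⟩
  rw [Nat.card_congr (Equiv.ofBijective _ h1)]
  have h3 : ({w : V | w ≠ 0} : Set V) = Set.univ \ {0} := by
    ext w; simp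
  have h4 : Nat.card {w : V // w ≠ 0} = ({w : V | w ≠ 0} : Set V).ncard := rfl
  rw [h4, h3, Set.ncard_sdiff_singleton_of_mem (Set.mem_univ _), Set.ncard_univ]

theorem RegV.invol (hr : RegV G V) {g k : G} (hg : g * g = 1) (hg1 : g ≠ 1) (hk : k * k = 1)
    (hk1 : k ≠ 1) : g = k := by
  have h1 : ∀ g : G, g * g = 1 → g ≠ 1 → ∀ v : V, g • v = -v := by
    intro g hg hg1 v
    by_contra hne
    apply hg1
    have h2 : g • v + v ≠ 0 := fun h0 => hne (eq_neg_of_add_eq_zero_left h0)
    apply hr _ h2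
    rw [smul_add, ← mul_smul, hg, one_smul, add_comm]
  have h2 : k⁻¹ * g = 1 := by
    apply hr.faith
    intro v
    rw [mul_smul, h1 g hg hg1, inv_smul_eq_iff, h1 k hk hk1]
  rw [inv_mul_eq_one] at h2
  exact h2.symm

/-- the semilinear case: index two -/
theorem RegV.index_two_semilinear (hr : RegV G V) (htr : TransV G V) (h : FD A F V)
    (h1 : Module.finrank F V = 1) (hA : MaxAb A) {q : ℕ} [hq : Fact q.Prime] (hFc : CharP F q)
    (hq2 : q ≠ 2) : ∃ H : Subgroup G, H.index = 2 := by
  have hAn := hA.normal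
  have hf := hr.faith
  have hfin : Finite (F ≃+* F) := Finite.of_injective (fun σ : F ≃+* F => (σ : F → F))
    DFunLike.coe_injective
  -- kernel of the field action is `A`
  have : Module.Finite F V := Module.Finite.of_finite
  have hker : h.sg.ker = A := by
    apply le_antisymm
    · apply hA.max _ inferInstance
      · intro a ha b hb
        let e0 : V ≃ₗ[F] F := (LinearEquiv.ofFinrankEq V F (by rw [h1, Module.finrank_self]))
        have hlin : ∀ g ∈ h.sg.ker, ∃ c : F, ∀ v : V, g • v = c • v := by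
          intro g hg
          refine ⟨e0 (g • e0.symm 1), fun v => ?_⟩
          have h2 : v = e0 v • e0.symm 1 := by
            apply e0.injective
            rw [map_smul, LinearEquiv.apply_symm_apply, smul_eq_mul, mul_one]
          apply e0.injective
          calc e0 (g • v) = e0 (g • (e0 v • e0.symm 1)) := by rw [← h2]
            _ = e0 (e0 v • (g • e0.symm 1)) := by
              rw [h.linear ((h.mem_ker hf g).mp hg)]
            _ = e0 v • e0 (g • e0.symm 1) := e0.map_smul _ _
            _ = e0 (g • e0.symm 1) • e0 v := by rw [smul_eq_mul, smul_eq_mul, mul_comm]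
            _ = _ := (e0.map_smul _ _).symm
        obtain ⟨c, hc⟩ := hlin a ha
        obtain ⟨d, hd⟩ := hlin b hb
        have h2 : (b * a)⁻¹ * (a * b) = 1 := by
          apply hf
          intro v
          rw [mul_smul, inv_smul_eq_iff, mul_smul, mul_smul, hd, hc, hc, hd, smul_comm]
        rw [inv_mul_eq_one] at h2
        exact h2.symm
      · intro a ha
        rw [h.mem_ker hf]
        exact fun b hb => hA.comm b hb a ha
    · intro a ha
      rw [h.mem_ker hf]
      exact fun b hb => hA.comm b hb a ha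
  have hcyc : IsCyclic A := h.isCyclic hf
  have heven : Even (Nat.card G) := by
    rw [hr.card htr, card_V_eq (F := F), h1, pow_one]
    have h2 : Odd (Nat.card F) := by
      have := Fintype.ofFinite F
      rw [Nat.card_eq_fintype_card]
      obtain ⟨k, -, hk⟩ := FiniteField.card F q
      rw [hk]
      exact (hq.out.odd_of_ne_two hq2).pow
    obtain ⟨k, hk⟩ := h2
    exact ⟨k, by omega⟩
  have hp2 := Fact.mk Nat.prime_two
  by_cases hidx : Even (Nat.card (G ⧸ A))
  · -- the quotient is cyclic of even order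
    let alg : Algebra (ZMod q) F := ZMod.algebra F q
    have hcycG : IsCyclic (F ≃ₐ[ZMod q] F) := inferInstance
    let ι : (F ≃+* F) →* (F ≃ₐ[ZMod q] F) :=
      { toFun := fun σ => AlgEquiv.ofRingEquiv (f := σ) (fun r =>
          RingHom.congr_fun (RingHom.ext_zmod (σ.toRingHom.comp (algebraMap (ZMod q) F))
            (algebraMap (ZMod q) F)) r)
        map_one' := rfl
        map_mul' := fun σ τ => rfl }
    have hι : Function.Injective ι := by
      intro σ τ hst
      apply RingEquiv.ext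
      intro x
      exact AlgEquiv.congr_fun hst x
    have hcyc2 : IsCyclic (F ≃+* F) := isCyclic_of_injective ι hι
    have hcyc3 : IsCyclic (G ⧸ A) := by
      have e : G ⧸ A ≃* h.sg.range :=
        (QuotientGroup.quotientMulEquivOfEq hker.symm).trans (QuotientGroup.quotientKerEquivRange h.sg)
      exact isCyclic_of_injective e.toMonoidHom e.injective
    obtain ⟨T⟩ : Nonempty (Sylow 2 (G ⧸ A)) := inferInstance
    obtain ⟨H, hH⟩ := H80.exists_index_two_of_cyclic_sylow hidx T inferInstance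
    exact ⟨H.comap (QuotientGroup.mk' A), by
      rw [Subgroup.index_comap_of_surjective H (QuotientGroup.mk'_surjective A), hH]⟩
  · obtain ⟨T⟩ : Nonempty (Sylow 2 G) := inferInstance
    have hTA : (T : Subgroup G) ≤ A := by
      intro t ht
      have h2 : ((T : Subgroup G).map (QuotientGroup.mk' A)) = ⊥ := by
        have h3 : IsPGroup 2 ((T : Subgroup G).map (QuotientGroup.mk' A)) := T.isPGroup'.map _
        rw [← Subgroup.card_eq_one]
        obtain ⟨k, hk⟩ := IsPGroup.iff_card.mp h3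
        rw [hk]
        rcases Nat.eq_zero_or_pos k with h0 | h0
        · rw [h0, pow_zero]
        · exfalso
          apply hidx
          have h4 := Subgroup.card_subgroup_dvd_card ((T : Subgroup G).map (QuotientGroup.mk' A))
          rw [hk] at h4
          exact even_iff_two_dvd.mpr ((dvd_pow_self 2 h0.ne').trans h4)
      have h3 : QuotientGroup.mk' A t ∈ (T : Subgroup G).map (QuotientGroup.mk' A) :=
        Subgroup.mem_map_of_mem _ ht
      rw [h2, Subgroup.mem_bot] at h3
      exact (QuotientGroup.eq_one_iff t).mp h3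
    have hcT : IsCyclic (T : Subgroup G) :=
      isCyclic_of_injective (Subgroup.inclusion hTA) (Subgroup.inclusion_injective hTA)
    exact H80.exists_index_two_of_cyclic_sylow heven T hcT

/-- In a transitive group, a class-two section as in `BD` is proper. -/
theorem BD.ne_top (hB : BD A B r) (hA : MaxAb A) (hBA : ¬ B ≤ A) : B ≠ ⊤ := by
  rintro rfl
  apply hBA
  intro b hb
  have hmem : ∀ x : G, x ∈ (⊤ : Subgroup G) := fun x => trivial
  have hcen : ∀ a ∈ A, ∀ x : G, a * x = x * a := fun a ha x => hB.cen a ha x (hmem x)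
  let M : Subgroup G :=
    { carrier := {x | ∃ a ∈ A, ∃ k : ℤ, x = a * b ^ k}
      mul_mem' := by
        rintro _ _ ⟨a, ha, k, rfl⟩ ⟨c, hc, l, rfl⟩
        refine ⟨a * c, A.mul_mem ha hc, k + l, ?_⟩
        rw [zpow_add]
        calc a * b ^ k * (c * b ^ l) = a * (b ^ k * c) * b ^ l := by group
          _ = a * (c * b ^ k) * b ^ l := by rw [hcen c hc]
          _ = _ := by group
      one_mem' := ⟨1, A.one_mem, 0, by simp⟩
      inv_mem' := by
        rintro _ ⟨a, ha, k, rfl⟩
        refine ⟨a⁻¹, A.inv_mem ha, -k, ?_⟩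
        rw [mul_inv_rev, ← hcen _ (A.inv_mem ha), zpow_neg] }
  have hMn : M.Normal := by
    constructor
    rintro _ ⟨a, ha, k, rfl⟩ g
    have h1 : ⁅g, b ^ k⁆ ∈ A := hB.cm g (hmem g) _ (hmem _)
    refine ⟨a * ⁅g, b ^ k⁆, A.mul_mem ha h1, k, ?_⟩
    calc g * (a * b ^ k) * g⁻¹ = (g * a) * b ^ k * g⁻¹ := by group
      _ = (a * g) * b ^ k * g⁻¹ := by rw [hcen a ha]
      _ = _ := by simp only [commutatorElement_def]; group
  have hMc : ∀ x ∈ M, ∀ y ∈ M, x * y = y * x := by
    rintro _ ⟨a, ha, k, rfl⟩ _ ⟨c, hc, l, rfl⟩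
    have h1 : Commute a (c * b ^ l) := hcen a ha _
    have h2 : Commute (b ^ k) (c * b ^ l) :=
      (show Commute (b ^ k) c from (hcen c hc _).symm).mul_right
        ((Commute.refl b).zpow_zpow k l)
    exact h1.mul_left h2
  have hAM : A ≤ M := fun a ha => ⟨a, ha, 0, by simp⟩
  exact hA.max M hMn hMc hAM ⟨1, A.one_mem, 1, by simp⟩

theorem four_cases {K : Type*} [Group K] (hK : Nat.card K = 4) (hexp : ∀ x : K, x * x = 1)
    {a b : K} (ha : a ≠ 1) (hb : b ≠ 1) (hab : a ≠ b) (y : K) :
    y = 1 ∨ y = a ∨ y = b ∨ y = a * b := by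
  classical
  have hfin : Finite K := Nat.finite_of_card_ne_zero (by rw [hK]; norm_num)
  have := Fintype.ofFinite K
  have h1 : ({1, a, b, a * b} : Finset K).card = 4 := by
    rw [Finset.card_insert_of_notMem, Finset.card_insert_of_notMem, Finset.card_pair]
    · intro h
      exact ha (mul_eq_right.mp h.symm)
    · simp only [Finset.mem_insert, Finset.mem_singleton, not_or]
      exact ⟨hab, fun h => hb (mul_eq_left.mp h.symm)⟩
    · simp only [Finset.mem_insert, Finset.mem_singleton, not_or]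
      refine ⟨ha.symm, hb.symm, fun h => hab ?_⟩
      have h2 : a * b = a * a := by rw [← h, hexp]
      exact (mul_left_cancel h2).symm
  have h2 : ({1, a, b, a * b} : Finset K) = Finset.univ := by
    apply Finset.eq_univ_of_card
    rw [h1, ← Nat.card_eq_fintype_card, hK]
  have h3 : y ∈ ({1, a, b, a * b} : Finset K) := by rw [h2]; exact Finset.mem_univ y
  simpa using h3

theorem four_aut {K : Type*} [Group K] (hK : Nat.card K = 4) (hexp : ∀ x : K, x * x = 1)
    (σ : MulAut K) (h3 : ∀ x, σ (σ (σ x)) = x) (h1 : ∃ x, σ x ≠ x) {a : K} (ha : a ≠ 1) :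
    σ a ≠ a ∧ σ (σ a) = a * σ a := by
  have hne : ∀ a : K, a ≠ 1 → σ a ≠ a := by
    intro a ha haa
    obtain ⟨b, hb⟩ := h1
    have hb1 : b ≠ 1 := by rintro rfl; exact hb (map_one σ)
    have hab : a ≠ b := by rintro rfl; exact hb haa
    rcases four_cases hK hexp ha hb1 hab (σ b) with h | h | h | h
    · exact hb1 ((map_eq_one_iff σ σ.injective).mp h)
    · exact hab (σ.injective (haa.trans h.symm))
    · exact hb h
    · have h2 : σ (σ b) = b := by rw [h, map_mul, haa, h, ← mul_assoc, hexp, one_mul]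
      have h4 := h3 b
      rw [h2] at h4
      exact hb h4
  refine ⟨hne a ha, ?_⟩
  have hsa : σ a ≠ 1 := fun h => ha ((map_eq_one_iff σ σ.injective).mp h)
  have hssa : σ (σ a) ≠ 1 := fun h => hsa ((map_eq_one_iff σ σ.injective).mp h)
  rcases four_cases hK hexp ha hsa (hne a ha).symm (σ (σ a)) with h | h | h | h
  · exact absurd h hssa
  · have h4 := h3 a
    rw [h] at h4
    exact absurd h4 (hne a ha)
  · exact absurd (σ.injective h) (hne a ha)
  · exact h

theorem exc (hr : RegV G V) (h : FD A F V) (hB : BD A B 2)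
    (hA : MaxAb A) (hBn : B.Normal) (hcard : Nat.card B = 4 * Nat.card A)
    (hs : Module.finrank F V = 2) (haut : Nat.card (F ≃+* F) ≤ 1) (hidx : B.index = 3)
    (hA10 : Nat.card A ∣ 10) (hA2 : 2 ∣ Nat.card A) :
    ∃ N : Subgroup G, Nonempty (N ≃* Quat.SL23) := by
  have hAn := hA.normal
  have hf := hr.faith
  have hr2 : Fact (Nat.Prime 2) := ⟨Nat.prime_two⟩
  have hr3 : Fact (Nat.Prime 3) := ⟨Nat.prime_three⟩
  have hlin : ∀ g : G, ∀ a ∈ A, a * g = g * a := by
    intro g
    apply (h.mem_ker hf g).mp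
    rw [MonoidHom.mem_ker]
    have hfin : Finite (F ≃+* F) := Finite.of_injective (fun σ : F ≃+* F => (σ : F → F))
      DFunLike.coe_injective
    have : Subsingleton (F ≃+* F) := (Finite.card_le_one_iff_subsingleton).mp haut
    exact Subsingleton.elim _ _
  have hch := chain_le h hf hB hA hBn (by rw [hs, hcard]; norm_num)
  let π := QuotientGroup.mk' A
  have hπ : Function.Surjective π := QuotientGroup.mk'_surjective A
  have hker : π.ker = A := QuotientGroup.ker_mk' A
  have hπ1 : ∀ g : G, π g = 1 ↔ g ∈ A := fun g => by rw [← MonoidHom.mem_ker, hker]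
  have hBb : (B.map π).Normal := hBn.map π hπ
  have hK : Nat.card (B.map π) = 4 := by
    have h4 : Nat.card (B.map π) = A.relIndex B := by
      have := Subgroup.relIndex_ker B π
      rw [hker] at this
      exact this.symm
    have h1 := (A.subgroupOf B).card_mul_index
    have h2 : Nat.card (A.subgroupOf B) = Nat.card A :=
      Nat.card_congr (Subgroup.subgroupOfEquivOfLe hB.le).toEquiv
    rw [h4]
    rw [h2, hcard, mul_comm] at h1
    exact Nat.eq_of_mul_eq_mul_right Nat.card_pos h1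
  have hexp : ∀ y : B.map π, y * y = 1 := by
    rintro ⟨_, b, hb, rfl⟩
    apply Subtype.ext
    change π b * π b = 1
    rw [← map_mul, hπ1, ← sq]
    exact hB.pw b hb
  -- an element of order three
  obtain ⟨x, hx⟩ := exists_prime_orderOf_dvd_card' (G := G) 3 (by
    rw [← B.card_mul_index, hidx]; exact dvd_mul_left _ _)
  have hx3 : x ^ 3 = 1 := by rw [← hx, pow_orderOf_eq_one]
  have hx1 : x ≠ 1 := by
    rintro rfl
    rw [orderOf_one] at hx
    norm_num at hx
  have hxB : x ∉ B := by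
    intro h0
    have h1 := orderOf_dvd_natCard (⟨x, h0⟩ : B)
    rw [Subgroup.orderOf_mk, hx, hcard] at h1
    have h2 : 3 ∣ 40 := h1.trans (by
      obtain ⟨c, hc⟩ := hA10
      exact ⟨c, by rw [mul_assoc, ← hc]; norm_num⟩)
    norm_num at h2
  set σ : MulAut (B.map π) := MulAut.conjNormal (π x) with hσ
  have hσa : ∀ (b : G) (hb : b ∈ B), ((σ ⟨π b, Subgroup.mem_map_of_mem π hb⟩ : B.map π) : G ⧸ A) =
      π (x * b * x⁻¹) := by
    intro b hb
    rw [hσ, MulAut.conjNormal_apply, map_mul, map_mul, map_inv]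
  have hσ3 : ∀ y, σ (σ (σ y)) = y := by
    intro y
    have h1 : σ ^ 3 = 1 := by
      rw [hσ, ← map_pow, ← map_pow, hx3, map_one, map_one]
    have h2 : (σ ^ 3) y = y := by rw [h1]; rfl
    exact h2
  have hσ1 : ∃ y, σ y ≠ y := by
    by_contra hcon
    push Not at hcon
    apply hxB
    apply hch x (hlin x)
    intro b hb
    have h1 := congrArg Subtype.val (hcon ⟨π b, Subgroup.mem_map_of_mem π hb⟩)
    rw [hσa b hb] at h1
    rw [← hπ1, commutatorElement_def, map_mul, h1, ← map_mul, mul_inv_cancel, map_one]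
  -- choose b
  obtain ⟨b, hb, hbA⟩ : ∃ b ∈ B, b ∉ A := by
    by_contra hcon
    push Not at hcon
    have h1 : Nat.card B ≤ Nat.card A := Subgroup.card_le_of_le hcon
    have h2 : 0 < Nat.card A := Nat.card_pos
    omega
  set s := b ^ 5 with hs'
  have hsB : s ∈ B := B.pow_mem hb 5
  have hsA : s ∉ A := by
    intro h0
    apply hbA
    have h1 : b = s * (b ^ 2)⁻¹ * (b ^ 2)⁻¹ := by rw [hs']; group
    rw [h1]
    exact A.mul_mem (A.mul_mem h0 (A.inv_mem (hB.pw b hb))) (A.inv_mem (hB.pw b hb))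
  have hs4 : s ^ (2 * 2) = 1 := by
    have h1 : (b ^ 2) ^ 10 = 1 := by
      have h2 : (⟨b ^ 2, hB.pw b hb⟩ : A) ^ Nat.card A = 1 := pow_card_eq_one'
      have h3 : (b ^ 2) ^ Nat.card A = 1 := congrArg Subtype.val h2
      obtain ⟨c, hc⟩ := hA10
      rw [hc, pow_mul, h3, one_pow]
    rw [hs', ← pow_mul]
    rw [← pow_mul] at h1
    exact h1
  obtain ⟨⟨z, hzA⟩, hz⟩ := exists_prime_orderOf_dvd_card' (G := A) 2 hA2
  rw [Subgroup.orderOf_mk] at hz
  have hzz : z * z = 1 := by rw [← sq, ← hz, pow_orderOf_eq_one]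
  have hz1 : z ≠ 1 := by
    rintro rfl
    rw [orderOf_one] at hz
    norm_num at hz
  have hs2 : s ^ 2 ≠ 1 := by
    intro h0
    apply hsA
    have hs1 : s ≠ 1 := fun h => hsA (h ▸ A.one_mem)
    rw [hr.invol (by rw [← sq]; exact h0) hs1 hzz hz1]
    exact hzA
  have hs2A : s ^ 2 ∈ A := hB.pw s hsB
  have hs22 : s ^ 2 * s ^ 2 = 1 := by rw [← pow_add]; exact hs4
  set t := x * s * x⁻¹ with ht
  have htB : t ∈ B := hBn.conj_mem s hsB x
  have htt : t * t = s ^ 2 := by
    calc t * t = x * s ^ 2 * x⁻¹ := by rw [ht, sq]; group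
      _ = s ^ 2 * x * x⁻¹ := by rw [hlin x _ hs2A]
      _ = s ^ 2 := by group
  have hps : (⟨π s, Subgroup.mem_map_of_mem π hsB⟩ : B.map π) ≠ 1 := by
    intro h0
    exact hsA ((hπ1 s).mp (congrArg Subtype.val h0))
  obtain ⟨hσs, hσσs⟩ := four_aut hK hexp σ hσ3 hσ1 hps
  have hσs' : σ ⟨π s, Subgroup.mem_map_of_mem π hsB⟩ = ⟨π t, Subgroup.mem_map_of_mem π htB⟩ :=
    Subtype.ext (hσa s hsB)
  rw [hσs'] at hσs hσσs
  have hptne : (⟨π t, Subgroup.mem_map_of_mem π htB⟩ : B.map π) ≠ 1 := by
    intro h0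
    rw [h0, map_one] at hσσs
    rw [mul_one] at hσσs
    exact hps hσσs.symm
  have hcase : ∀ y ∈ B, π y = 1 ∨ π y = π s ∨ π y = π t ∨ π y = π s * π t := by
    intro y hy
    rcases four_cases hK hexp hps hptne hσs.symm ⟨π y, Subgroup.mem_map_of_mem π hy⟩ with
      h0 | h0 | h0 | h0
    · exact Or.inl (congrArg Subtype.val h0)
    · exact Or.inr (Or.inl (congrArg Subtype.val h0))
    · exact Or.inr (Or.inr (Or.inl (congrArg Subtype.val h0)))
    · exact Or.inr (Or.inr (Or.inr (congrArg Subtype.val h0)))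
  have hfact : ∀ y g : G, π y = π g → ∃ a ∈ A, y = g * a := by
    intro y g hyg
    refine ⟨g⁻¹ * y, ?_, by group⟩
    rw [← hπ1, map_mul, map_inv, hyg, inv_mul_cancel]
  have hts : ⁅t, s⁆ ≠ 1 := by
    intro h0
    rw [commutatorElement_eq_one_iff_mul_comm] at h0
    apply hsA
    apply hB.nd s hsB
    intro y hy
    have hA' : ∀ a ∈ A, Commute s a := fun a ha => (hlin s a ha).symm
    have hst : Commute s t := h0.symm
    have h2 : ∀ g : G, Commute s g → π y = π g → s * y = y * s := by
      intro g hg hyg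
      obtain ⟨a, ha, rfl⟩ := hfact y g hyg
      exact hg.mul_right (hA' a ha)
    rcases hcase y hy with h1 | h1 | h1 | h1
    · exact h2 1 (Commute.one_right s) (by rw [h1, map_one])
    · exact h2 s (Commute.refl s) h1
    · exact h2 t hst h1
    · exact h2 (s * t) ((Commute.refl s).mul_right hst) (h1.trans (map_mul π s t).symm)
  have htsz : ⁅t, s⁆ = s ^ 2 := by
    have h1 : ⁅t, s⁆ ^ 2 = 1 := hB.comm_pow_eq_one htB hsB
    rw [sq] at h1
    exact hr.invol h1 hts hs22 hs2
  have hs3 : s ^ 2 * s = s⁻¹ := by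
    rw [eq_inv_iff_mul_eq_one, mul_assoc, ← sq]
    exact hs22
  have htst : t * s * t⁻¹ = s⁻¹ := by
    calc t * s * t⁻¹ = ⁅t, s⁆ * s := by simp only [commutatorElement_def]; group
      _ = s⁻¹ := by rw [htsz, hs3]
  -- the third element
  have hxt : π (x * t * x⁻¹) = π (s * t) := by
    have h1 := congrArg Subtype.val hσσs
    rw [hσa t htB] at h1
    exact h1.trans (map_mul π s t).symm
  obtain ⟨a, ha, hxta⟩ := hfact _ _ hxt
  have hstst : (s * t) * (s * t) = s ^ 2 := by
    calc (s * t) * (s * t) = s * (t * s * t⁻¹) * (t * t) := by group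
      _ = s ^ 2 := by rw [htst, htt]; group
  have ha2 : a * a = 1 := by
    have h1 : (x * t * x⁻¹) * (x * t * x⁻¹) = s ^ 2 := by
      calc (x * t * x⁻¹) * (x * t * x⁻¹) = x * (t * t) * x⁻¹ := by group
        _ = s ^ 2 * x * x⁻¹ := by rw [htt, hlin x _ hs2A]
        _ = s ^ 2 := by group
    rw [hxta] at h1
    have h2 : (s * t * a) * (s * t * a) = s ^ 2 * (a * a) := by
      calc (s * t * a) * (s * t * a) = (s * t) * (a * (s * t)) * a := by group
        _ = ((s * t) * (s * t)) * (a * a) := by rw [hlin (s * t) a ha]; group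
        _ = _ := by rw [hstst]
    rw [h2] at h1
    exact mul_eq_left.mp h1
  by_cases ha1 : a = 1
  · refine ⟨_, H62.sup_equiv_sl23 hs4 hs2 htt htst rfl ?_ hx3 hx1⟩
    rw [hxta, ha1, mul_one]
  · have haz : a = s ^ 2 := hr.invol ha2 ha1 hs22 hs2
    have hs4' : s⁻¹ ^ (2 * 2) = 1 := by rw [inv_pow, hs4, inv_one]
    have hs2' : s⁻¹ ^ 2 ≠ 1 := by
      rw [inv_pow, Ne, inv_eq_one]; exact hs2
    have htt' : t⁻¹ * t⁻¹ = s⁻¹ ^ 2 := by
      rw [← mul_inv_rev, htt, inv_pow]
    have htst' : t⁻¹ * s⁻¹ * t⁻¹⁻¹ = s⁻¹⁻¹ := by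
      rw [inv_inv, inv_inv, ← htst]; group
    have hxs' : x * s⁻¹ * x⁻¹ = t⁻¹ := by rw [ht]; group
    have hxt' : x * t⁻¹ * x⁻¹ = s⁻¹ * t⁻¹ := by
      have h1 : x * t⁻¹ * x⁻¹ = (x * t * x⁻¹)⁻¹ := by group
      rw [h1, hxta, haz]
      have h2 : t⁻¹ * s⁻¹ = s * t⁻¹ := by
        have : t⁻¹ * s⁻¹ * t = s := by
          have := htst'
          rwa [inv_inv, inv_inv] at this
        calc t⁻¹ * s⁻¹ = (t⁻¹ * s⁻¹ * t) * t⁻¹ := by group
          _ = s * t⁻¹ := by rw [this]
      calc (s * t * s ^ 2)⁻¹ = (s ^ 2)⁻¹ * (t⁻¹ * s⁻¹) := by group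
        _ = s⁻¹ * t⁻¹ := by rw [h2]; group
    exact ⟨_, H62.sup_equiv_sl23 hs4' hs2' htt' htst' hxs' hxt' hx3 hx1⟩

end Cfsg.Agent.H68.Hup
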