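import Mathlib.Tactic
import Mathlib.GroupTheory.Index
import Mathlib.GroupTheory.Sylow
import Mathlib.Algebra.Group.Conj
import Mathlib.Algebra.Group.ConjFinite
import Cfsg.Agent.H68.Basic
import Cfsg.Agent.H68.TI

set_option autoImplicit false

namespace Cfsg.Agent.H68

open Subgroup

/-- The set of conjugacy classes of `G` consisting of elements whose order only involves primes in `s`. -/
def piClassSet (s : Set ℕ) (G : Type*) [Group G] : Set (ConjClasses G) :=
  {C | ∀ q : ℕ, q.Prime → (∃ g : G, ConjClasses.mk g = C ∧ q ∣ orderOf g) → q ∈ s}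

theorem mk_mem_piClassSet {s : Set ℕ} {G : Type*} [Group G] {g : G} :
    ConjClasses.mk g ∈ piClassSet s G ↔ ∀ q : ℕ, q.Prime → q ∣ orderOf g → q ∈ s := by
  constructor
  · intro h q hq hqg
    exact h q hq ⟨g, rfl, hqg⟩
  · rintro h q hq ⟨g', hg', hqg⟩
    apply h q hq
    rw [ConjClasses.mk_eq_mk_iff_isConj, isConj_iff] at hg'
    obtain ⟨c, hc⟩ := hg'
    rw [← hc]
    have : orderOf (c * g' * c⁻¹) = orderOf g' :=
      orderOf_injective (MulAut.conj c).toMonoidHom (MulAut.conj c).injective g'
    rw [this]; exact hqg

theorem ncard_finset_biUnion_le {α β : Type*} (S : Finset α) (F : α → Set β) :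
    (⋃ D ∈ S, F D).ncard ≤ ∑ D ∈ S, (F D).ncard := by
  classical
  induction S using Finset.induction_on with
  | empty => simp
  | insert a S ha ih =>
    rw [Finset.set_biUnion_insert, Finset.sum_insert ha]
    exact (Set.ncard_union_le _ _).trans (Nat.add_le_add_left ih _)

/-- The number of classes of `q`-elements is at most the order of a Sylow `q`-subgroup. -/
theorem ncard_qClasses_le {G : Type*} [Group G] [Finite G] (q : ℕ) (hq : q.Prime) :
    (piClassSet {q} G).ncard ≤ q ^ (Nat.card G).factorization q := by
  have : Fact q.Prime := ⟨hq⟩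
  let P : Sylow q G := default
  rw [← P.card_eq_multiplicity]
  have h1 : piClassSet {q} G ⊆ (fun x : (P : Subgroup G) => ConjClasses.mk (x : G)) '' Set.univ := by
    intro C hC
    induction C using Quotient.inductionOn with
    | _ g =>
      have hC' : ConjClasses.mk g ∈ piClassSet {q} G := hC
      rw [mk_mem_piClassSet] at hC'
      have hg : IsPGroup q (zpowers g) := by
        rw [isPGroup_iff_primeFactors_card_subset hq.ne_zero, hq.primeFactors, Nat.card_zpowers]
        intro r hr
        rw [Finset.mem_singleton]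
        exact hC' r (Nat.prime_of_mem_primeFactors hr) (Nat.dvd_of_mem_primeFactors hr)
      obtain ⟨Q, hQ⟩ := hg.exists_le_sylow
      obtain ⟨c, hc⟩ := MulAction.exists_smul_eq G P Q
      have h2 : g ∈ ((c • P : Sylow q G) : Subgroup G) := by
        rw [hc]; exact hQ (mem_zpowers g)
      rw [Sylow.coe_subgroup_smul] at h2
      have h3 := mem_conj_smul_iff.1 h2
      refine ⟨⟨_, h3⟩, Set.mem_univ _, ?_⟩
      show ConjClasses.mk (c⁻¹ * g * c) = ConjClasses.mk g
      rw [ConjClasses.mk_eq_mk_iff_isConj, isConj_iff]
      exact ⟨c, by group⟩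
  calc (piClassSet {q} G).ncard ≤ ((fun x : (P : Subgroup G) => ConjClasses.mk (x : G)) '' Set.univ).ncard :=
        Set.ncard_le_ncard h1 (Set.toFinite _)
    _ ≤ (Set.univ : Set (P : Subgroup G)).ncard := Set.ncard_image_le (Set.toFinite _)
    _ = Nat.card (P : Subgroup G) := Set.ncard_univ _

/-- The number of classes of `s`-elements is at most the `s`-part of the group order. -/
theorem ncard_piClassSet_le (s : Finset ℕ) (hs : ∀ q ∈ s, q.Prime) :
    ∀ (G : Type*) [Group G] [Finite G],
      (piClassSet (s : Set ℕ) G).ncard ≤ ∏ q ∈ s, q ^ (Nat.card G).factorization q := by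
  classical
  induction s using Finset.induction_on with
  | empty =>
    intro G _ _
    rw [Finset.prod_empty]
    have : piClassSet ((∅ : Finset ℕ) : Set ℕ) G ⊆ {ConjClasses.mk 1} := by
      intro C hC
      induction C using Quotient.inductionOn with
      | _ g =>
        have hC' : ConjClasses.mk g ∈ piClassSet ((∅ : Finset ℕ) : Set ℕ) G := hC
        rw [mk_mem_piClassSet] at hC'
        have : g = 1 := by
          rw [← orderOf_eq_one_iff]
          by_contra h
          obtain ⟨q, hq, hqd⟩ := Nat.exists_prime_and_dvd h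
          simpa using hC' q hq hqd
        rw [this]
        rfl
    calc _ ≤ ({ConjClasses.mk 1} : Set (ConjClasses G)).ncard := Set.ncard_le_ncard this (Set.toFinite _)
      _ = 1 := Set.ncard_singleton _
  | insert q s hqs ih =>
    intro G _ _
    have hq : q.Prime := hs q (Finset.mem_insert_self _ _)
    have ih' := ih (fun r hr => hs r (Finset.mem_insert_of_mem hr))
    rw [Finset.prod_insert hqs]
    -- exponents splitting off the `q`-part
    obtain ⟨a, b, hqb, hN⟩ := Nat.exists_eq_pow_mul_and_not_dvd (Nat.card_pos (α := G)).ne' q hq.ne_one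
    have hcop : Nat.Coprime (q ^ a) b := Nat.Coprime.pow_left _ ((Nat.Prime.coprime_iff_not_dvd hq).2 hqb)
    obtain ⟨u, hu1, hu2⟩ := Nat.chineseRemainder hcop 1 0
    obtain ⟨v, hv1, hv2⟩ := Nat.chineseRemainder hcop 0 1
    have huv : ∀ g : G, g ^ u * g ^ v = g := by
      intro g
      rw [← pow_add]
      have h1 : u + v ≡ 1 [MOD q ^ a * b] := by
        rw [← Nat.modEq_and_modEq_iff_modEq_mul hcop]
        exact ⟨by simpa using hu1.add hv1, by simpa using hu2.add hv2⟩
      have h2 : u + v ≡ 1 [MOD orderOf g] := h1.of_dvd (hN ▸ orderOf_dvd_natCard g)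
      calc g ^ (u + v) = g ^ 1 := (pow_eq_pow_iff_modEq).2 h2
        _ = g := pow_one g
    have hbu : b ∣ u := (Nat.modEq_zero_iff_dvd).1 hu2
    have hqv : q ^ a ∣ v := (Nat.modEq_zero_iff_dvd).1 hv1
    have hqpart : ∀ g : G, ConjClasses.mk (g ^ u) ∈ piClassSet {q} G := by
      intro g
      rw [mk_mem_piClassSet]
      intro r hr hrd
      have h1 : orderOf (g ^ u) ∣ q ^ a := by
        rw [orderOf_dvd_iff_pow_eq_one, ← pow_mul, ← orderOf_dvd_iff_pow_eq_one]
        obtain ⟨c, hc⟩ := hbu
        rw [hc]
        have : b * c * q ^ a = (q ^ a * b) * c := by ring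
        rw [this, ← hN]
        exact (orderOf_dvd_natCard g).mul_right _
      exact (Nat.prime_dvd_prime_iff_eq hr hq).1 (hr.dvd_of_dvd_pow (hrd.trans h1))
    have hspart : ∀ g : G, (∀ r : ℕ, r.Prime → r ∣ orderOf g → r ∈ ((insert q s : Finset ℕ) : Set ℕ)) →
        ∀ r : ℕ, r.Prime → r ∣ orderOf (g ^ v) → r ∈ (s : Set ℕ) := by
      intro g hg r hr hrd
      have h1 := hg r hr (hrd.trans (orderOf_pow_dvd v))
      rw [Finset.coe_insert, Set.mem_insert_iff] at h1
      rcases h1 with rfl | h1
      · exfalso
        have h2 : orderOf (g ^ v) ∣ b := by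
          rw [orderOf_dvd_iff_pow_eq_one, ← pow_mul, ← orderOf_dvd_iff_pow_eq_one]
          obtain ⟨c, hc⟩ := hqv
          rw [hc]
          have : r ^ a * c * b = (r ^ a * b) * c := by ring
          rw [this, ← hN]
          exact (orderOf_dvd_natCard g).mul_right _
        exact hqb (hrd.trans h2)
      · exact h1
    -- cover by the classes attached to representatives of classes of `q`-elements
    have := Fintype.ofFinite (ConjClasses G)
    let F : ConjClasses G → Set (ConjClasses G) := fun D =>
      (fun E : ConjClasses (centralizer ({D.out} : Set G)) =>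
        ConjClasses.mk (D.out * (E.out : G))) '' (piClassSet (s : Set ℕ) (centralizer ({D.out} : Set G)))
    have hcover : piClassSet ((insert q s : Finset ℕ) : Set ℕ) G ⊆ ⋃ D ∈ (piClassSet {q} G).toFinset, F D := by
      intro C hC
      induction C using Quotient.inductionOn with
      | _ g =>
        have hC' : ConjClasses.mk g ∈ piClassSet ((insert q s : Finset ℕ) : Set ℕ) G := hC
        rw [mk_mem_piClassSet] at hC'
        show ConjClasses.mk g ∈ _
        rw [Set.mem_iUnion₂]
        refine ⟨ConjClasses.mk (g ^ u), by rw [Set.mem_toFinset]; exact hqpart g, ?_⟩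
        set D := ConjClasses.mk (g ^ u) with hD
        have h1 : ConjClasses.mk D.out = ConjClasses.mk (g ^ u) := by
          rw [hD]; exact Quotient.out_eq _
        rw [ConjClasses.mk_eq_mk_iff_isConj] at h1
        obtain ⟨c, hc⟩ := isConj_iff.1 h1.symm
        -- conjugate g by c
        set g' := c * g * c⁻¹ with hg'
        have hg'u : g' ^ u = D.out := by rw [hg', conj_pow, hc]
        have hmem : g' ^ v ∈ centralizer ({D.out} : Set G) := by
          rw [mem_centralizer_iff]
          intro y hy
          rw [Set.mem_singleton_iff] at hy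
          rw [hy, ← hg'u]
          exact (Commute.refl g').pow_pow u v
        let y : centralizer ({D.out} : Set G) := ⟨g' ^ v, hmem⟩
        refine ⟨ConjClasses.mk y, ?_, ?_⟩
        · rw [mk_mem_piClassSet]
          intro r hr hrd
          apply hspart g hC' r hr
          have : orderOf y = orderOf (g ^ v) := by
            rw [Subgroup.orderOf_mk, hg', conj_pow]
            exact orderOf_injective (MulAut.conj c).toMonoidHom (MulAut.conj c).injective (g ^ v)
          rwa [← this]
        · show ConjClasses.mk (D.out * ((ConjClasses.mk y).out : G)) = ConjClasses.mk g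
          have h2 : ConjClasses.mk (ConjClasses.mk y).out = ConjClasses.mk y := Quotient.out_eq _
          rw [ConjClasses.mk_eq_mk_iff_isConj] at h2
          obtain ⟨d, hd⟩ := isConj_iff.1 h2
          rw [ConjClasses.mk_eq_mk_iff_isConj, isConj_iff]
          have hd' : (d : G) * ((ConjClasses.mk y).out : G) * (d : G)⁻¹ = g' ^ v := by
            have := congrArg Subtype.val hd
            simpa using this
          have hdc : (d : G) * D.out * (d : G)⁻¹ = D.out := by
            have := mem_centralizer_iff.1 d.2 D.out rfl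
            rw [← this]; group
          refine ⟨c⁻¹ * d, ?_⟩
          calc c⁻¹ * d * (D.out * ((ConjClasses.mk y).out : G)) * (c⁻¹ * d)⁻¹
              = c⁻¹ * ((d * D.out * (d : G)⁻¹) * (d * ((ConjClasses.mk y).out : G) * (d : G)⁻¹)) * c := by group
            _ = c⁻¹ * (g' ^ u * g' ^ v) * c := by rw [hdc, hd', hg'u]
            _ = c⁻¹ * g' * c := by rw [huv]
            _ = g := by rw [hg']; group
    have hF : ∀ D, (F D).ncard ≤ ∏ r ∈ s, r ^ (Nat.card G).factorization r := by
      intro D
      calc (F D).ncard ≤ (piClassSet (s : Set ℕ) (centralizer ({D.out} : Set G))).ncard :=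
            Set.ncard_image_le (Set.toFinite _)
        _ ≤ ∏ r ∈ s, r ^ (Nat.card (centralizer ({D.out} : Set G))).factorization r := ih' _
        _ ≤ ∏ r ∈ s, r ^ (Nat.card G).factorization r := by
            apply Finset.prod_le_prod' 
            intro r hr
            apply Nat.pow_le_pow_right (hs r (Finset.mem_insert_of_mem hr)).pos
            exact (Nat.factorization_le_iff_dvd Nat.card_pos.ne' Nat.card_pos.ne').2
              (Subgroup.card_subgroup_dvd_card _) r
    calc (piClassSet ((insert q s : Finset ℕ) : Set ℕ) G).ncard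
        ≤ (⋃ D ∈ (piClassSet {q} G).toFinset, F D).ncard := Set.ncard_le_ncard hcover (Set.toFinite _)
      _ ≤ ∑ D ∈ (piClassSet {q} G).toFinset, (F D).ncard := ncard_finset_biUnion_le _ _
      _ ≤ ∑ D ∈ (piClassSet {q} G).toFinset, ∏ r ∈ s, r ^ (Nat.card G).factorization r :=
          Finset.sum_le_sum fun D _ => hF D
      _ = (piClassSet {q} G).ncard * ∏ r ∈ s, r ^ (Nat.card G).factorization r := by
          rw [Finset.sum_const, smul_eq_mul, Set.ncard_eq_toFinset_card']
      _ ≤ q ^ (Nat.card G).factorization q * ∏ r ∈ s, r ^ (Nat.card G).factorization r :=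
          Nat.mul_le_mul_right _ (ncard_qClasses_le q hq)

end Cfsg.Agent.H68
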