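import Mathlib

set_option autoImplicit false

namespace Cfsg.Agent.H68.PR

open Polynomial

section

variable {p : ℕ} [Fact p.Prime] {V : Type*} [AddCommGroup V] [Module (ZMod p) V]

theorem aeval_intertwine (T S : Module.End (ZMod p) V) (A : V →ₗ[ZMod p] V)
    (h : ∀ u, T (A u) = A (S u)) (f : (ZMod p)[X]) (u : V) : aeval T f (A u) = A (aeval S f u) := by
  have hpow : ∀ (n : ℕ) (u : V), (T ^ n) (A u) = A ((S ^ n) u) := by
    intro n
    induction n with
    | zero => intro u; simp
    | succ n ih =>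
      intro u
      rw [pow_succ, pow_succ, Module.End.mul_apply, Module.End.mul_apply, h, ih]
  induction f using Polynomial.induction_on' with
  | add f g hf hg => rw [map_add, map_add, LinearMap.add_apply, LinearMap.add_apply, hf, hg, map_add]
  | monomial n a =>
    rw [aeval_monomial, aeval_monomial, Module.End.mul_apply, Module.End.mul_apply, hpow,
      Module.algebraMap_end_apply, Module.algebraMap_end_apply, map_smul]

/-- the annihilator of `w` in the polynomial ring is prime -/
def PrV (T : Module.End (ZMod p) V) (w : V) : Prop :=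
  ∀ f g : (ZMod p)[X], aeval T (f * g) w = 0 → aeval T f w = 0 ∨ aeval T g w = 0

theorem prV_map (T : Module.End (ZMod p) V) {v : V} (hv : PrV T v) (A : V ≃ₗ[ZMod p] V) (i : ℕ)
    (h : ∀ u, T (A u) = A ((T ^ i) u)) : PrV T (A v) := by
  have h1 : ∀ f : (ZMod p)[X], aeval T f (A v) = A (aeval T (f.comp (X ^ i)) v) := by
    intro f
    have := aeval_intertwine T (T ^ i) A.toLinearMap h f v
    rw [aeval_comp, aeval_X_pow]
    exact this
  intro f g hfg
  rw [h1, mul_comp] at hfg
  have h2 := hv _ _ ((LinearEquiv.map_eq_zero_iff A).1 hfg)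
  rw [h1, h1]
  rcases h2 with h2 | h2
  · left; rw [h2, map_zero]
  · right; rw [h2, map_zero]

theorem primitive_root {q : ℕ} [hq : Fact q.Prime] (hpq : p ≠ q) [Finite V] [Nontrivial V]
    (T : Module.End (ZMod p) V) (hT : T ^ q = 1) (hT1 : T ≠ 1)
    (hA : ∀ v w : V, v ≠ 0 → w ≠ 0 → ∃ (A : V ≃ₗ[ZMod p] V) (i : ℕ), A v = w ∧ ∀ u, T (A u) = A ((T ^ i) u))
    (hB : ∀ i, 1 ≤ i → i < q → ∃ A : V ≃ₗ[ZMod p] V, ∀ u, (T ^ i) (A u) = A (T u)) :
    orderOf (p : ZMod q) = q - 1 := by
  classical
  have hp : p.Prime := Fact.out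
  have : Module.Finite (ZMod p) V := Module.Finite.of_finite
  have hint : IsIntegral (ZMod p) T := Algebra.IsIntegral.isIntegral T
  set m := minpoly (ZMod p) T with hm
  have hm0 : m ≠ 0 := minpoly.ne_zero hint
  have hmu : ¬ IsUnit m := minpoly.not_isUnit (ZMod p) T
  -- a vector with prime annihilator
  obtain ⟨g, hg, m', hm'⟩ := WfDvdMonoid.exists_irreducible_factor hmu hm0
  have hm'T : aeval T m' ≠ 0 := by
    intro h0
    obtain ⟨c, hc⟩ := minpoly.dvd (ZMod p) T h0
    rw [← hm] at hc
    have h1 : m * 1 = m * (g * c) := by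
      rw [mul_one]
      nth_rewrite 1 [hm']
      rw [hc]
      ring
    have h2 := mul_left_cancel₀ hm0 h1
    exact hg.not_isUnit (IsUnit.of_mul_eq_one c h2.symm)
  obtain ⟨u, hu⟩ : ∃ u, aeval T m' u ≠ 0 := by
    by_contra hcon
    push Not at hcon
    apply hm'T
    ext u
    rw [hcon u]; rfl
  set v0 := aeval T m' u with hv0
  have hgv : aeval T g v0 = 0 := by
    rw [hv0, ← Module.End.mul_apply, ← map_mul, ← hm', hm, minpoly.aeval]
    rfl
  have hpr0 : PrV T v0 := by
    intro f f' hff
    by_contra hcon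
    push Not at hcon
    obtain ⟨h1, h2⟩ := hcon
    have h3 : ¬ g ∣ f := by
      rintro ⟨c, rfl⟩
      apply h1
      rw [mul_comm, map_mul, Module.End.mul_apply, hgv, map_zero]
    obtain ⟨a, b, hab⟩ := (hg.coprime_iff_not_dvd (n := f)).2 h3
    apply h2
    have h4 : aeval T f' v0 = aeval T (a * g * f' + b * (f * f')) v0 := by
      congr 2
      calc f' = 1 * f' := (one_mul _).symm
        _ = (a * g + b * f) * f' := by rw [hab]
        _ = _ := by ring
    rw [h4, map_add, LinearMap.add_apply]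
    have h5 : aeval T (a * g * f') v0 = 0 := by
      have : a * g * f' = (a * f') * g := by ring
      rw [this, map_mul, Module.End.mul_apply, hgv, map_zero]
    rw [h5, map_mul, Module.End.mul_apply, hff, map_zero, add_zero]
  have hprall : ∀ w, PrV T w := by
    intro w
    by_cases hw : w = 0
    · intro f g _
      left; rw [hw, map_zero]
    · obtain ⟨A, i, hAv, hAT⟩ := hA v0 w hu hw
      rw [← hAv]
      exact prV_map T hpr0 A i hAT
  -- the minimal polynomial is prime
  have hmprime : Prime m := by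
    refine ⟨hm0, hmu, ?_⟩
    intro f f' hff
    have h1 : aeval T (f * f') = 0 := by
      obtain ⟨c, hc⟩ := hff
      rw [hc, map_mul, hm, minpoly.aeval, zero_mul]
    have h2 : aeval T f = 0 ∨ aeval T f' = 0 := by
      by_contra hcon
      push Not at hcon
      obtain ⟨h3, h4⟩ := hcon
      obtain ⟨a, ha⟩ : ∃ a, aeval T f a ≠ 0 := by
        by_contra hcon
        push Not at hcon
        apply h3
        ext u
        rw [hcon u]; rfl
      obtain ⟨b, hb⟩ : ∃ a, aeval T f' a ≠ 0 := by
        by_contra hcon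
        push Not at hcon
        apply h4
        ext u
        rw [hcon u]; rfl
      have hall : ∀ w, aeval T f w = 0 ∨ aeval T f' w = 0 := by
        intro w
        apply hprall w
        rw [h1]; rfl
      have ha' := (hall a).resolve_left ha
      have hb' := (hall b).resolve_right hb
      rcases hall (a + b) with h5 | h5
      · rw [map_add, hb', add_zero] at h5
        exact ha h5
      · rw [map_add, ha', zero_add] at h5
        exact hb h5
    rcases h2 with h2 | h2
    · left; exact minpoly.dvd _ _ h2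
    · right; exact minpoly.dvd _ _ h2
  have hmirr : Irreducible m := hmprime.irreducible
  -- roots
  have hmi : ∀ i, 1 ≤ i → i < q → m ∣ m.comp (X ^ i) := by
    intro i hi1 hi2
    apply minpoly.dvd
    obtain ⟨A, hAi⟩ := hB i hi1 hi2
    rw [aeval_comp, aeval_X_pow]
    ext w
    obtain ⟨u, rfl⟩ := A.surjective w
    have h1 := aeval_intertwine (T ^ i) T A.toLinearMap hAi m u
    have h2 : aeval T m = 0 := minpoly.aeval _ _
    rw [h2] at h1
    simpa using h1
  have hmX : m ∣ X ^ q - 1 := by
    apply minpoly.dvd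
    rw [map_sub, map_pow, aeval_X, map_one, hT, sub_self]
  have hmX1 : ¬ m ∣ X - 1 := by
    rintro ⟨c, hc⟩
    apply hT1
    have h1 : aeval T (X - 1 : (ZMod p)[X]) = 0 := by
      rw [hc, map_mul, hm, minpoly.aeval, zero_mul]
    rw [map_sub, aeval_X, map_one, sub_eq_zero] at h1
    exact h1
  have hmcyc : m ∣ cyclotomic q (ZMod p) := by
    rw [← cyclotomic_prime_mul_X_sub_one] at hmX
    exact (hmprime.dvd_or_dvd hmX).resolve_right hmX1
  have hFact : Fact (Irreducible m) := ⟨hmirr⟩
  let ζ := AdjoinRoot.root m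
  have hζm : aeval ζ m = 0 := by
    rw [AdjoinRoot.aeval_eq, AdjoinRoot.mk_self]
  have hζq : ζ ^ q = 1 := by
    have h1 : AdjoinRoot.mk m (X ^ q - 1) = 0 := AdjoinRoot.mk_eq_zero.2 hmX
    rw [map_sub, map_pow, AdjoinRoot.mk_X, map_one, sub_eq_zero] at h1
    exact h1
  have hζ1 : ζ ≠ 1 := by
    intro h0
    apply hmX1
    rw [← AdjoinRoot.mk_eq_zero, map_sub, AdjoinRoot.mk_X, map_one, sub_eq_zero]
    exact h0
  have hord : orderOf ζ = q := orderOf_eq_prime hζq hζ1
  have hroot : ∀ i, 1 ≤ i → i < q → (m.map (algebraMap (ZMod p) (AdjoinRoot m))).IsRoot (ζ ^ i) := by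
    intro i hi1 hi2
    rw [IsRoot.def, eval_map_algebraMap]
    obtain ⟨c, hc⟩ := hmi i hi1 hi2
    have h1 : aeval ζ (m.comp (X ^ i)) = 0 := by rw [hc, map_mul, hζm, zero_mul]
    rwa [aeval_comp, aeval_X_pow] at h1
  have hdeg : q - 1 ≤ m.natDegree := by
    have h1 : ((Finset.Ico 1 q).image (fun i => ζ ^ i)).card = q - 1 := by
      rw [Finset.card_image_of_injOn, Nat.card_Ico]
      intro i hi j hj hij
      rw [Finset.coe_Ico, Set.mem_Ico] at hi hj
      exact pow_injOn_Iio_orderOf (by rw [hord]; exact hi.2) (by rw [hord]; exact hj.2) hij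
    rw [← h1, ← natDegree_map (algebraMap (ZMod p) (AdjoinRoot m))]
    have hne : m.map (algebraMap (ZMod p) (AdjoinRoot m)) ≠ 0 := by
      rw [Ne, Polynomial.map_eq_zero]; exact hm0
    refine le_trans (Finset.card_le_card ?_) ((Multiset.toFinset_card_le _).trans (card_roots' _))
    intro z hz
    obtain ⟨i, hi, rfl⟩ := Finset.mem_image.1 hz
    rw [Finset.mem_Ico] at hi
    rw [Multiset.mem_toFinset, mem_roots hne]
    exact hroot i hi.1 hi.2
  have hcop : p.Coprime q := (Nat.coprime_primes hp hq.out).2 hpq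
  have hdeg2 := natDegree_of_dvd_cyclotomic_of_irreducible (K := ZMod p) (p := p) (f := 1) (n := q)
    (by simp) hcop hmcyc hmirr
  have hord2 : orderOf (ZMod.unitOfCoprime _ (hcop.pow_left 1)) = orderOf (p : ZMod q) := by
    rw [← orderOf_units]
    congr 1
    simp
  rw [hord2] at hdeg2
  have hpne : (p : ZMod q) ≠ 0 := by
    rw [Ne, ZMod.natCast_eq_zero_iff]
    intro h0
    exact hpq ((Nat.prime_dvd_prime_iff_eq hq.out hp).1 h0).symm
  have hdvd : orderOf (p : ZMod q) ∣ q - 1 := ZMod.orderOf_dvd_card_sub_one hpne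
  have hq1 : 0 < q - 1 := by have := hq.out.two_le; omega
  apply le_antisymm (Nat.le_of_dvd hq1 hdvd)
  rw [← hdeg2]; exact hdeg

end

end Cfsg.Agent.H68.PR
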