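import Cfsg.Agent.S0228

/-! Piece C of S4021: recognition of `A_4`. -/

set_option autoImplicit false

namespace Cfsg.Agent.H68.S4021C

open Subgroup

theorem comm_of_sq {G : Type*} [Group G] (S : Subgroup G) (hsq : ∀ x ∈ S, x ^ 2 = 1) :
    ∀ x ∈ S, ∀ y ∈ S, x * y = y * x := by
  intro x hx y hy
  have h1 := hsq x hx
  have h2 := hsq y hy
  have h3 := hsq (x * y) (S.mul_mem hx hy)
  rw [pow_two] at h1 h2 h3
  have hx' : x⁻¹ = x := inv_eq_of_mul_eq_one_left h1
  have hy' : y⁻¹ = y := inv_eq_of_mul_eq_one_left h2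
  have hxy : (x * y)⁻¹ = x * y := inv_eq_of_mul_eq_one_left h3
  rw [← hxy, mul_inv_rev, hx', hy']

theorem no_central {G : Type*} [Group G] [Finite G] (S : Subgroup G) (hc : Nat.card S = 4)
    (hfus : ∀ x ∈ S, ∀ y ∈ S, x ≠ 1 → y ≠ 1 → ∃ g : G, y = g * x * g⁻¹)
    (z : G) (hz : z ∈ S) (hz1 : z ≠ 1) : z ∉ Subgroup.center G := by
  intro hzc
  have hall : ∀ y ∈ S, y = 1 ∨ y = z := by
    intro y hy
    by_cases h : y = 1
    · exact Or.inl h
    · right
      obtain ⟨g, hg⟩ := hfus z hz y hy hz1 h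
      rw [hg, Subgroup.mem_center_iff.mp hzc g, mul_inv_cancel_right]
  have hle : Nat.card S ≤ 2 := by
    have : (S : Set G) ⊆ {1, z} := by
      intro y hy
      rcases hall y hy with h | h
      · simp [h]
      · simp [h]
    calc Nat.card S = (S : Set G).ncard := rfl
      _ ≤ ({1, z} : Set G).ncard := Set.ncard_le_ncard this (Set.toFinite _)
      _ ≤ 2 := by
        have := Set.ncard_insert_le (1 : G) {z}
        rw [Set.ncard_singleton] at this
        exact this
  omega

theorem C {G : Type*} [Group G] [Finite G] (S : Subgroup G) [S.Normal] (hc : Nat.card S = 4)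
    (hsq : ∀ x ∈ S, x ^ 2 = 1) (hC : Subgroup.centralizer (S : Set G) ≤ S) (hodd : Odd S.index)
    (hfus : ∀ x ∈ S, ∀ y ∈ S, x ≠ 1 → y ≠ 1 → ∃ g : G, y = g * x * g⁻¹) :
    Nonempty (G ≃* alternatingGroup (Fin 4)) := by
  have hcomm := comm_of_sq S hsq
  let f : G →* Equiv.Perm S := (MulAut.toPerm S).comp (MulAut.conjNormal : G →* MulAut S)
  have hker : f.ker = S := by
    ext g
    rw [MonoidHom.mem_ker]
    constructor
    · intro hg
      apply hC
      rw [Subgroup.mem_centralizer_iff]
      intro n hn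
      have h1 := congrArg (fun φ : Equiv.Perm S => ((φ ⟨n, hn⟩ : S) : G)) hg
      have h3 : ((MulAut.conjNormal g ⟨n, hn⟩ : S) : G) = g * n * g⁻¹ :=
        MulAut.conjNormal_apply g ⟨n, hn⟩
      have h2 : g * n * g⁻¹ = n := by
        rw [← h3]
        exact h1
      rw [mul_inv_eq_iff_eq_mul] at h2
      exact h2.symm
    · intro hg
      ext ⟨n, hn⟩
      have h3 : ((MulAut.conjNormal g ⟨n, hn⟩ : S) : G) = g * n * g⁻¹ :=
        MulAut.conjNormal_apply g ⟨n, hn⟩
      have h4 : g * n * g⁻¹ = n := by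
        rw [hcomm g hg n hn, mul_inv_cancel_right]
      rw [h4] at h3
      exact h3
  have hdvd : S.index ∣ 24 := by
    have h1 : S.index = Nat.card f.range := by
      rw [← Subgroup.index_ker f, hker]
    rw [h1]
    have h2 := Subgroup.card_subgroup_dvd_card f.range
    rwa [Nat.card_perm, hc] at h2
  have hne1 : S.index ≠ 1 := by
    intro h1
    have hST : S = ⊤ := Subgroup.index_eq_one.mp h1
    have hnt : Nontrivial S := by
      rw [← Finite.one_lt_card_iff_nontrivial]
      omega
    obtain ⟨x, hx⟩ := exists_ne (1 : S)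
    refine no_central S hc hfus x x.2 (fun h => hx (Subtype.ext h)) ?_
    rw [Subgroup.mem_center_iff]
    intro g
    exact hcomm g (hST ▸ Subgroup.mem_top g) x x.2
  have h3 : S.index = 3 := by
    have hle : S.index ≤ 24 := Nat.le_of_dvd (by norm_num) hdvd
    generalize S.index = m at *
    interval_cases m <;> first | rfl | (exfalso; revert hodd hdvd hne1; decide)
  have h12 : Nat.card G = 12 := by
    rw [← Subgroup.card_mul_index S, hc, h3]
  refine Cfsg.Agent.S0228.result h12 ?_
  intro z hz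
  have hz1 : z ≠ 1 := by
    rintro rfl
    simp at hz
  have hzS : z ∈ S := by
    have h4 := Subgroup.pow_index_mem S z
    rw [h3] at h4
    have h5 : z ^ 3 = z := by
      have : z ^ 2 = 1 := hz ▸ pow_orderOf_eq_one z
      rw [pow_succ, this, one_mul]
    rwa [h5] at h4
  exact no_central S hc hfus z hzS hz1

end Cfsg.Agent.H68.S4021C
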