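import Cfsg.Agent.S0813
import Cfsg.Agent.S0265
import Cfsg.Agent.BS.List

/-! Pieces D and E of S4021: groups `G` with a normal subgroup `L ≃ SL(2, 2^n)` with trivial centralizer. -/

set_option autoImplicit false

namespace Cfsg.Agent.H68.S4021D

open Subgroup

theorem charP_of_card {F : Type} [Field F] [Fintype F] {n : ℕ} (_hn : 1 ≤ n) (hF : Fintype.card F = 2 ^ n) :
    CharP F 2 := by
  obtain ⟨p, hp⟩ := CharP.exists F
  have hpp : p.Prime := by
    rcases CharP.char_is_prime_or_zero F p with h | h
    · exact h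
    · exfalso
      subst h
      have : CharZero F := CharP.charP_to_charZero F
      exact not_finite F
  have := Fact.mk hpp
  have hd : p ∣ Fintype.card F := by
    obtain ⟨k, hk⟩ := FiniteField.card F p
    rw [hk.2]
    exact dvd_pow_self p (PNat.ne_zero k)
  rw [hF] at hd
  have h2 : p = 2 := (Nat.prime_dvd_prime_iff_eq hpp Nat.prime_two).mp (hpp.dvd_of_dvd_pow hd)
  subst h2
  exact hp

theorem conj_injective {G : Type*} [Group G] (L : Subgroup G) [L.Normal]
    (hC : Subgroup.centralizer (L : Set G) = ⊥) : Function.Injective (MulAut.conjNormal : G →* MulAut L) := by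
  rw [injective_iff_map_eq_one]
  intro g hg
  have h : g ∈ Subgroup.centralizer (L : Set G) := by
    rw [Subgroup.mem_centralizer_iff]
    intro n hn
    have h1 := congrArg (fun φ : MulAut L => ((φ ⟨n, hn⟩ : L) : G)) hg
    have h3 : ((MulAut.conjNormal g ⟨n, hn⟩ : L) : G) = g * n * g⁻¹ :=
      MulAut.conjNormal_apply g ⟨n, hn⟩
    have h2 : g * n * g⁻¹ = n := by
      rw [← h3]
      exact h1
    rw [mul_inv_eq_iff_eq_mul] at h2
    exact h2.symm
  rw [hC, Subgroup.mem_bot] at h
  exact h

theorem card_aut {F : Type} [Field F] [Fintype F] (n : ℕ) (hn : 2 ≤ n)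
    (hF : Fintype.card F = 2 ^ n) :
    Nat.card (MulAut (Matrix.ProjectiveSpecialLinearGroup (Fin 2) F)) =
      n * Nat.card (Matrix.SpecialLinearGroup (Fin 2) F) := by
  have := Fact.mk Nat.prime_two
  have h4 : 4 ≤ 2 ^ n := by
    calc 4 = 2 ^ 2 := by norm_num
      _ ≤ 2 ^ n := Nat.pow_le_pow_right (by norm_num) hn
  rw [Cfsg.Agent.S0813.result (F := F) 2 n (by omega) hF 2 le_rfl (fun _ => h4),
    Cfsg.Agent.S0265.result]
  simp

theorem D {G : Type*} [Group G] [Finite G] (L : Subgroup G) [L.Normal]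
    (hC : Subgroup.centralizer (L : Set G) = ⊥) {F : Type} [Field F] [Fintype F] (n : ℕ) (hn : 2 ≤ n)
    (hF : Fintype.card F = 2 ^ n) (e : L ≃* Matrix.SpecialLinearGroup (Fin 2) F) :
    L.index ∣ n ∧ (L.index = n → Nonempty (G ≃* MulAut (Matrix.ProjectiveSpecialLinearGroup (Fin 2) F))) := by
  have := charP_of_card (by omega) hF
  obtain ⟨f⟩ := Cfsg.Agent.BS.sl2_equiv_psl2 F
  let e3 : L ≃* Matrix.ProjectiveSpecialLinearGroup (Fin 2) F := e.trans f
  have hcard : Nat.card (MulAut L) = n * Nat.card L := by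
    rw [Nat.card_congr (MulAut.congr e3).toEquiv, card_aut n hn hF, Nat.card_congr e.toEquiv]
  have hinj := conj_injective L hC
  have hG : Nat.card G = Nat.card L * L.index := (Subgroup.card_mul_index L).symm
  have hLpos : 0 < Nat.card L := Nat.card_pos
  have hfin : Finite (MulAut L) := by
    apply Nat.finite_of_card_ne_zero
    rw [hcard]
    exact (Nat.mul_pos (by omega) hLpos).ne'
  refine ⟨?_, ?_⟩
  · have h1 : Nat.card G ∣ Nat.card (MulAut L) := Subgroup.card_dvd_of_injective _ hinj
    rw [hG, hcard, mul_comm n] at h1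
    exact Nat.dvd_of_mul_dvd_mul_left hLpos h1
  · intro hi
    have hb := (Nat.bijective_iff_injective_and_card (MulAut.conjNormal : G →* MulAut L)).mpr
      ⟨hinj, by rw [hG, hcard, hi, mul_comm]⟩
    exact ⟨(MulEquiv.ofBijective _ hb).trans (MulAut.congr e3)⟩

/-- the field automorphism of `SL(2, F)` -/
noncomputable def slMap {F : Type} [Field F] (σ : F ≃+* F) :
    MulAut (Matrix.SpecialLinearGroup (Fin 2) F) where
  toFun := Matrix.SpecialLinearGroup.map (σ : F →+* F)
  invFun := Matrix.SpecialLinearGroup.map (σ.symm : F →+* F)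
  left_inv x := by
    apply Subtype.ext
    ext i j
    exact σ.symm_apply_apply _
  right_inv x := by
    apply Subtype.ext
    ext i j
    exact σ.apply_symm_apply _
  map_mul' x y := map_mul _ x y

theorem slMap_apply {F : Type} [Field F] (σ : F ≃+* F) (x : Matrix.SpecialLinearGroup (Fin 2) F) (i j : Fin 2) :
    (slMap σ x).1 i j = σ (x.1 i j) := rfl

theorem E {G : Type*} [Group G] [Finite G] (L : Subgroup G) [L.Normal]
    (hC : Subgroup.centralizer (L : Set G) = ⊥) {F : Type} [Field F] [Fintype F]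
    (hF : Fintype.card F = 2 ^ 3) (e : L ≃* Matrix.SpecialLinearGroup (Fin 2) F) (hi : L.index = 3) :
    ∃ g : G, g ∉ L ∧ orderOf g = 3 := by
  classical
  have hch := charP_of_card (n := 3) (by omega) hF
  have := Fact.mk Nat.prime_two
  have h3p := Fact.mk Nat.prime_three
  obtain ⟨f⟩ := Cfsg.Agent.BS.sl2_equiv_psl2 F
  let e3 : L ≃* Matrix.ProjectiveSpecialLinearGroup (Fin 2) F := e.trans f
  have hcard : Nat.card (MulAut L) = 3 * Nat.card L := by
    rw [Nat.card_congr (MulAut.congr e3).toEquiv, card_aut 3 (by norm_num) hF, Nat.card_congr e.toEquiv]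
  have hinj := conj_injective L hC
  have hG : Nat.card G = Nat.card L * L.index := (Subgroup.card_mul_index L).symm
  have hb := (Nat.bijective_iff_injective_and_card (MulAut.conjNormal : G →* MulAut L)).mpr
    ⟨hinj, by rw [hG, hcard, hi, mul_comm]⟩
  -- the field automorphism
  let σ : F ≃+* F := frobeniusEquiv F 2
  have hσ : ∀ a : F, σ a = a ^ 2 := fun a => rfl
  have h8 : ∀ a : F, a ^ 8 = a := by
    intro a
    have := FiniteField.pow_card a
    rwa [hF] at this
  let φ : MulAut L := (MulAut.congr e).symm (slMap σ)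
  have hφ : ∀ x : L, e (φ x) = slMap σ (e x) := by
    intro x
    change e (e.symm (slMap σ (e x))) = _
    rw [MulEquiv.apply_symm_apply]
  obtain ⟨g, hg⟩ := hb.2 φ
  -- an element of the field outside the prime field
  obtain ⟨t, ht0, ht1⟩ : ∃ t : F, t ≠ 0 ∧ t ≠ 1 := by
    by_contra hcon
    push Not at hcon
    have hle : (Finset.univ : Finset F) ⊆ {0, 1} := by
      intro x _
      by_cases hx : x = 0
      · simp [hx]
      · simp [hcon x hx]
    have := Finset.card_le_card hle
    rw [Finset.card_univ, hF] at this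
    have h2 : ({0, 1} : Finset F).card ≤ 2 := Finset.card_le_two
    omega
  let x : Matrix.SpecialLinearGroup (Fin 2) F := ⟨!![t, 1; -1, 0], by simp [Matrix.det_fin_two]⟩
  refine ⟨g, ?_, ?_⟩
  · intro hgL
    -- then the field automorphism preserves traces
    have key : e ⟨g, hgL⟩ * x * (e ⟨g, hgL⟩)⁻¹ = slMap σ x := by
      have h1 := hφ (e.symm x)
      rw [MulEquiv.apply_symm_apply] at h1
      rw [← h1, ← hg]
      have h2 : (MulAut.conjNormal g (e.symm x) : L) = ⟨g, hgL⟩ * e.symm x * (⟨g, hgL⟩)⁻¹ := by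
        apply Subtype.ext
        rw [MulAut.conjNormal_apply]
        rfl
      rw [h2, map_mul, map_mul, map_inv, MulEquiv.apply_symm_apply]
    have htr : Matrix.trace (e ⟨g, hgL⟩ * x * (e ⟨g, hgL⟩)⁻¹).1 = Matrix.trace (slMap σ x).1 :=
      congrArg (fun y : Matrix.SpecialLinearGroup (Fin 2) F => Matrix.trace y.1) key
    have h3 : Matrix.trace (e ⟨g, hgL⟩ * x * (e ⟨g, hgL⟩)⁻¹).1 = Matrix.trace x.1 := by
      rw [Matrix.SpecialLinearGroup.coe_mul, Matrix.trace_mul_comm, ← Matrix.SpecialLinearGroup.coe_mul,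
        ← mul_assoc, inv_mul_cancel, one_mul]
    rw [h3] at htr
    have h4 : Matrix.trace x.1 = t := by simp [x, Matrix.trace_fin_two]
    have h5 : Matrix.trace (slMap σ x).1 = t ^ 2 := by
      rw [Matrix.trace_fin_two, slMap_apply, slMap_apply]
      simp [x, hσ]
    rw [h4, h5] at htr
    have h6 : t * (t - 1) = 0 := by linear_combination -htr
    rcases mul_eq_zero.mp h6 with h | h
    · exact ht0 h
    · exact ht1 (sub_eq_zero.mp h)
  · apply orderOf_eq_prime
    · apply hinj
      rw [map_pow, map_one, hg]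
      ext y
      apply congrArg
      apply e.injective
      change e (φ (φ (φ y))) = e y
      rw [hφ, hφ, hφ]
      apply Subtype.ext
      ext i j
      rw [slMap_apply, slMap_apply, slMap_apply, hσ, hσ, hσ]
      rw [← pow_mul, ← pow_mul]
      exact h8 _
    · intro h1
      rw [h1, map_one] at hg
      have h2 := hφ (e.symm x)
      rw [← hg] at h2
      change e (e.symm x) = _ at h2
      rw [MulEquiv.apply_symm_apply] at h2
      have h3 : x.1 0 0 = (slMap σ x).1 0 0 :=
        congrArg (fun y : Matrix.SpecialLinearGroup (Fin 2) F => y.1 0 0) h2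
      rw [slMap_apply, hσ] at h3
      have h4 : x.1 0 0 = t := by simp [x]
      rw [h4] at h3
      have h6 : t * (t - 1) = 0 := by linear_combination -h3
      rcases mul_eq_zero.mp h6 with h | h
      · exact ht0 h
      · exact ht1 (sub_eq_zero.mp h)

end Cfsg.Agent.H68.S4021D
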