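import Cfsg.Agent.Solv.Core
import Cfsg.Agent.BS.List
import Cfsg.Prelude.Def_Amalgam

/-! Pieces F and L of S4021. -/

set_option autoImplicit false

namespace Cfsg.Agent.H68.S4021F

open Cfsg Subgroup

/-- the odd order elements of a finite group with a central Sylow 2-subgroup of order two -/
theorem exists_odd {M : Type*} [Group M] [Finite M] (z : M) (hz : ∀ g : M, g * z = z * g) (hz2 : orderOf z = 2)
    (hodd : Odd (zpowers z).index) : ∃ K : Subgroup M, Nat.card K = (zpowers z).index ∧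
      ∀ x : M, x ∈ K ↔ Odd (orderOf x) := by
  have hn : (zpowers z).Normal := by
    constructor
    intro n hn g
    obtain ⟨k, rfl⟩ := mem_zpowers_iff.1 hn
    have : g * z ^ k = z ^ k * g := ((show Commute g z from hz g).zpow_right k).eq
    rw [this, mul_inv_cancel_right]
    exact zpow_mem (mem_zpowers z) k
  have hcop : Nat.Coprime (Nat.card (zpowers z)) (zpowers z).index := by
    rw [Nat.card_zpowers, hz2, Nat.coprime_two_left]
    exact hodd
  obtain ⟨K, hK⟩ := Subgroup.exists_left_complement'_of_coprime hcop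
  have hcardK : Nat.card K = (zpowers z).index := by
    exact hK.index_eq_card.symm
  refine ⟨K, hcardK, ?_⟩
  intro x
  constructor
  · intro hx
    have h1 : orderOf (⟨x, hx⟩ : K) ∣ Nat.card K := orderOf_dvd_natCard _
    rw [← Subgroup.orderOf_coe, hcardK] at h1
    exact Odd.of_dvd_nat hodd h1
  · intro hx
    obtain ⟨⟨k, w⟩, e⟩ := hK.2 x
    change (k : M) * (w : M) = x at e
    have hcw : Commute (k : M) (w : M) := by
      obtain ⟨j, hj⟩ := mem_zpowers_iff.1 w.2
      rw [← hj]
      exact (show Commute (k : M) z from hz k).zpow_right j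
    have hw2 : (w : M) ^ 2 = 1 := by
      obtain ⟨j, hj⟩ := mem_zpowers_iff.1 w.2
      rw [← hj, ← zpow_natCast, ← zpow_mul, mul_comm, zpow_mul, zpow_natCast, ← hz2, pow_orderOf_eq_one, one_zpow]
    have hkm : (k : M) ^ Nat.card K = 1 := by
      have : k ^ Nat.card K = 1 := pow_card_eq_one'
      rw [← Subgroup.coe_pow, this, Subgroup.coe_one]
    have hxm : x ^ Nat.card K = w := by
      rw [← e, hcw.mul_pow, hkm, one_mul]
      obtain ⟨j, hj⟩ := hcardK ▸ hodd
      rw [hj, pow_succ, pow_mul, hw2, one_pow, one_mul]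
    have hw1 : (w : M) = 1 := by
      have h1 : orderOf (w : M) ∣ 2 := orderOf_dvd_of_pow_eq_one hw2
      have h2 : orderOf (w : M) ∣ orderOf x := by
        rw [← hxm]; exact orderOf_pow_dvd _
      have h3 : Odd (orderOf (w : M)) := Odd.of_dvd_nat hx h2
      rcases (Nat.dvd_prime Nat.prime_two).1 h1 with h | h
      · exact orderOf_eq_one_iff.1 h
      · rw [h] at h3; exact absurd h3 (by decide)
    rw [← e, hw1, mul_one]
    exact k.2

theorem F {G : Type*} [Group G] [Finite G] (z : G) (hz : ∀ g : G, g * z = z * g) (hz2 : orderOf z = 2)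
    (Z : Subgroup G) [Z.Normal] (hZ : Z = Subgroup.zpowers z) (hO : Cfsg.pPrimeCore 2 G = ⊥) :
    Cfsg.pPrimeCore 2 (G ⧸ Z) = ⊥ := by
  set P := Cfsg.pPrimeCore 2 (G ⧸ Z) with hP
  have hPodd : Odd (Nat.card P) := Nat.coprime_two_right.mp (Cfsg.Agent.Solv.pPrimeCore_card_coprime 2)
  set M := P.comap (QuotientGroup.mk' Z) with hM
  have hZM : Z ≤ M := by
    intro x hx
    rw [hM, Subgroup.mem_comap]
    have : QuotientGroup.mk' Z x = 1 := (QuotientGroup.eq_one_iff x).2 hx
    rw [this]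
    exact P.one_mem
  have hzZ : z ∈ Z := hZ ▸ mem_zpowers z
  have hzM : z ∈ M := hZM hzZ
  have hMn : M.Normal := by
    rw [hM]; infer_instance
  -- order of M
  have hcardM : Nat.card M = 2 * Nat.card P := by
    have h1 : Nat.card (Z.subgroupOf M) * (Z.subgroupOf M).index = Nat.card M := card_mul_index _
    have h2 : Nat.card (Z.subgroupOf M) = 2 := by
      rw [Nat.card_congr (subgroupOfEquivOfLe hZM).toEquiv, hZ, Nat.card_zpowers, hz2]
    have h3 : (Z.subgroupOf M).index = Nat.card P := by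
      have h4 : Z.relIndex M = Nat.card P := by
        have h5 : Z = (⊥ : Subgroup (G ⧸ Z)).comap (QuotientGroup.mk' Z) := by
          rw [MonoidHom.comap_bot, QuotientGroup.ker_mk']
        have h6 : ((⊥ : Subgroup (G ⧸ Z)).comap (QuotientGroup.mk' Z)).relIndex
            (P.comap (QuotientGroup.mk' Z)) = (⊥ : Subgroup (G ⧸ Z)).relIndex P := by
          rw [relIndex_comap, Subgroup.map_comap_eq_self_of_surjective (QuotientGroup.mk'_surjective Z)]
        rw [← h5] at h6
        rw [hM, h6, relIndex_bot_left]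
      exact h4
    rw [← h1, h2, h3]
  have hidx : Odd (zpowers (⟨z, hzM⟩ : M)).index := by
    have h1 := card_mul_index (zpowers (⟨z, hzM⟩ : M))
    have h2 : orderOf (⟨z, hzM⟩ : M) = 2 := by
      rw [← Subgroup.orderOf_coe]; exact hz2
    rw [Nat.card_zpowers, h2, hcardM] at h1
    have h3 := Nat.eq_of_mul_eq_mul_left (by norm_num) h1
    rw [h3]; exact hPodd
  obtain ⟨K, hK, hKo⟩ := exists_odd (⟨z, hzM⟩ : M) (fun g => Subtype.ext (hz g)) (by
    rw [← Subgroup.orderOf_coe]; exact hz2) hidx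
  have hKn : (K.map M.subtype).Normal := by
    constructor
    rintro _ ⟨k, hk, rfl⟩ g
    have h1 : g * (k : G) * g⁻¹ ∈ M := hMn.conj_mem _ k.2 g
    refine ⟨⟨g * (k : G) * g⁻¹, h1⟩, ?_, rfl⟩
    change _ ∈ K
    rw [hKo, ← Subgroup.orderOf_coe]
    have h2 : orderOf (g * (k : G) * g⁻¹) = orderOf (k : G) := by
      have : g * (k : G) * g⁻¹ = MulAut.conj g (k : G) := rfl
      rw [this, MulEquiv.orderOf_eq]
    change Odd (orderOf (g * (k : G) * g⁻¹))
    rw [h2, Subgroup.orderOf_coe]
    exact (hKo k).1 hk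
  have hKc : Nat.card (K.map M.subtype) = Nat.card K :=
    Nat.card_congr (K.equivMapOfInjective _ M.subtype_injective).symm.toEquiv
  have hle : K.map M.subtype ≤ Cfsg.pPrimeCore 2 G := by
    apply Cfsg.Agent.Solv.le_pPrimeCore hKn
    rw [hKc, hK, Nat.coprime_two_right]
    exact hidx
  rw [hO, le_bot_iff] at hle
  rw [hle, Subgroup.card_bot, hK] at hKc
  -- index 1
  have h1 := card_mul_index (zpowers (⟨z, hzM⟩ : M))
  have h2 : orderOf (⟨z, hzM⟩ : M) = 2 := by
    rw [← Subgroup.orderOf_coe]; exact hz2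
  rw [Nat.card_zpowers, h2, hcardM, ← hKc] at h1
  rw [← Subgroup.card_eq_one]
  omega

theorem pElementClosure_normal {Q : Type*} [Group Q] (p : ℕ) : (Cfsg.pElementClosure p (⊤ : Subgroup Q)).Normal := by
  constructor
  intro n hn g
  have h1 : Cfsg.pElementClosure p (⊤ : Subgroup Q) ≤
      (Cfsg.pElementClosure p (⊤ : Subgroup Q)).comap (MulAut.conj g).toMonoidHom := by
    unfold Cfsg.pElementClosure
    rw [closure_le]
    rintro x ⟨-, k, hk⟩
    refine Subgroup.subset_closure ⟨Subgroup.mem_top _, k, ?_⟩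
    change orderOf (MulAut.conj g x) = p ^ k
    rw [MulEquiv.orderOf_eq, hk]
  exact h1 hn

theorem L {Q : Type*} [Group Q] [Finite Q] (hO : Cfsg.pPrimeCore 2 Q = ⊥) {F : Type} [Field F] [Fintype F] [CharP F 2]
    (e : ↥(Cfsg.pElementClosure 2 (⊤ : Subgroup Q)) ≃* Matrix.SpecialLinearGroup (Fin 2) F) :
    (Cfsg.pElementClosure 2 (⊤ : Subgroup Q)).Normal ∧ Odd (Cfsg.pElementClosure 2 (⊤ : Subgroup Q)).index ∧
    Subgroup.centralizer ((Cfsg.pElementClosure 2 (⊤ : Subgroup Q) : Subgroup Q) : Set Q) = ⊥ := by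
  have hn := pElementClosure_normal (Q := Q) 2
  have hodd : Odd (Cfsg.pElementClosure 2 (⊤ : Subgroup Q)).index := by
    have f2 : Fact (Nat.Prime 2) := ⟨Nat.prime_two⟩
    obtain ⟨S⟩ : Nonempty (Sylow 2 Q) := inferInstance
    have hS : (S : Subgroup Q) ≤ Cfsg.pElementClosure 2 (⊤ : Subgroup Q) := by
      intro s hs
      refine Subgroup.subset_closure ⟨Subgroup.mem_top _, ?_⟩
      obtain ⟨k, hk⟩ := IsPGroup.iff_orderOf.1 S.2 ⟨s, hs⟩
      refine ⟨k, ?_⟩
      rw [← hk, ← Subgroup.orderOf_coe]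
    have h1 : ¬ 2 ∣ (S : Subgroup Q).index := S.not_dvd_index
    have h2 := Subgroup.index_dvd_of_le hS
    rw [← Nat.not_even_iff_odd, even_iff_two_dvd]
    exact fun h => h1 (h.trans h2)
  refine ⟨hn, hodd, ?_⟩
  set R := Cfsg.pElementClosure 2 (⊤ : Subgroup Q) with hR
  set C := Subgroup.centralizer ((R : Subgroup Q) : Set Q) with hC
  have hinf : ∀ x ∈ C, x ∈ R → x = 1 := by
    intro x hxC hxR
    have h1 : e ⟨x, hxR⟩ ∈ Subgroup.center (Matrix.SpecialLinearGroup (Fin 2) F) := by
      rw [Subgroup.mem_center_iff]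
      intro g
      obtain ⟨r, rfl⟩ := e.surjective g
      rw [← map_mul, ← map_mul]
      congr 1
      exact Subtype.ext (mem_centralizer_iff.1 hxC r r.2)
    rw [Cfsg.Agent.BS.center_sl2_eq_bot, Subgroup.mem_bot] at h1
    have h2 : (⟨x, hxR⟩ : R) = 1 := e.injective (h1.trans (map_one e).symm)
    exact congrArg Subtype.val h2
  have hCn : C.Normal := by
    have := hn
    rw [hC]; infer_instance
  have hCodd : Odd (Nat.card C) := by
    have := hn
    let f : C →* Q ⧸ R := (QuotientGroup.mk' R).comp C.subtype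
    have hf : Function.Injective f := by
      rw [injective_iff_map_eq_one]
      intro a ha
      have h1 : (a : Q) ∈ R := (QuotientGroup.eq_one_iff (a : Q)).1 ha
      exact Subtype.ext (hinf a a.2 h1)
    have h1 : Nat.card C ∣ Nat.card (Q ⧸ R) := Subgroup.card_dvd_of_injective f hf
    exact Odd.of_dvd_nat hodd h1
  have hle : C ≤ Cfsg.pPrimeCore 2 Q := by
    apply Cfsg.Agent.Solv.le_pPrimeCore hCn
    rw [Nat.coprime_two_right]
    exact hCodd
  rw [hO, le_bot_iff] at hle
  exact hle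

end Cfsg.Agent.H68.S4021F
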