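import Mathlib.Tactic
import Mathlib.GroupTheory.Sylow
import Mathlib.GroupTheory.IsSubnormal
import Cfsg.Prelude.Def_Solvable
import Cfsg.Agent.H49.Core
import Cfsg.Agent.H62.Subnormal
import Cfsg.Agent.H68.Basic

set_option autoImplicit false

namespace Cfsg.Agent.H68

open Subgroup

/-- For a `p`-subgroup `H`: `H` is subnormal in `⟨H, g⟩` iff `g` normalizes some `p`-subgroup containing `H`. -/
theorem subnormalizer_iff {G : Type*} [Group G] [Finite G] (p : ℕ) [Fact p.Prime] (H : Subgroup G)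
    (hH : IsPGroup p H) (g : G) :
    ((H).subgroupOf (H ⊔ zpowers g)).IsSubnormal ↔
      ∃ R : Subgroup G, IsPGroup p R ∧ H ≤ R ∧ g ∈ normalizer (R : Set G) := by
  constructor
  · intro h
    have h1 : IsPGroup p (H.subgroupOf (H ⊔ zpowers g)) := hH.comap_subtype
    have h2 := Cfsg.Agent.H49.le_pCore_of_isSubnormal h h1
    refine ⟨(Cfsg.pCore p ↥(H ⊔ zpowers g)).map (H ⊔ zpowers g).subtype,
      Cfsg.Agent.H49.isPGroup_pCoreOf p _, ?_, ?_⟩
    · intro x hx
      have h3 : x ∈ H ⊔ zpowers g := (le_sup_left : H ≤ H ⊔ zpowers g) hx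
      exact ⟨⟨x, h3⟩, h2 hx, rfl⟩
    · apply Cfsg.Agent.H49.normalizer_le_normalizer_pCoreOf p (H ⊔ zpowers g)
      apply le_normalizer
      exact (le_sup_right : zpowers g ≤ H ⊔ zpowers g) (mem_zpowers g)
  · rintro ⟨R, hR, hHR, hg⟩
    have h1 : H ⊔ zpowers g ≤ normalizer (R : Set G) := by
      rw [sup_le_iff]
      refine ⟨hHR.trans le_normalizer, ?_⟩
      rw [zpowers_le]; exact hg
    have h2 : (R.subgroupOf (H ⊔ zpowers g)).Normal := normal_subgroupOf_of_le_normalizer h1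
    have h3 : IsPGroup p (R.subgroupOf (H ⊔ zpowers g)) := hR.comap_subtype
    refine Cfsg.Agent.H62.isSubnormal_of_le_nilpotent (N := R.subgroupOf (H ⊔ zpowers g)) ?_ h2.isSubnormal
      h3.isNilpotent
    intro x hx
    exact hHR hx

/-- If `g` normalizes a `p`-subgroup containing `H` then `g` normalizes a radical one. -/
theorem exists_radical {G : Type*} [Group G] [Finite G] (p : ℕ) [Fact p.Prime] (H : Subgroup G) (g : G)
    (h : ∃ R : Subgroup G, IsPGroup p R ∧ H ≤ R ∧ g ∈ normalizer (R : Set G)) :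
    ∃ R : Subgroup G, H ≤ R ∧
      (Cfsg.pCore p (normalizer (R : Set G))).map (normalizer (R : Set G)).subtype = R ∧
      g ∈ normalizer (R : Set G) := by
  obtain ⟨R, ⟨hR1, hR2, hR3⟩, hmax⟩ := (wellFounded_gt (α := Subgroup G)).has_min
    {R : Subgroup G | IsPGroup p R ∧ H ≤ R ∧ g ∈ normalizer (R : Set G)} h
  refine ⟨R, hR2, ?_, hR3⟩
  set R1 := (Cfsg.pCore p (normalizer (R : Set G))).map (normalizer (R : Set G)).subtype with hR1def
  have h1 : R ≤ R1 := Cfsg.Agent.H49.le_pCoreOf le_normalizer le_rfl hR1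
  have h2 : IsPGroup p R1 := Cfsg.Agent.H49.isPGroup_pCoreOf p _
  have h3 : g ∈ normalizer (R1 : Set G) := by
    apply Cfsg.Agent.H49.normalizer_le_normalizer_pCoreOf p (normalizer (R : Set G))
    exact le_normalizer hR3
  by_contra hne
  exact hmax R1 ⟨h2, hR2.trans h1, h3⟩ (lt_of_le_of_ne h1 (Ne.symm hne))

end Cfsg.Agent.H68
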