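import Mathlib.Tactic
import Mathlib.GroupTheory.Sylow
import Cfsg.Agent.H68.Basic
import Cfsg.Agent.H68.TI
import Cfsg.Agent.H68.EulerPoset
import Cfsg.Agent.H68.Subnormalizer

set_option autoImplicit false

namespace Cfsg.Agent.H68

open Subgroup

/-- A `p`-subgroup grows in its normalizer. -/
theorem exists_mem_normalizer_of_lt {G : Type*} [Group G] [Finite G] {p : ℕ} [Fact p.Prime] {D Q : Subgroup G}
    (hQ : IsPGroup p Q) (h : D < Q) : ∃ x ∈ Q, x ∉ D ∧ x ∈ normalizer (D : Set G) := by
  have : Group.IsNilpotent Q := hQ.isNilpotent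
  have h1 : D.subgroupOf Q < ⊤ := by
    rw [lt_top_iff_ne_top, Ne, Subgroup.subgroupOf_eq_top]
    exact not_le_of_gt h
  have h2 := Group.normalizerCondition_of_isNilpotent (G := Q) _ h1
  obtain ⟨x, hx, hxD⟩ := SetLike.exists_of_lt h2
  refine ⟨x, x.2, hxD, ?_⟩
  rw [Subgroup.mem_set_normalizer_iff]
  rw [Subgroup.mem_set_normalizer_iff] at hx
  intro y
  constructor
  · intro hy
    exact (hx ⟨y, h.le hy⟩).1 hy
  · intro hy
    have h3 : (x : G) * y * (x : G)⁻¹ ∈ Q := h.le hy
    have h4 : y ∈ Q := by
      have : y = (x : G)⁻¹ * (x * y * (x : G)⁻¹) * x := by group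
      rw [this]
      exact mul_mem (mul_mem (inv_mem x.2) h3) x.2
    exact (hx ⟨y, h4⟩).2 hy

/-- `p`-subgroups of `X` normalized by `g`. -/
def pSub {G : Type*} [Group G] (p : ℕ) (X : Subgroup G) (g : G) : Set (Subgroup G) :=
  {R | IsPGroup p R ∧ R ≤ X ∧ g ∈ normalizer (R : Set G)}

/-- maximal `p`-subgroups of `X`. -/
def IsMaxP {G : Type*} [Group G] (p : ℕ) (X R : Subgroup G) : Prop :=
  IsPGroup p R ∧ R ≤ X ∧ ∀ R' : Subgroup G, IsPGroup p R' → R' ≤ X → R ≤ R' → R' = R

noncomputable instance fintypeSubgroup_H68 {G : Type*} [Group G] [Finite G] : Fintype (Subgroup G) :=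
  Fintype.ofFinite _

theorem mem_normalizer_inf {G : Type*} [Group G] {A B : Subgroup G} {g : G}
    (hA : g ∈ normalizer (A : Set G)) (hB : g ∈ normalizer (B : Set G)) :
    g ∈ normalizer ((A ⊓ B : Subgroup G) : Set G) := by
  rw [Subgroup.mem_set_normalizer_iff] at *
  intro h
  constructor
  · rintro ⟨h1, h2⟩
    exact ⟨(hA h).1 h1, (hB h).1 h2⟩
  · rintro ⟨h1, h2⟩
    exact ⟨(hA h).2 h1, (hB h).2 h2⟩

theorem mem_normalizer_self_group {G : Type*} [Group G] {A : Subgroup G} {g : G}
    (hA : g ∈ A) : g ∈ normalizer (A : Set G) := le_normalizer hA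

theorem euler_pSub_normalizer {G : Type*} [Group G] [Finite G] (p : ℕ) [Fact p.Prime] (X R : Subgroup G) (g : G)
    (hRX : R ≤ X) (hg : g ∈ X) (hgR : g ∈ normalizer (R : Set G)) :
    euler (pSub p X g) R = euler (pSub p (X ⊓ normalizer (R : Set G)) g) R := by
  apply euler_retract _ _ _ _ (fun y => y ⊓ normalizer (R : Set G))
  · rintro y ⟨hy, hyX, hgy⟩ hRy
    refine ⟨hy.to_le inf_le_left, inf_le_inf hyX le_rfl, ?_⟩
    exact mem_normalizer_inf hgy (le_normalizer hgR)
  · rintro y ⟨hy, hyX, hgy⟩ hRy
    refine lt_of_le_of_ne (le_inf hRy.le le_normalizer) ?_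
    intro h
    obtain ⟨x, hxy, hxR, hxN⟩ := exists_mem_normalizer_of_lt hy hRy
    apply hxR
    rw [h]
    exact ⟨hxy, hxN⟩
  · intro y _ _
    exact inf_le_left
  · intro y _ _ z _ _ hyz
    exact inf_le_inf hyz le_rfl
  · rintro t ⟨-, ht, -⟩ _
    exact inf_eq_left.2 (ht.trans inf_le_right)
  · rintro t ⟨ht1, ht2, ht3⟩
    exact ⟨ht1, ht2.trans inf_le_left, ht3⟩

/-- Sum of the orders of the normalizers of the Sylow subgroups of `X`. -/
theorem sum_card_normalizer_sylow {G : Type*} [Group G] [Finite G] (p : ℕ) [Fact p.Prime] :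
    ∑ᶠ P : Sylow p G, Nat.card (normalizer ((P : Subgroup G) : Set G)) = Nat.card G := by
  classical
  have := Fintype.ofFinite (Sylow p G)
  let P0 : Sylow p G := default
  have h1 : ∀ P : Sylow p G, Nat.card (normalizer ((P : Subgroup G) : Set G)) =
      Nat.card (normalizer ((P0 : Subgroup G) : Set G)) := by
    intro P
    have e1 := Subgroup.card_mul_index (normalizer ((P : Subgroup G) : Set G))
    have e2 := Subgroup.card_mul_index (normalizer ((P0 : Subgroup G) : Set G))
    have f1 : Nat.card (Sylow p G) = (normalizer ((P : Subgroup G) : Set G)).index := P.card_eq_index_normalizer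
    have f2 : Nat.card (Sylow p G) = (normalizer ((P0 : Subgroup G) : Set G)).index := P0.card_eq_index_normalizer
    rw [← f1] at e1
    rw [← f2, ← e1] at e2
    exact (Nat.eq_of_mul_eq_mul_right Nat.card_pos e2).symm
  rw [finsum_eq_sum_of_fintype, Finset.sum_congr rfl (fun P _ => h1 P), Finset.sum_const, Finset.card_univ,
    smul_eq_mul, ← Nat.card_eq_fintype_card, P0.card_eq_index_normalizer, mul_comm]
  exact Subgroup.card_mul_index _

theorem isMaxP_map {G : Type*} [Group G] {p : ℕ} (X : Subgroup G) (P : Sylow p X) :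
    IsMaxP p X ((P : Subgroup X).map X.subtype) := by
  refine ⟨P.isPGroup'.map _, map_subtype_le _, ?_⟩
  intro R' hR' hR'X hle
  have h1 : (P : Subgroup X) ≤ R'.subgroupOf X := by
    intro x hx
    exact hle ⟨x, hx, rfl⟩
  have h2 : R'.subgroupOf X = (P : Subgroup X) := P.is_maximal' (hR'.comap_subtype) h1
  rw [← h2, subgroupOf_map_subtype, inf_eq_left.2 hR'X]

theorem exists_sylow_of_isMaxP {G : Type*} [Group G] {p : ℕ} {X R : Subgroup G} (h : IsMaxP p X R) :
    ∃ P : Sylow p X, (P : Subgroup X).map X.subtype = R := by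
  obtain ⟨P, hP⟩ := (h.1.comap_subtype (K := X)).exists_le_sylow
  refine ⟨P, ?_⟩
  apply h.2.2 _ (P.isPGroup'.map _) (map_subtype_le _)
  intro x hx
  exact ⟨⟨x, h.2.1 hx⟩, hP hx, rfl⟩

open Classical in
theorem sum_isMaxP {G : Type*} [Group G] [Finite G] (p : ℕ) [Fact p.Prime] (X : Subgroup G) :
    ∑ R ∈ Finset.univ.filter (fun R => IsMaxP p X R), Nat.card ↥(X ⊓ normalizer (R : Set G)) = Nat.card X := by
  have := Fintype.ofFinite (Sylow p X)
  rw [← sum_card_normalizer_sylow (G := X) p, finsum_eq_sum_of_fintype]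
  symm
  apply Finset.sum_bij (fun (P : Sylow p X) _ => (P : Subgroup X).map X.subtype)
  · intro P _
    rw [Finset.mem_filter]
    exact ⟨Finset.mem_univ _, isMaxP_map X P⟩
  · intro P _ Q _ h
    exact Sylow.ext (Subgroup.map_injective X.subtype_injective h)
  · intro R hR
    rw [Finset.mem_filter] at hR
    obtain ⟨P, hP⟩ := exists_sylow_of_isMaxP hR.2
    exact ⟨P, Finset.mem_univ _, hP⟩
  · intro P _
    rw [← Subgroup.card_map_of_injective X.subtype_injective]
    congr 2
    ext x
    constructor
    · rintro ⟨y, hy, rfl⟩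
      refine ⟨y.2, ?_⟩
      have hy' := Subgroup.mem_set_normalizer_iff.1 hy
      show (y : G) ∈ normalizer _
      rw [Subgroup.mem_set_normalizer_iff]
      intro z
      constructor
      · rintro ⟨w, hw, rfl⟩
        exact ⟨y * w * y⁻¹, (hy' w).1 hw, by simp⟩
      · rintro ⟨w, hw, hw'⟩
        refine ⟨y⁻¹ * w * y, ?_, ?_⟩
        · apply (hy' _).2
          have : y * (y⁻¹ * w * y) * y⁻¹ = w := by group
          rw [this]; exact hw
        · have : (w : G) = y * z * (y : G)⁻¹ := hw'
          show ((y⁻¹ * w * y : X) : G) = z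
          push_cast
          rw [this]; group
    · rintro ⟨hxX, hxN⟩
      refine ⟨⟨x, hxX⟩, ?_, rfl⟩
      have hxN' := Subgroup.mem_set_normalizer_iff.1 hxN
      rw [SetLike.mem_coe, Subgroup.mem_set_normalizer_iff]
      intro w
      constructor
      · intro hw
        obtain ⟨v, hv, hv'⟩ := (hxN' w).1 ⟨w, hw, rfl⟩
        have : v = ⟨x, hxX⟩ * w * ⟨x, hxX⟩⁻¹ := by
          ext; simpa using hv'
        rw [SetLike.mem_coe, ← this]; exact hv
      · intro hw
        obtain ⟨v, hv, hv'⟩ := (hxN' w).2 ⟨_, hw, by simp⟩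
        have : v = w := by
          ext; simpa using hv'
        rw [SetLike.mem_coe, ← this]; exact hv

open Classical in
/-- The sum over `g ∈ N_X(R)` of the Euler numbers. -/
noncomputable def cSum {G : Type*} [Group G] [Fintype G] (p : ℕ) (X R : Subgroup G) : ℤ :=
  ∑ g ∈ Finset.univ.filter (fun g => g ∈ X ∧ g ∈ normalizer (R : Set G)), euler (pSub p X g) R

open Classical in
theorem card_filter_eq {G : Type*} [Group G] [Fintype G] (X Y : Subgroup G) :
    (Finset.univ.filter (fun g => g ∈ X ∧ g ∈ Y)).card = Nat.card ↥(X ⊓ Y) := by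
  rw [Nat.card_eq_fintype_card, Fintype.card_subtype]
  congr 1
  ext g
  simp [Subgroup.mem_inf]

theorem cSum_max {G : Type*} [Group G] [Fintype G] (p : ℕ) (X R : Subgroup G) (hR : IsMaxP p X R) :
    cSum p X R = Nat.card ↥(X ⊓ normalizer (R : Set G)) := by
  classical
  rw [cSum, ← card_filter_eq, Finset.card_eq_sum_ones]
  push_cast
  apply Finset.sum_congr rfl
  intro g _
  rw [euler_eq, Finset.sum_eq_zero, sub_zero]
  intro y hy
  rw [Finset.mem_filter] at hy
  obtain ⟨-, hlt, hy1, hy2, -⟩ := hy
  exact absurd (hR.2.2 y hy1 hy2 hlt.le) hlt.ne'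

theorem cSum_main {G : Type*} [Group G] [Fintype G] (p : ℕ) [Fact p.Prime] :
    ∀ (n : ℕ) (X : Subgroup G), Nat.card X = n → ∀ R : Subgroup G, IsPGroup p R → R ≤ X → ¬ IsMaxP p X R →
      cSum p X R = 0 := by
  classical
  intro n
  induction n using Nat.strong_induction_on with
  | _ n ihX =>
    intro X hX R
    induction R using (wellFounded_gt (α := Subgroup G)).induction with
    | _ R ihR =>
      intro hR hRX hnmax
      by_cases hnorm : X ≤ normalizer (R : Set G)
      · -- normal case
        have h0 : cSum p X R = (Nat.card X : ℤ) -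
            ∑ R' ∈ Finset.univ.filter (fun R' => R < R' ∧ IsPGroup p R' ∧ R' ≤ X), cSum p X R' := by
          have e1 : (Finset.univ.filter (fun g => g ∈ X ∧ g ∈ normalizer (R : Set G))) =
              Finset.univ.filter (fun g => g ∈ X) := by
            ext g
            simp only [Finset.mem_filter, Finset.mem_univ, true_and]
            exact ⟨fun h => h.1, fun h => ⟨h, hnorm h⟩⟩
          rw [cSum, e1]
          have e2 : ∀ g ∈ Finset.univ.filter (fun g => g ∈ X), euler (pSub p X g) R =
              1 - ∑ R' ∈ Finset.univ.filter (fun R' => R < R' ∧ IsPGroup p R' ∧ R' ≤ X),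
                (if g ∈ normalizer (R' : Set G) then euler (pSub p X g) R' else 0) := by
            intro g _
            rw [euler_eq, ← Finset.sum_filter, Finset.filter_filter]
            congr 1
            apply Finset.sum_congr _ (fun _ _ => rfl)
            ext R'
            simp only [Finset.mem_filter, Finset.mem_univ, true_and]
            constructor
            · rintro ⟨h1, h2, h3, h4⟩
              exact ⟨⟨h1, h2, h3⟩, h4⟩
            · rintro ⟨⟨h1, h2, h3⟩, h4⟩
              exact ⟨h1, h2, h3, h4⟩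
          rw [Finset.sum_congr rfl e2, Finset.sum_sub_distrib, Finset.sum_comm]
          congr 1
          · rw [Finset.sum_const, nsmul_eq_mul, mul_one]
            congr 1
            rw [Nat.card_eq_fintype_card, Fintype.card_subtype]
          · apply Finset.sum_congr rfl
            intro R' _
            rw [cSum, ← Finset.sum_filter, Finset.filter_filter]
        rw [h0, sub_eq_zero]
        rw [← sum_isMaxP p X]
        push_cast
        symm
        rw [← Finset.sum_filter_add_sum_filter_not _ (fun R' => IsMaxP p X R')]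
        have e3 : ∑ R' ∈ (Finset.univ.filter (fun R' => R < R' ∧ IsPGroup p R' ∧ R' ≤ X)).filter (fun R' => ¬ IsMaxP p X R'),
            cSum p X R' = 0 := by
          apply Finset.sum_eq_zero
          intro R' hR'
          simp only [Finset.mem_filter, Finset.mem_univ, true_and] at hR'
          exact ihR R' hR'.1.1 hR'.1.2.1 hR'.1.2.2 hR'.2
        rw [e3, add_zero]
        apply Finset.sum_congr
        · ext R'
          simp only [Finset.mem_filter, Finset.mem_univ, true_and]
          constructor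
          · rintro ⟨-, h⟩
            exact h
          · intro h
            refine ⟨⟨?_, h.1, h.2.1⟩, h⟩
            -- R ≤ R'
            have hle : R ≤ R' := by
              have h1 : IsPGroup p (R' ⊔ R : Subgroup G) :=
                IsPGroup.to_sup_of_normal_right' h.1 hR (h.2.1.trans hnorm)
              have h2 := h.2.2 _ h1 (sup_le h.2.1 hRX) le_sup_left
              rw [← h2]; exact le_sup_right
            refine lt_of_le_of_ne hle ?_
            rintro rfl
            exact hnmax h
        · intro R' hR'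
          simp only [Finset.mem_filter, Finset.mem_univ, true_and] at hR'
          exact cSum_max p X R' hR'
      · -- non normal case
        set Y := X ⊓ normalizer (R : Set G) with hY
        have hYX : Y < X := by
          refine lt_of_le_of_ne inf_le_left ?_
          intro h
          exact hnorm (inf_eq_left.1 h)
        have hcard : Nat.card Y < n := by
          rw [← hX]
          by_contra hge
          push Not at hge
          exact hYX.ne (Subgroup.eq_of_le_of_card_ge hYX.le hge)
        have hRY : R ≤ Y := le_inf hRX le_normalizer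
        have hYmax : ¬ IsMaxP p Y R := by
          intro h
          apply hnmax
          refine ⟨hR, hRX, ?_⟩
          intro R' hR' hR'X hle
          by_contra hne
          have hlt : R < R' := lt_of_le_of_ne hle (Ne.symm hne)
          obtain ⟨x, hxR', hxR, hxN⟩ := exists_mem_normalizer_of_lt hR' hlt
          have h1 := h.2.2 (R' ⊓ normalizer (R : Set G)) (hR'.to_le inf_le_left)
            (inf_le_inf hR'X le_rfl) (le_inf hle le_normalizer)
          apply hxR
          rw [← h1]
          exact ⟨hxR', hxN⟩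
        have h1 := ihX _ hcard Y rfl R hR hRY hYmax
        rw [← h1, cSum, cSum]
        apply Finset.sum_congr
        · ext g
          simp only [Finset.mem_filter, Finset.mem_univ, true_and]
          constructor
          · rintro ⟨h2, h3⟩
            exact ⟨⟨h2, h3⟩, h3⟩
          · rintro ⟨h2, h3⟩
            exact ⟨h2.1, h3⟩
        · intro g hg
          simp only [Finset.mem_filter, Finset.mem_univ, true_and] at hg
          exact euler_pSub_normalizer p X R g hRX hg.1.1 hg.2

open Classical in
/-- `∑_{R ≥ H} euler R = 1` if `g` normalizes a `p`-subgroup containing `H`, and `0` otherwise. -/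
theorem sum_euler_pSub {G : Type*} [Group G] [Fintype G] (p : ℕ) (H : Subgroup G) (g : G) :
    ∑ R ∈ Finset.univ.filter (fun R => H ≤ R ∧ R ∈ pSub p ⊤ g), euler (pSub p ⊤ g) R =
      if (∃ R : Subgroup G, IsPGroup p R ∧ H ≤ R ∧ g ∈ normalizer (R : Set G)) then 1 else 0 := by
  split_ifs with h
  · obtain ⟨R0, ⟨hR1, hR2, hR3⟩, hmin⟩ := (wellFounded_lt (α := Subgroup G)).has_min
      {R : Subgroup G | IsPGroup p R ∧ H ≤ R ∧ g ∈ normalizer (R : Set G)} h
    have hR0 : R0 ∈ pSub p ⊤ g := ⟨hR1, le_top, hR3⟩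
    rw [← sum_euler_ge (pSub p ⊤ g) hR0]
    apply Finset.sum_congr _ (fun _ _ => rfl)
    ext R
    simp only [Finset.mem_filter, Finset.mem_univ, true_and]
    constructor
    · rintro ⟨hHR, hR⟩
      refine ⟨?_, hR⟩
      have h1 : R0 ⊓ R = R0 := by
        by_contra hne
        exact hmin (R0 ⊓ R) ⟨hR1.to_le inf_le_left, le_inf hR2 hHR, mem_normalizer_inf hR3 hR.2.2⟩
          (lt_of_le_of_ne inf_le_left hne)
      exact inf_eq_left.1 h1
    · rintro ⟨hle, hR⟩
      exact ⟨hR2.trans hle, hR⟩
  · apply Finset.sum_eq_zero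
    intro R hR
    simp only [Finset.mem_filter, Finset.mem_univ, true_and] at hR
    exact absurd ⟨R, hR.2.1, hR.1, hR.2.2.2⟩ h

/-- Casolo's formula. -/
theorem card_subnormalizer {G : Type*} [Group G] [Finite G] (p : ℕ) [Fact p.Prime] (H : Subgroup G)
    (P : Sylow p G) :
    Nat.card {g : G // ∃ R : Subgroup G, IsPGroup p R ∧ H ≤ R ∧ g ∈ normalizer (R : Set G)} =
      Nat.card {Q : Sylow p G // H ≤ (Q : Subgroup G)} * Nat.card (normalizer ((P : Subgroup G) : Set G)) := by
  classical
  have := Fintype.ofFinite G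
  have := Fintype.ofFinite (Sylow p G)
  have hN : ∀ Q : Sylow p G, Nat.card (normalizer ((Q : Subgroup G) : Set G)) =
      Nat.card (normalizer ((P : Subgroup G) : Set G)) := by
    intro Q
    have e1 := Subgroup.card_mul_index (normalizer ((Q : Subgroup G) : Set G))
    have e2 := Subgroup.card_mul_index (normalizer ((P : Subgroup G) : Set G))
    have f1 : Nat.card (Sylow p G) = (normalizer ((Q : Subgroup G) : Set G)).index := Q.card_eq_index_normalizer
    have f2 : Nat.card (Sylow p G) = (normalizer ((P : Subgroup G) : Set G)).index := P.card_eq_index_normalizer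
    rw [← f1] at e1
    rw [← f2, ← e1] at e2
    exact (Nat.eq_of_mul_eq_mul_right Nat.card_pos e2).symm
  have h1 : (Nat.card {g : G // ∃ R : Subgroup G, IsPGroup p R ∧ H ≤ R ∧ g ∈ normalizer (R : Set G)} : ℤ) =
      ∑ g : G, if (∃ R : Subgroup G, IsPGroup p R ∧ H ≤ R ∧ g ∈ normalizer (R : Set G)) then (1 : ℤ) else 0 := by
    rw [Finset.sum_boole, Nat.card_eq_fintype_card, Fintype.card_subtype]
  have h2 : ∑ g : G, (if (∃ R : Subgroup G, IsPGroup p R ∧ H ≤ R ∧ g ∈ normalizer (R : Set G)) then (1 : ℤ) else 0) =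
      ∑ R ∈ Finset.univ.filter (fun R => H ≤ R ∧ IsPGroup p R), cSum p ⊤ R := by
    have e1 : ∀ g : G, (if (∃ R : Subgroup G, IsPGroup p R ∧ H ≤ R ∧ g ∈ normalizer (R : Set G)) then (1 : ℤ) else 0) =
        ∑ R ∈ Finset.univ.filter (fun R => H ≤ R ∧ IsPGroup p R),
          if g ∈ normalizer (R : Set G) then euler (pSub p ⊤ g) R else 0 := by
      intro g
      rw [← sum_euler_pSub, ← Finset.sum_filter, Finset.filter_filter]
      apply Finset.sum_congr _ (fun _ _ => rfl)
      ext R
      simp only [Finset.mem_filter, Finset.mem_univ, true_and]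
      constructor
      · rintro ⟨h1, h2, -, h3⟩
        exact ⟨⟨h1, h2⟩, h3⟩
      · rintro ⟨⟨h1, h2⟩, h3⟩
        exact ⟨h1, h2, le_top, h3⟩
    rw [Finset.sum_congr rfl (fun g _ => e1 g), Finset.sum_comm]
    apply Finset.sum_congr rfl
    intro R _
    rw [cSum, ← Finset.sum_filter]
    apply Finset.sum_congr _ (fun _ _ => rfl)
    ext g
    simp
  have h3 : ∑ R ∈ Finset.univ.filter (fun R => H ≤ R ∧ IsPGroup p R), cSum p ⊤ R =
      ∑ R ∈ Finset.univ.filter (fun R => H ≤ R ∧ IsMaxP p ⊤ R), (Nat.card (normalizer ((P : Subgroup G) : Set G)) : ℤ) := by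
    rw [← Finset.sum_filter_add_sum_filter_not _ (fun R' => IsMaxP p ⊤ R')]
    have e3 : ∑ R' ∈ (Finset.univ.filter (fun R => H ≤ R ∧ IsPGroup p R)).filter (fun R' => ¬ IsMaxP p ⊤ R'),
        cSum p ⊤ R' = 0 := by
      apply Finset.sum_eq_zero
      intro R' hR'
      simp only [Finset.mem_filter, Finset.mem_univ, true_and] at hR'
      exact cSum_main p _ ⊤ rfl R' hR'.1.2 le_top hR'.2
    rw [e3, add_zero]
    apply Finset.sum_congr
    · ext R'
      simp only [Finset.mem_filter, Finset.mem_univ, true_and]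
      constructor
      · rintro ⟨⟨h1, -⟩, h⟩
        exact ⟨h1, h⟩
      · rintro ⟨h1, h⟩
        exact ⟨⟨h1, h.1⟩, h⟩
    · intro R' hR'
      simp only [Finset.mem_filter, Finset.mem_univ, true_and] at hR'
      rw [cSum_max p ⊤ R' hR'.2, top_inf_eq]
      let Q : Sylow p G := ⟨R', hR'.2.1, fun {S} hS hle => hR'.2.2.2 S hS le_top hle⟩
      have := hN Q
      exact_mod_cast this
  have h4 : (Finset.univ.filter (fun R => H ≤ R ∧ IsMaxP p ⊤ R)).card =
      Nat.card {Q : Sylow p G // H ≤ (Q : Subgroup G)} := by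
    rw [Nat.card_eq_fintype_card, Fintype.card_subtype]
    symm
    apply Finset.card_bij (fun (Q : Sylow p G) _ => (Q : Subgroup G))
    · intro Q hQ
      simp only [Finset.mem_filter, Finset.mem_univ, true_and] at hQ ⊢
      exact ⟨hQ, Q.isPGroup', le_top, fun R' hR' _ hle => Q.is_maximal' hR' hle⟩
    · intro Q _ Q' _ h
      exact Sylow.ext h
    · intro R hR
      simp only [Finset.mem_filter, Finset.mem_univ, true_and] at hR
      refine ⟨⟨R, hR.2.1, fun {S} hS hle => hR.2.2.2 S hS le_top hle⟩, ?_, rfl⟩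
      simp only [Finset.mem_filter, Finset.mem_univ, true_and]
      exact hR.1
  have h5 : (Nat.card {g : G // ∃ R : Subgroup G, IsPGroup p R ∧ H ≤ R ∧ g ∈ normalizer (R : Set G)} : ℤ) =
      (Nat.card {Q : Sylow p G // H ≤ (Q : Subgroup G)} * Nat.card (normalizer ((P : Subgroup G) : Set G)) : ℕ) := by
    rw [h1, h2, h3, Finset.sum_const, h4, nsmul_eq_mul]
    push_cast
    rfl
  exact_mod_cast h5

end Cfsg.Agent.H68
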