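import Mathlib
import Cfsg.Prelude.Def_Transfer
import Cfsg.Agent.H68.FieldIso
import Cfsg.Agent.H68.AutExt
import Cfsg.Agent.H68.PrimRoot

set_option autoImplicit false

namespace Cfsg.Agent.H68.PR

open Subgroup Polynomial

theorem exists_intertwine {p q : ℕ} [hpF : Fact p.Prime] [hqF : Fact q.Prime] (hpq : p ≠ q)
    (hord : orderOf (p : ZMod q) = q - 1) {V : Type*} [AddCommGroup V] [Module (ZMod p) V] [Finite V]
    (S T : Module.End (ZMod p) V) (hS : S ^ q = 1) (hS1 : ∀ v, S v = v → v = 0)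
    (hT : T ^ q = 1) (hT1 : ∀ v, T v = v → v = 0) {v w : V} (hv : v ≠ 0) (hw : w ≠ 0) :
    ∃ τ : V ≃+ V, τ v = w ∧ ∀ u, τ (S u) = T (τ u) := by
  classical
  have hp : p.Prime := Fact.out
  have hq : q.Prime := Fact.out
  have hpq' : ¬ p ∣ q := fun h => hpq ((Nat.prime_dvd_prime_iff_eq hp hq).1 h)
  have hirr : Irreducible (cyclotomic q (ZMod p)) := by
    apply ZMod.irreducible_of_dvd_cyclotomic_of_natDegree hpq' dvd_rfl
    rw [natDegree_cyclotomic, Nat.totient_prime hq, ← hord, ← orderOf_units]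
    congr 1
  have hFact : Fact (Irreducible (cyclotomic q (ZMod p))) := ⟨hirr⟩
  have hcyc : ∀ R : Module.End (ZMod p) V, R ^ q = 1 → (∀ v, R v = v → v = 0) →
      aeval R (cyclotomic q (ZMod p)) = 0 := by
    intro R hR hR1
    ext u
    set u' := aeval R (cyclotomic q (ZMod p)) u with hu'
    have h1 : aeval R ((X - 1) * cyclotomic q (ZMod p)) u = 0 := by
      rw [mul_comm, cyclotomic_prime_mul_X_sub_one, map_sub, map_pow, aeval_X, map_one, hR, sub_self]
      rfl
    rw [map_mul, Module.End.mul_apply, ← hu', map_sub, aeval_X, map_one, LinearMap.sub_apply,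
      Module.End.one_apply, sub_eq_zero] at h1
    exact hR1 _ h1
  let φ : (R : Module.End (ZMod p) V) → (hR : aeval R (cyclotomic q (ZMod p)) = 0) →
      (AdjoinRoot (cyclotomic q (ZMod p)) →+* AddMonoid.End V) :=
    fun R hR => Ideal.Quotient.lift (Ideal.span {cyclotomic q (ZMod p)})
      ((Module.toAddMonoidEnd (Module.End (ZMod p) V) V).comp (aeval R).toRingHom) (by
          intro a ha
          rw [Ideal.mem_span_singleton] at ha
          obtain ⟨c, rfl⟩ := ha
          rw [map_mul]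
          have : ((Module.toAddMonoidEnd (Module.End (ZMod p) V) V).comp
            (aeval R).toRingHom) (cyclotomic q (ZMod p)) = 0 := by
            rw [RingHom.comp_apply]
            have h1 : (aeval R).toRingHom (cyclotomic q (ZMod p)) = 0 := hR
            rw [h1, map_zero]
          rw [this, zero_mul])
  have hφ : ∀ (R : Module.End (ZMod p) V) (hR : aeval R (cyclotomic q (ZMod p)) = 0) (u : V),
      (φ R hR (AdjoinRoot.root (cyclotomic q (ZMod p))) : V → V) u = R u := by
    intro R hR u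
    have h1 : φ R hR (AdjoinRoot.root (cyclotomic q (ZMod p))) =
      ((Module.toAddMonoidEnd (Module.End (ZMod p) V) V).comp (aeval R).toRingHom) X :=
      Ideal.Quotient.lift_mk _ _ _
    rw [h1, RingHom.comp_apply]
    have h2 : (aeval R).toRingHom (X : (ZMod p)[X]) = R := aeval_X R
    rw [h2]
    rfl
  have hfinK : Finite (AdjoinRoot (cyclotomic q (ZMod p))) := by
    have : Module.Finite (ZMod p) (AdjoinRoot (cyclotomic q (ZMod p))) :=
      (AdjoinRoot.powerBasis hirr.ne_zero).finite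
    exact Module.finite_of_finite (ZMod p)
  obtain ⟨τ, hτ1, hτ2⟩ := exists_addEquiv (φ S (hcyc S hS hS1)) (φ T (hcyc T hT hT1)) hv hw
  refine ⟨τ, hτ1, fun u => ?_⟩
  have h1 := hτ2 (AdjoinRoot.root (cyclotomic q (ZMod p))) u
  rw [hφ _ (hcyc S hS hS1), hφ _ (hcyc T hT hT1)] at h1
  exact h1

theorem toZMod_pow {p : ℕ} {V : Type*} [AddCommGroup V] [Module (ZMod p) V] (S : V →+ V) (k : ℕ) (v : V) :
    ((S.toZModLinearMap p : Module.End (ZMod p) V) ^ k) v = (S^[k]) v := by
  induction k generalizing v with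
  | zero => rfl
  | succ k ih => rw [pow_succ, Module.End.mul_apply, Function.iterate_succ_apply, ih]; rfl

theorem exists_intertwine_add {p q : ℕ} [hpF : Fact p.Prime] [hqF : Fact q.Prime] (hpq : p ≠ q)
    (hord : orderOf (p : ZMod q) = q - 1) {V : Type*} [AddCommGroup V] [Finite V] (hexp : ∀ v : V, p • v = 0)
    (S T : V →+ V) (hS : ∀ v, (S^[q]) v = v) (hS1 : ∀ v, S v = v → v = 0)
    (hT : ∀ v, (T^[q]) v = v) (hT1 : ∀ v, T v = v → v = 0) {v w : V} (hv : v ≠ 0) (hw : w ≠ 0) :
    ∃ τ : V ≃+ V, τ v = w ∧ ∀ u, τ (S u) = T (τ u) := by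
  have md : Module (ZMod p) V := AddCommGroup.zmodModule hexp
  exact exists_intertwine hpq hord (S.toZModLinearMap p : Module.End (ZMod p) V)
    (T.toZModLinearMap p : Module.End (ZMod p) V)
    (by ext v; rw [toZMod_pow, hS]; rfl) hS1 (by ext v; rw [toZMod_pow, hT]; rfl) hT1 hv hw

theorem exists_intertwine_mul {p q : ℕ} [hpF : Fact p.Prime] [hqF : Fact q.Prime] (hpq : p ≠ q)
    (hord : orderOf (p : ZMod q) = q - 1) {V : Type*} [CommGroup V] [Finite V] (hexp : ∀ v : V, v ^ p = 1)
    (c d : MulAut V) (hc : c ^ q = 1) (hc1 : ∀ v, c v = v → v = 1)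
    (hd : d ^ q = 1) (hd1 : ∀ v, d v = v → v = 1) {v w : V} (hv : v ≠ 1) (hw : w ≠ 1) :
    ∃ τ : V ≃* V, τ v = w ∧ ∀ u, τ (c u) = d (τ u) := by
  have hit : ∀ (z : MulAut V) (k : ℕ) (u : V), (z^[k]) u = (z ^ k) u := by
    intro z k
    induction k with
    | zero => intro u; rfl
    | succ k ih => intro u; rw [Function.iterate_succ_apply, ih, pow_succ]; rfl
  obtain ⟨τ, h1, h2⟩ := exists_intertwine_add (V := Additive V) hpq hord (fun v => hexp (Additive.toMul v))
    (MonoidHom.toAdditive c.toMonoidHom) (MonoidHom.toAdditive d.toMonoidHom)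
    (fun v => by
      have := hit c q (Additive.toMul v)
      rw [hc] at this
      exact this)
    (fun v h => hc1 (Additive.toMul v) h)
    (fun v => by
      have := hit d q (Additive.toMul v)
      rw [hd] at this
      exact this)
    (fun v h => hd1 (Additive.toMul v) h) (v := Additive.ofMul v) (w := Additive.ofMul w)
    (fun h => hv h) (fun h => hw h)
  exact ⟨MulEquiv.toAdditive.symm τ, h1, h2⟩

/-- the commutative group structure -/
@[reducible] noncomputable def cgH68 {P : Type*} [Group P] (hab : ∀ a b : P, a * b = b * a) : CommGroup P :=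
  { (inferInstance : Group P) with mul_comm := hab }

theorem trans_aut {G : Type*} [Group G] [Finite G] {P : Subgroup G} [hP : P.Normal] {p q : ℕ}
    [hpF : Fact p.Prime] [hqF : Fact q.Prime] (hpq : p ≠ q)
    (hab : ∀ a b : P, a * b = b * a) (hexp : ∀ a : P, a ^ p = 1)
    (hord : orderOf (p : ZMod q) = q - 1)
    (hfpf : ∀ x : G, orderOf x = q → ∀ v : P, x * v * x⁻¹ = v → v = 1)
    (hcomp : ∀ x : G, orderOf x = q → P.IsComplement' (zpowers x))
    {x y : G} (hx : orderOf x = q) (hy : orderOf y = q) {v w : P} (hv : v ≠ 1) (hw : w ≠ 1) :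
    ∃ α : MulAut G, α v = w ∧ α x = y := by
  have hq1 : ∀ z : G, orderOf z = q → (MulAut.conjNormal z : MulAut P) ^ q = 1 := by
    intro z hz
    rw [← map_pow, ← hz, pow_orderOf_eq_one, map_one]
  have hf1 : ∀ z : G, orderOf z = q → ∀ u : P, (MulAut.conjNormal z : MulAut P) u = u → u = 1 := by
    intro z hz u hu
    apply hfpf z hz
    rw [← MulAut.conjNormal_apply, hu]
  obtain ⟨τ, h1, h2⟩ := @exists_intertwine_mul p q hpF hqF hpq hord P (cgH68 hab) _ hexp
    (MulAut.conjNormal x : MulAut P) (MulAut.conjNormal y : MulAut P) (hq1 x hx) (hf1 x hx) (hq1 y hy) (hf1 y hy)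
    v w hv hw
  obtain ⟨α, hα1, hα2⟩ := exists_aut (hcomp x hx) (hcomp y hy) (hx.trans hy.symm) τ (by
    intro u
    have h3 := h2 u
    have h4 : (⟨x * u * x⁻¹, hP.conj_mem u u.2 x⟩ : P) = MulAut.conjNormal x u := by
      ext; rfl
    rw [h4, h3]; rfl)
  refine ⟨α, ?_, hα2⟩
  rw [hα1, h1]

end Cfsg.Agent.H68.PR
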