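import Cfsg.Agent.Tw4.Weyl16

/-! Every nontrivial element of a group with a split BN-pair of type `I_2(8)` and trivial torus is conjugate
to an element `u * n_w` with `w` of length at least `7`. -/

set_option autoImplicit false

namespace Cfsg.Agent.H68.TitsRed

open Cfsg.Agent.ChevGrp Cfsg.Agent.ChevGrp.RGrp Cfsg.Agent.Tw4

section gen

variable {l n : ℕ} {S : WSys l n} {G : Type*} [Group G] {R : RGrp S G}

/-- left growth -/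
theorem left_grow (i : Fin l) {m : G} (hm : m ∈ R.N) {u : Equiv.Perm (Fin n)} (hu : R.Act m u)
    (h1 : S.Pos (u⁻¹ (S.p i))) {b : G} (hb : b ∈ R.B) :
    ∃ b₁ ∈ R.B, ∃ x ∈ R.X (u⁻¹ (S.p i)), ∃ h ∈ R.H, R.nn i * b * m = b₁ * (R.nn i * m) * (x * h) := by
  obtain ⟨v, hv, h, hh, rfl⟩ := mem_B.1 hb
  obtain ⟨y, hy, x, hx, rfl⟩ := mem_U' i hv
  refine ⟨R.nn i * y * (R.nn i)⁻¹, R.U_le_B (R.Ui_le_U i (nn_Ui i y hy)), m⁻¹ * x * m, hu.conj' hx,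
    m⁻¹ * h * m, N_conj_H' hm hh, by group⟩

theorem step1 (i : Fin l) {m : G} (hm : m ∈ R.N) {u : Equiv.Perm (Fin n)} (hu : R.Act m u)
    (h1 : S.Pos (u⁻¹ (S.p i))) (h2 : S.Pos (u (S.p i))) (h3 : u (S.p i) ≠ S.p i) {b : G} (hb : b ∈ R.B) :
    ∃ c ∈ R.Grp, ∃ b' ∈ R.B, c * (b * m) * c⁻¹ = b' * (R.nn i * m * (R.nn i)⁻¹) := by
  obtain ⟨b₁, hb₁, x₁, hx₁, h, hh, e⟩ := left_grow i hm hu h1 hb
  have hb2 : x₁ * h ∈ R.B := mul_mem (R.U_le_B (R.X_le_U h1 hx₁)) (R.H_le_B hh)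
  obtain ⟨k, hk, v, hv, e2⟩ := mem_B'.1 hb2
  obtain ⟨x, hx, y, hy, rfl⟩ := mem_U i hv
  rw [e2] at e
  have hy' : R.nn i * y * (R.nn i)⁻¹ ∈ R.B := R.U_le_B (R.Ui_le_U i (nn_Ui i y hy))
  have hnn : R.nn i ∈ R.Grp := N_le_Grp (R.nn_mem_N i)
  have hk1 : R.nn i * (m * k * m⁻¹) * (R.nn i)⁻¹ ∈ R.B :=
    R.H_le_B (R.nn_H i _ (N_conj_H hm hk))
  have hx1 : R.nn i * (m * x * m⁻¹) * (R.nn i)⁻¹ ∈ R.B :=
    R.U_le_B (R.X_le_U (S.pos_w i _ h2 h3) (R.nn_X i _ _ (hu.conj hx)))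
  refine ⟨(R.nn i * y * (R.nn i)⁻¹) * R.nn i, mul_mem (B_le_Grp hy') hnn,
    (R.nn i * y * (R.nn i)⁻¹) * b₁ * (R.nn i * (m * k * m⁻¹) * (R.nn i)⁻¹) *
      (R.nn i * (m * x * m⁻¹) * (R.nn i)⁻¹), mul_mem (mul_mem (mul_mem hy' hb₁) hk1) hx1, ?_⟩
  have e3 : R.nn i * y * (R.nn i)⁻¹ * R.nn i * (b * m) * (R.nn i * y * (R.nn i)⁻¹ * R.nn i)⁻¹ =
      R.nn i * y * (R.nn i)⁻¹ * (R.nn i * b * m) * y⁻¹ * (R.nn i)⁻¹ := by group
  rw [e3, e]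
  group

theorem step2 (i : Fin l) {m : G} (hm : m ∈ R.N) {u : Equiv.Perm (Fin n)} (hu : R.Act m u)
    (h1 : S.Pos (u⁻¹ (S.p i))) (h2 : ¬ S.Pos (u (S.p i))) {b : G} (hb : b ∈ R.B) :
    ∃ c ∈ R.Grp, ∃ b' ∈ R.B, c * (b * m) * c⁻¹ = b' * (R.nn i * m) := by
  obtain ⟨x₀, hx₀, hx₀1⟩ : ∃ x ∈ R.X (S.p i), x ≠ 1 := by
    by_contra hcon
    push Not at hcon
    exact R.X_ne i ((Subgroup.eq_bot_iff_forall _).2 hcon)
  have hx₀B : x₀ ∈ R.B := R.U_le_B (R.X_le_U (S.pos_p i) hx₀)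
  obtain ⟨b₁, hb₁, y, hy, k, hk, e⟩ := left_grow i hm hu h1 (mul_mem hx₀B hb)
  have hne : u⁻¹ (S.p i) ≠ S.p i := by
    intro h
    rw [Equiv.Perm.inv_eq_iff_eq] at h
    rw [← h] at h2
    exact h2 (S.pos_p i)
  have hyU : y ∈ R.Ui i := R.X_le_Ui h1 hne hy
  -- z
  have hz : k * x₀⁻¹ * k⁻¹ ∈ R.X (S.p i) := R.H_X k hk _ _ (inv_mem hx₀)
  have hz1 : k * x₀⁻¹ * k⁻¹ ≠ 1 := by
    intro h
    apply hx₀1
    have : x₀ = (k⁻¹ * (k * x₀⁻¹ * k⁻¹) * k)⁻¹ := by group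
    rw [this, h]; group
  generalize hzz : k * x₀⁻¹ * k⁻¹ = z at hz hz1
  have hy' : z⁻¹ * y * z ∈ R.Ui i := by
    have := R.XU i z⁻¹ (inv_mem hz) y hyU
    rwa [inv_inv] at this
  have ht := (act_nn (R := R) i).conj hz
  rw [S.w_p] at ht
  have ht1 : R.nn i * z * (R.nn i)⁻¹ ≠ 1 := by
    intro h; apply hz1
    have : z = (R.nn i)⁻¹ * (R.nn i * z * (R.nn i)⁻¹) * R.nn i := by group
    rw [this, h]; group
  obtain ⟨a, ha, h', hh', c, hc, hac⟩ := R.rank1 i _ ht ht1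
  have ha' : (R.nn i)⁻¹ * a * R.nn i ∈ R.X (S.neg (S.p i)) := by
    have := (act_nn (R := R) i).conj' ha
    rwa [S.w_inv, S.w_p] at this
  have ha'' := hu.conj ha'
  rw [S.W_neg hu.1] at ha''
  have hpos : S.Pos (S.neg (u (S.p i))) := (S.pos_neg_iff _).2 h2
  have hne2 : S.neg (u (S.p i)) ≠ S.p i := by
    intro h
    rw [← S.W_neg hu.1, ← Equiv.Perm.eq_inv_iff_eq] at h
    rw [← h, S.pos_neg_iff] at h1
    exact h1 (S.pos_p i)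
  have ha3 : R.nn i * (m * ((R.nn i)⁻¹ * a * R.nn i) * m⁻¹) * (R.nn i)⁻¹ ∈ R.B :=
    R.U_le_B (R.X_le_U (S.pos_w i _ hpos hne2) (R.nn_X i _ _ ha''))
  have hβ : h' * c * (R.nn i * (z⁻¹ * y * z) * (R.nn i)⁻¹) * (R.nn i * k * (R.nn i)⁻¹) ∈ R.B :=
    mul_mem (mul_mem (mul_mem (R.H_le_B hh') (R.U_le_B (R.X_le_U (S.pos_p i) hc)))
      (R.U_le_B (R.Ui_le_U i (nn_Ui i _ hy')))) (R.H_le_B (R.nn_H i k hk))
  have hnn : R.nn i ∈ R.Grp := N_le_Grp (R.nn_mem_N i)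
  generalize hβ' : h' * c * (R.nn i * (z⁻¹ * y * z) * (R.nn i)⁻¹) * (R.nn i * k * (R.nn i)⁻¹) = β at hβ
  refine ⟨β * (R.nn i * x₀), mul_mem (B_le_Grp hβ) (mul_mem hnn (B_le_Grp hx₀B)),
    β * b₁ * (R.nn i * (m * ((R.nn i)⁻¹ * a * R.nn i) * m⁻¹) * (R.nn i)⁻¹), mul_mem (mul_mem hβ hb₁) ha3, ?_⟩
  have e1 : β * (R.nn i * x₀) * (b * m) * (β * (R.nn i * x₀))⁻¹ =
      β * (R.nn i * (x₀ * b) * m) * x₀⁻¹ * (R.nn i)⁻¹ * β⁻¹ := by group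
  rw [e1, e]
  -- goal: β * (b₁ * (nn i * m) * (y * k)) * x₀⁻¹ * (nn i)⁻¹ * β⁻¹ = ...
  have e2 : y * k * x₀⁻¹ = z * (z⁻¹ * y * z) * k := by
    rw [← hzz]; group
  have e3 : z * (R.nn i)⁻¹ = (R.nn i)⁻¹ * (a * R.nn i * h' * c) := by
    rw [← hac]; group
  have e4 : (y * k) * x₀⁻¹ * (R.nn i)⁻¹ = (R.nn i)⁻¹ * a * R.nn i * β := by
    rw [e2, ← hβ']
    calc z * (z⁻¹ * y * z) * k * (R.nn i)⁻¹ =
        (z * (R.nn i)⁻¹) * (R.nn i * (z⁻¹ * y * z) * (R.nn i)⁻¹) * (R.nn i * k * (R.nn i)⁻¹) := by group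
      _ = _ := by rw [e3]; group
  calc β * (b₁ * (R.nn i * m) * (y * k)) * x₀⁻¹ * (R.nn i)⁻¹ * β⁻¹ =
      β * b₁ * (R.nn i * m) * ((y * k) * x₀⁻¹ * (R.nn i)⁻¹) * β⁻¹ := by group
    _ = _ := by rw [e4]; group

theorem step0 (hH : R.H = ⊥) {g : G} (hg : g ∈ R.Grp) (hg1 : g ≠ 1) :
    ∃ c ∈ R.Grp, ∃ b ∈ R.B, ∃ m ∈ R.N, ∃ u, R.Act m u ∧ u ≠ 1 ∧ c * g * c⁻¹ = b * m := by
  have key : ∀ g : G, g ∈ R.Grp → g ∉ R.B → ∃ c ∈ R.Grp, ∃ b ∈ R.B, ∃ m ∈ R.N, ∃ u, R.Act m u ∧ u ≠ 1 ∧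
      c * g * c⁻¹ = b * m := by
    intro g hg hgB
    obtain ⟨b, hb, m, hm, b', hb', rfl⟩ := exists_bnb hg
    obtain ⟨u, hu⟩ := exists_act hm
    refine ⟨b', B_le_Grp hb', b' * b, mul_mem hb' hb, m, hm, u, hu, ?_, by group⟩
    rintro rfl
    exact hgB (mul_mem (mul_mem hb (R.H_le_B (mem_H_of_act_one hm hu))) hb')
  by_cases hgB : g ∈ R.B
  · obtain ⟨u, hu, hlong⟩ := S.exists_longest'
    obtain ⟨m, hm, hmu⟩ := exists_act_of_mem (R := R) hu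
    have hmG : m ∈ R.Grp := N_le_Grp hm
    have hmB : m * g * m⁻¹ ∉ R.B := by
      intro h
      obtain ⟨v, hv, k, hk, rfl⟩ := mem_B.1 hgB
      rw [hH, Subgroup.mem_bot] at hk
      subst hk
      rw [mul_one] at h hg1
      have h2 : m * v * m⁻¹ ∈ R.V := act_gen hmu (fun r hr => hlong r hr) v hv
      have h3 := R.B_inf_V h h2
      apply hg1
      have : v = m⁻¹ * (m * v * m⁻¹) * m := by group
      rw [this, h3]; group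
    obtain ⟨c, hc, b, hb, m', hm', u', hu', hne, e⟩ := key _ (mul_mem (mul_mem hmG hg) (inv_mem hmG)) hmB
    refine ⟨c * m, mul_mem hc hmG, b, hb, m', hm', u', hu', hne, ?_⟩
    rw [← e]; group
  · exact key g hg hgB

end gen

section s16

theorem grow16 : ∀ k : Fin 16, k = 0 ∨ k = 13 ∨ k = 14 ∨ k = 15 ∨
    (∃ i : Fin 2, pos16 ((el16 k)⁻¹ (p16 i)) ∧ pos16 (el16 k (p16 i)) ∧ el16 k (p16 i) ≠ p16 i ∧
      ∃ k' : Fin 16, el16 k' = w16 i * el16 k * (w16 i)⁻¹ ∧ k < k') ∨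
    (∃ i : Fin 2, pos16 ((el16 k)⁻¹ (p16 i)) ∧ ¬ pos16 (el16 k (p16 i)) ∧
      ∃ k' : Fin 16, el16 k' = w16 i * el16 k ∧ k < k') := by
  decide +kernel

variable {G : Type*} [Group G] (R : RGrp S16 G)

theorem red16' (hH : R.H = ⊥) {g : G} (hg : g ∈ R.Grp) (hg1 : g ≠ 1) :
    ∃ c ∈ R.Grp, ∃ b ∈ R.B, ∃ m ∈ R.N, ∃ k : Fin 16, (k = 13 ∨ k = 14 ∨ k = 15) ∧ R.Act m (el16 k) ∧
      c * g * c⁻¹ = b * m := by
  obtain ⟨c, hc, b, hb, m, hm, u, hu, hne, e⟩ := step0 hH hg hg1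
  obtain ⟨k, rfl⟩ := mem_W16 hu.1
  have key : ∀ d : ℕ, ∀ k : Fin 16, 15 - (k : ℕ) = d → k ≠ 0 → ∀ c ∈ R.Grp, ∀ b ∈ R.B, ∀ m ∈ R.N, R.Act m (el16 k) →
      c * g * c⁻¹ = b * m → ∃ c ∈ R.Grp, ∃ b ∈ R.B, ∃ m ∈ R.N, ∃ k : Fin 16, (k = 13 ∨ k = 14 ∨ k = 15) ∧
      R.Act m (el16 k) ∧ c * g * c⁻¹ = b * m := by
    intro d
    induction d using Nat.strong_induction_on with
    | _ d ih =>
      intro k hd hk0 c hc b hb m hm hu e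
      rcases grow16 k with h | h | h | h | ⟨i, h1, h2, h3, k', hk', hlt⟩ | ⟨i, h1, h2, k', hk', hlt⟩
      · exact absurd h hk0
      · exact ⟨c, hc, b, hb, m, hm, k, Or.inl h, hu, e⟩
      · exact ⟨c, hc, b, hb, m, hm, k, Or.inr (Or.inl h), hu, e⟩
      · exact ⟨c, hc, b, hb, m, hm, k, Or.inr (Or.inr h), hu, e⟩
      · obtain ⟨c', hc', b', hb', e'⟩ := step1 i hm hu h1 h2 h3 hb
        have hu' : R.Act (R.nn i * m * (R.nn i)⁻¹) (el16 k') := by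
          rw [hk']
          exact ((act_nn i).mul hu).mul (act_nn i).inv
        have hlt' : (k : ℕ) < k' := hlt
        refine ih (15 - (k' : ℕ)) (by omega) k' rfl ?_ (c' * c) (mul_mem hc' hc) b' hb' _
          (mul_mem (mul_mem (R.nn_mem_N i) hm) (inv_mem (R.nn_mem_N i))) hu' ?_
        · rintro rfl
          exact absurd hlt' (by simp)
        · rw [← e', ← e]; group
      · obtain ⟨c', hc', b', hb', e'⟩ := step2 i hm hu h1 h2 hb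
        have hu' : R.Act (R.nn i * m) (el16 k') := by
          rw [hk']
          exact (act_nn i).mul hu
        have hlt' : (k : ℕ) < k' := hlt
        refine ih (15 - (k' : ℕ)) (by omega) k' rfl ?_ (c' * c) (mul_mem hc' hc) b' hb' _
          (mul_mem (R.nn_mem_N i) hm) hu' ?_
        · rintro rfl
          exact absurd hlt' (by simp)
        · rw [← e', ← e]; group
  refine key _ k rfl ?_ c hc b hb m hm hu e
  rintro rfl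
  exact hne rfl

/-- Every nontrivial element is conjugate to `u * n_w` with `w` one of the three elements of length at least 7. -/
theorem red (hH : R.H = ⊥) {g : G} (hg : g ∈ R.Grp) (hg1 : g ≠ 1) :
    ∃ c ∈ R.Grp, ∃ u ∈ R.U, ∃ k : Fin 16, (k = 13 ∨ k = 14 ∨ k = 15) ∧
      c * g * c⁻¹ = u * R.nd (word16 k) := by
  obtain ⟨c, hc, b, hb, m, hm, k, hk, hu, e⟩ := red16' R hH hg hg1
  have h1 : R.Act (R.nd (word16 k)) (el16 k) := act_nd (word16 k)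
  have h2 : (R.nd (word16 k))⁻¹ * m ∈ R.H := inv_mul_mem_H (nd_mem_N _) hm h1 hu
  rw [hH, Subgroup.mem_bot, inv_mul_eq_one] at h2
  obtain ⟨v, hv, h, hh, rfl⟩ := mem_B.1 hb
  rw [hH, Subgroup.mem_bot] at hh
  subst hh
  refine ⟨c, hc, v, hv, k, hk, ?_⟩
  rw [e, h2, mul_one]

end s16

end Cfsg.Agent.H68.TitsRed
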